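import Mathlib

set_option autoImplicit false
set_option maxHeartbeats 1000000

/-!
A cyclic group of prime order `q` acting fixed-point-freely on an elementary abelian `p`-group
`W` (written additively, the action given by `T : AddMonoid.End W`): the ring `ℤ[T]` of
endomorphisms.  Used for the groups with exactly three automorphism orbits.
-/

namespace Cfsg.Agent.Helper20.FrobMod

open Polynomial Module

variable {W : Type*} [AddCommGroup W]

theorem sum_apply (s : Finset ℕ) (F : ℕ → AddMonoid.End W) (w : W) :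
    (∑ i ∈ s, F i) w = ∑ i ∈ s, F i w := by
  classical
  induction s using Finset.induction_on with
  | empty => rw [Finset.sum_empty, Finset.sum_empty]; rfl
  | insert a s ha ih =>
    rw [Finset.sum_insert ha, Finset.sum_insert ha, ← ih]
    rfl

theorem geom_zero (T : AddMonoid.End W) (q : ℕ) (hTq : T ^ q = 1)
    (hfix : ∀ w : W, T w = w → w = 0) : ∑ i ∈ Finset.range q, T ^ i = 0 := by
  have h1 : (T - 1) * ∑ i ∈ Finset.range q, T ^ i = 0 := by
    rw [mul_geom_sum, hTq, sub_self]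
  apply DFunLike.ext
  intro w
  obtain ⟨s, hs⟩ : ∃ s, s = (∑ i ∈ Finset.range q, T ^ i) w := ⟨_, rfl⟩
  have h2 : T s = s := by
    have h3 : ((T - 1) * ∑ i ∈ Finset.range q, T ^ i) w = 0 := by rw [h1]; rfl
    have h4 : ((T - 1) * ∑ i ∈ Finset.range q, T ^ i) w = T s - s := by rw [hs]; rfl
    rw [h4] at h3
    exact sub_eq_zero.mp h3
  show (∑ i ∈ Finset.range q, T ^ i) w = 0
  rw [← hs]
  exact hfix s h2

theorem aeval_cyc (T : AddMonoid.End W) (q : ℕ) [Fact q.Prime] (hTq : T ^ q = 1)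
    (hfix : ∀ w : W, T w = w → w = 0) : aeval T (cyclotomic q ℤ) = 0 := by
  rw [cyclotomic_prime, map_sum]
  simp only [map_pow, aeval_X]
  exact geom_zero T q hTq hfix

theorem aeval_comm (T : AddMonoid.End W) (g : ℤ[X]) : aeval T g * T = T * aeval T g := by
  have h : aeval T (g * X) = aeval T (X * g) := by rw [mul_comm]
  rwa [map_mul, map_mul, aeval_X] at h

theorem aeval_red (T : AddMonoid.End W) (q : ℕ) [Fact q.Prime] (hTq : T ^ q = 1)
    (hfix : ∀ w : W, T w = w → w = 0) (g : ℤ[X]) :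
    ∃ c : ℕ → ℤ, aeval T g = ∑ i ∈ Finset.range (q - 1), c i • T ^ i := by
  have hm : (cyclotomic q ℤ).Monic := cyclotomic.monic q ℤ
  have hdeg : (cyclotomic q ℤ).natDegree = q - 1 := by
    rw [natDegree_cyclotomic, Nat.totient_prime (Fact.out : q.Prime)]
  have hne : cyclotomic q ℤ ≠ 1 := by
    intro h
    have h0 : (cyclotomic q ℤ).natDegree = 0 := by rw [h, natDegree_one]
    rw [hdeg] at h0
    have := (Fact.out : q.Prime).two_le
    omega
  have h1 : aeval T g = aeval T (g %ₘ cyclotomic q ℤ) := by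
    have h2 := congrArg (aeval T) (modByMonic_add_div g (cyclotomic q ℤ))
    rw [map_add, map_mul, aeval_cyc T q hTq hfix, zero_mul, add_zero] at h2
    exact h2.symm
  have h3 : (g %ₘ cyclotomic q ℤ).natDegree < q - 1 := by
    rw [← hdeg]
    exact natDegree_modByMonic_lt g hm hne
  refine ⟨fun i => (g %ₘ cyclotomic q ℤ).coeff i, ?_⟩
  rw [h1, aeval_eq_sum_range' h3]

/-- A `T`-invariant subgroup has order `≡ 1` modulo `q`. -/
theorem card_inv_modEq [Finite W] (T : AddMonoid.End W) (q : ℕ) [Fact q.Prime] (hTq : T ^ q = 1)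
    (hfix : ∀ w : W, T w = w → w = 0) (U : AddSubgroup W) (hU : ∀ u ∈ U, T u ∈ U) :
    Nat.card U ≡ 1 [MOD q] := by
  classical
  haveI : Fintype ↥U := Fintype.ofFinite _
  let f : Function.End ↥U := fun u => ⟨T u, hU u u.2⟩
  have hpow : ∀ (k : ℕ) (u : ↥U), (((f ^ k : Function.End ↥U) u : ↥U) : W) = (T ^ k) (u : W) := by
    intro k
    induction k with
    | zero => intro u; rfl
    | succ k ih =>
      intro u
      rw [pow_succ, pow_succ]
      show (((f ^ k : Function.End ↥U) (f u) : ↥U) : W) = (T ^ k) (T (u : W))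
      rw [ih]
  have hf : f ^ q ^ 1 = 1 := by
    rw [pow_one]
    funext u
    apply Subtype.ext
    rw [hpow, hTq]
    rfl
  have h := Equiv.Perm.card_fixedPoints_modEq (f := f) (p := q) (n := 1) hf
  have hfp : Function.fixedPoints f = {0} := by
    ext u
    rw [Function.mem_fixedPoints, Set.mem_singleton_iff]
    constructor
    · intro hu
      have h1 : T (u : W) = u := congrArg Subtype.val hu
      exact Subtype.ext (hfix _ h1)
    · intro hu
      rw [hu]
      apply Subtype.ext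
      show T 0 = 0
      exact map_zero T
  have hc1 : Nat.card ↥(Function.fixedPoints f) = 1 := by
    rw [Nat.card_coe_set_eq, hfp, Set.ncard_singleton]
  rw [← Nat.card_eq_fintype_card, ← Nat.card_eq_fintype_card, hc1] at h
  exact h

/-- If `p` is a primitive root modulo `q`, a polynomial in `T` killing a nonzero vector is
zero. -/
theorem inj_of_primitive [Finite W] {p q : ℕ} [Fact p.Prime] [Fact q.Prime]
    (hpW : ∀ w : W, p • w = 0) (T : AddMonoid.End W) (hTq : T ^ q = 1)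
    (hfix : ∀ w : W, T w = w → w = 0) (hprim : orderOf (p : ZMod q) = q - 1)
    (g : ℤ[X]) (w : W) (hw : w ≠ 0) (hgw : aeval T g w = 0) : aeval T g = 0 := by
  classical
  have hp : p.Prime := Fact.out
  letI : Module (ZMod p) W := AddCommGroup.zmodModule hpW
  let evw : ℤ[X] →+ W :=
    { toFun := fun h => aeval T h w
      map_zero' := by rw [map_zero]; rfl
      map_add' := fun a b => by rw [map_add]; rfl }
  have hevw : ∀ h : ℤ[X], evw h = aeval T h w := fun h => rfl
  obtain ⟨U, hUdef⟩ : ∃ U : AddSubgroup W, U = evw.range := ⟨_, rfl⟩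
  have hUmem : ∀ u : W, u ∈ U ↔ ∃ h : ℤ[X], aeval T h w = u := by
    intro u
    rw [hUdef, AddMonoidHom.mem_range]
    rfl
  have hUinv : ∀ u ∈ U, T u ∈ U := by
    intro u hu
    obtain ⟨h, rfl⟩ := (hUmem u).mp hu
    refine (hUmem _).mpr ⟨X * h, ?_⟩
    rw [map_mul, aeval_X]
    rfl
  have hwU : w ∈ U := by
    refine (hUmem w).mpr ⟨1, ?_⟩
    rw [map_one]
    rfl
  have hmod : Nat.card U ≡ 1 [MOD q] := card_inv_modEq T q hTq hfix U hUinv
  obtain ⟨Λ, hΛdef⟩ : ∃ Λ : (Fin (q - 1) → ZMod p) → W,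
      Λ = fun c => ∑ j : Fin (q - 1), c j • (T ^ (j : ℕ)) w := ⟨_, rfl⟩
  have hΛ : ∀ h : ℤ[X], ∃ c : Fin (q - 1) → ZMod p, Λ c = aeval T h w ∧
      (c = 0 → aeval T h = 0) := by
    intro h
    obtain ⟨c, hc⟩ := aeval_red T q hTq hfix h
    refine ⟨fun j => ((c j : ℤ) : ZMod p), ?_, ?_⟩
    · rw [hΛdef]
      show ∑ j : Fin (q - 1), ((c j : ℤ) : ZMod p) • (T ^ (j : ℕ)) w = aeval T h w
      rw [hc, sum_apply, Finset.sum_range]
      apply Finset.sum_congr rfl
      intro j _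
      rw [Int.cast_smul_eq_zsmul (ZMod p)]
      rfl
    · intro h0
      rw [hc]
      apply Finset.sum_eq_zero
      intro i hi
      have hi' : i < q - 1 := Finset.mem_range.mp hi
      have h1 : ((c i : ℤ) : ZMod p) = 0 := congrFun h0 ⟨i, hi'⟩
      apply DFunLike.ext
      intro v
      show c i • (T ^ i) v = 0
      rw [← Int.cast_smul_eq_zsmul (ZMod p), h1, zero_smul]
  have hUsub : (U : Set W) ⊆ Set.range Λ := by
    intro u hu
    obtain ⟨h, rfl⟩ := (hUmem u).mp hu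
    obtain ⟨c, hc, _⟩ := hΛ h
    exact ⟨c, hc⟩
  have hcardC : Nat.card (Fin (q - 1) → ZMod p) = p ^ (q - 1) := by
    rw [Nat.card_fun, Nat.card_zmod, Nat.card_fin]
  have hle1 : Nat.card U ≤ (Set.range Λ).ncard := by
    have h1 : Nat.card U = (U : Set W).ncard := Nat.card_coe_set_eq (U : Set W)
    rw [h1]
    exact Set.ncard_le_ncard hUsub (Set.toFinite _)
  have hle2 : (Set.range Λ).ncard ≤ p ^ (q - 1) := by
    rw [← hcardC, ← Set.image_univ, ← Set.ncard_univ]
    exact Set.ncard_image_le (Set.toFinite _)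
  obtain ⟨k, hk⟩ : ∃ k : ℕ, Nat.card U = p ^ k := by
    refine ⟨_, Nat.eq_prime_pow_of_unique_prime_dvd Nat.card_pos.ne' ?_⟩
    intro r hr hrd
    haveI : Fact r.Prime := ⟨hr⟩
    obtain ⟨u, hu⟩ := exists_prime_addOrderOf_dvd_card' r hrd
    have h1 : addOrderOf u ∣ p := by
      apply addOrderOf_dvd_of_nsmul_eq_zero
      apply Subtype.ext
      rw [AddSubgroup.coe_nsmul]
      exact hpW _
    rw [hu] at h1
    exact (Nat.prime_dvd_prime_iff_eq hr hp).mp h1
  have hk1 : k ≠ 0 := by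
    intro h0
    rw [h0, pow_zero] at hk
    haveI := (Nat.card_eq_one_iff_unique.mp hk).1
    have h1 : (⟨w, hwU⟩ : ↥U) = 0 := Subsingleton.elim _ _
    exact hw (congrArg Subtype.val h1)
  have hk2 : q - 1 ≤ k := by
    rw [hk] at hmod
    have h5 : ((p ^ k : ℕ) : ZMod q) = ((1 : ℕ) : ZMod q) :=
      (ZMod.natCast_eq_natCast_iff _ _ _).mpr hmod
    rw [Nat.cast_pow, Nat.cast_one] at h5
    have h6 := orderOf_dvd_of_pow_eq_one h5
    rw [hprim] at h6
    exact Nat.le_of_dvd (Nat.pos_of_ne_zero hk1) h6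
  have hcardeq : (Set.range Λ).ncard = Nat.card (Fin (q - 1) → ZMod p) := by
    rw [hcardC]
    apply le_antisymm hle2
    calc p ^ (q - 1) ≤ p ^ k := Nat.pow_le_pow_right hp.pos hk2
      _ = Nat.card U := hk.symm
      _ ≤ _ := hle1
  have hΛinj : Function.Injective Λ := by
    have hb := (Set.rangeFactorization_surjective (f := Λ)).bijective_of_nat_card_le
      (by rw [Nat.card_coe_set_eq, hcardeq])
    intro a b hab
    apply hb.1
    apply Subtype.ext
    exact hab
  obtain ⟨c, hc1, hc2⟩ := hΛ g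
  apply hc2
  apply hΛinj
  rw [hc1, hgw, hΛdef]
  symm
  apply Finset.sum_eq_zero
  intro j _
  rw [Pi.zero_apply, zero_smul]

/-- the kernel of evaluation at `T` -/
noncomputable def kerI (T : AddMonoid.End W) : Ideal ℤ[X] :=
  RingHom.ker (aeval T : ℤ[X] →ₐ[ℤ] AddMonoid.End W)

/-- the induced embedding of `ℤ[X] ⧸ kerI T` into the endomorphism ring -/
noncomputable def rho (T : AddMonoid.End W) : (ℤ[X] ⧸ kerI T) →+* AddMonoid.End W :=
  Ideal.Quotient.lift (kerI T) (aeval T : ℤ[X] →ₐ[ℤ] AddMonoid.End W).toRingHom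
    (fun _ ha => RingHom.mem_ker.mp ha)

theorem rho_mk (T : AddMonoid.End W) (g : ℤ[X]) :
    rho T (Ideal.Quotient.mk (kerI T) g) = aeval T g := by
  unfold rho
  rw [Ideal.Quotient.lift_mk]
  rfl

theorem rho_inj (T : AddMonoid.End W) : Function.Injective (rho T) := by
  intro a b hab
  obtain ⟨g, rfl⟩ := Ideal.Quotient.mk_surjective a
  obtain ⟨h, rfl⟩ := Ideal.Quotient.mk_surjective b
  rw [rho_mk, rho_mk] at hab
  rw [Ideal.Quotient.eq]
  show g - h ∈ RingHom.ker (aeval T : ℤ[X] →ₐ[ℤ] AddMonoid.End W)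
  rw [RingHom.mem_ker, map_sub, hab, sub_self]

theorem kerI_maximal [Finite W] [Nontrivial W] (T : AddMonoid.End W)
    (hinj : ∀ g : ℤ[X], ∀ w : W, w ≠ 0 → aeval T g w = 0 → aeval T g = 0) :
    (kerI T).IsMaximal := by
  classical
  haveI : Finite (AddMonoid.End W) :=
    Finite.of_injective (fun f : AddMonoid.End W => (f : W → W)) DFunLike.coe_injective
  haveI : Finite (ℤ[X] ⧸ kerI T) := Finite.of_injective (rho T) (rho_inj T)
  haveI : Nontrivial (ℤ[X] ⧸ kerI T) := by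
    refine ⟨⟨0, 1, ?_⟩⟩
    intro h
    have h1 := congrArg (rho T) h
    rw [map_zero, map_one] at h1
    obtain ⟨w, hw⟩ := exists_ne (0 : W)
    have h2 : (0 : AddMonoid.End W) w = (1 : AddMonoid.End W) w := by rw [h1]
    exact hw h2.symm
  haveI : NoZeroDivisors (ℤ[X] ⧸ kerI T) := by
    refine ⟨?_⟩
    intro a b hab
    obtain ⟨g, rfl⟩ := Ideal.Quotient.mk_surjective a
    obtain ⟨h, rfl⟩ := Ideal.Quotient.mk_surjective b
    by_cases hb : aeval T h = 0
    · right
      apply rho_inj T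
      rw [rho_mk, map_zero, hb]
    · left
      apply rho_inj T
      rw [rho_mk, map_zero]
      have h1 : aeval T g * aeval T h = 0 := by
        have h0 := congrArg (rho T) hab
        rwa [map_mul, rho_mk, rho_mk, map_zero] at h0
      have hinjh : Function.Injective (aeval T h) := by
        intro w₁ w₂ hw
        by_contra hne
        have h2 : aeval T h (w₁ - w₂) = 0 := by
          rw [map_sub, hw, sub_self]
        exact hb (hinj h (w₁ - w₂) (sub_ne_zero.mpr hne) h2)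
      have hsurj : Function.Surjective (aeval T h) := Finite.surjective_of_injective hinjh
      apply DFunLike.ext
      intro w
      obtain ⟨w', rfl⟩ := hsurj w
      have h2 : (aeval T g * aeval T h) w' = 0 := by rw [h1]; rfl
      exact h2
  haveI : IsDomain (ℤ[X] ⧸ kerI T) := NoZeroDivisors.to_isDomain _
  exact Ideal.Quotient.maximal_of_isField _ (Finite.isField_of_domain _)

theorem quot_natCast_zero {p : ℕ} (hpW : ∀ w : W, p • w = 0) (T : AddMonoid.End W) :
    ((p : ℕ) : ℤ[X] ⧸ kerI T) = 0 := by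
  apply rho_inj T
  rw [map_natCast, map_zero]
  apply DFunLike.ext
  intro w
  show ((p : ℕ) : AddMonoid.End W) w = 0
  rw [AddMonoid.End.natCast_apply]
  exact hpW w

/-- If `p` is a primitive root modulo `q`: transitivity on nonzero vectors by maps commuting
with `T`, and a Frobenius twist. -/
theorem exists_equiv_of_primitive [Finite W] [Nontrivial W] {p q : ℕ} [Fact p.Prime]
    [Fact q.Prime] (hpW : ∀ w : W, p • w = 0) (T : AddMonoid.End W) (hTq : T ^ q = 1)
    (hfix : ∀ w : W, T w = w → w = 0) (hprim : orderOf (p : ZMod q) = q - 1) :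
    (∀ u v : W, u ≠ 0 → v ≠ 0 → ∃ A : W ≃+ W, A u = v ∧ ∀ w, A (T w) = T (A w)) ∧
    (∃ A : W ≃+ W, ∀ w, A (T w) = (T ^ p) (A w)) := by
  classical
  have hp : p.Prime := Fact.out
  have hinj : ∀ g : ℤ[X], ∀ w : W, w ≠ 0 → aeval T g w = 0 → aeval T g = 0 :=
    fun g w hw hgw => inj_of_primitive hpW T hTq hfix hprim g w hw hgw
  haveI hmax : (kerI T).IsMaximal := kerI_maximal T hinj
  letI : Field (ℤ[X] ⧸ kerI T) := Ideal.Quotient.field (kerI T)
  letI : Module (ℤ[X] ⧸ kerI T) W := Module.compHom W (rho T)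
  have hsmul : ∀ (k : ℤ[X] ⧸ kerI T) (w : W), k • w = rho T k w := fun k w => rfl
  have hXs : ∀ w : W, (Ideal.Quotient.mk (kerI T) X) • w = T w := by
    intro w
    rw [hsmul, rho_mk, aeval_X]
  constructor
  · intro u v hu hv
    obtain ⟨φ₁, hφ₁⟩ : ∃ φ : Module.Dual (ℤ[X] ⧸ kerI T) W, φ u ≠ 0 := by
      by_contra hcon
      push Not at hcon
      exact hu ((Module.forall_dual_apply_eq_zero_iff (ℤ[X] ⧸ kerI T) u).mp hcon)
    obtain ⟨φ₂, hφ₂⟩ : ∃ φ : Module.Dual (ℤ[X] ⧸ kerI T) W, φ v ≠ 0 := by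
      by_contra hcon
      push Not at hcon
      exact hv ((Module.forall_dual_apply_eq_zero_iff (ℤ[X] ⧸ kerI T) v).mp hcon)
    obtain ⟨ℓ, hℓu, hℓv⟩ : ∃ ℓ : Module.Dual (ℤ[X] ⧸ kerI T) W, ℓ u = 1 ∧ ℓ v ≠ 0 := by
      by_cases h1 : φ₁ v = 0
      · by_cases h2 : φ₂ u = 0
        · refine ⟨(φ₁ u)⁻¹ • φ₁ + φ₂, ?_, ?_⟩
          · rw [LinearMap.add_apply, LinearMap.smul_apply, h2, add_zero, smul_eq_mul,
              inv_mul_cancel₀ hφ₁]
          · rw [LinearMap.add_apply, LinearMap.smul_apply, h1, smul_zero, zero_add]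
            exact hφ₂
        · refine ⟨(φ₂ u)⁻¹ • φ₂, ?_, ?_⟩
          · rw [LinearMap.smul_apply, smul_eq_mul, inv_mul_cancel₀ h2]
          · rw [LinearMap.smul_apply, smul_eq_mul]
            exact mul_ne_zero (inv_ne_zero h2) hφ₂
      · refine ⟨(φ₁ u)⁻¹ • φ₁, ?_, ?_⟩
        · rw [LinearMap.smul_apply, smul_eq_mul, inv_mul_cancel₀ hφ₁]
        · rw [LinearMap.smul_apply, smul_eq_mul]
          exact mul_ne_zero (inv_ne_zero hφ₁) h1
    obtain ⟨L, hLdef⟩ : ∃ L : W →ₗ[ℤ[X] ⧸ kerI T] W,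
        L = LinearMap.id - ℓ.smulRight (u - v) := ⟨_, rfl⟩
    have hLapp : ∀ w : W, L w = w - ℓ w • (u - v) := by
      intro w
      rw [hLdef]
      rfl
    have hLu : L u = v := by
      rw [hLapp, hℓu, one_smul, sub_sub_cancel]
    have hLinj : Function.Injective L := by
      intro w₁ w₂ hw12
      by_contra hne
      have hw : L (w₁ - w₂) = 0 := by rw [map_sub, hw12, sub_self]
      obtain ⟨z, hz⟩ : ∃ z, z = w₁ - w₂ := ⟨_, rfl⟩
      rw [← hz] at hw
      have hz0 : z ≠ 0 := by rw [hz]; exact sub_ne_zero.mpr hne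
      rw [hLapp] at hw
      have h1 : z = ℓ z • (u - v) := sub_eq_zero.mp hw
      have h2 : ℓ z = ℓ z * (1 - ℓ v) := by
        have h3 := congrArg ℓ h1
        rw [map_smul, map_sub, hℓu, smul_eq_mul] at h3
        exact h3
      have h4 : ℓ z * ℓ v = 0 := by
        have h5 : ℓ z * (1 - ℓ v) = ℓ z - ℓ z * ℓ v := by rw [mul_sub, mul_one]
        rw [h5] at h2
        have h6 : ℓ z - (ℓ z - ℓ z * ℓ v) = 0 := sub_eq_zero.mpr h2
        rw [sub_sub_cancel] at h6
        exact h6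
      have h7 : ℓ z = 0 := by
        rcases mul_eq_zero.mp h4 with h | h
        · exact h
        · exact absurd h hℓv
      rw [h7, zero_smul] at h1
      exact hz0 h1
    refine ⟨AddEquiv.ofBijective L.toAddMonoidHom
      ⟨hLinj, Finite.surjective_of_injective hLinj⟩, hLu, ?_⟩
    intro w
    show L (T w) = T (L w)
    rw [← hXs, ← hXs, map_smul]
  · haveI hchar : CharP (ℤ[X] ⧸ kerI T) p := by
      obtain ⟨c, hc⟩ := CharP.exists (ℤ[X] ⧸ kerI T)
      have h1 : c ∣ p :=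
        (CharP.cast_eq_zero_iff (ℤ[X] ⧸ kerI T) c p).mp (quot_natCast_zero hpW T)
      have h2 : c ≠ 1 := CharP.char_ne_one (ℤ[X] ⧸ kerI T) c
      rcases (Nat.dvd_prime hp).mp h1 with h3 | h3
      · exact absurd h3 h2
      · rw [h3] at hc; exact hc
    obtain ⟨Fr, hFr⟩ : ∃ Fr : (ℤ[X] ⧸ kerI T) →+ (ℤ[X] ⧸ kerI T), ∀ a, Fr a = a ^ p :=
      ⟨{ toFun := fun a => a ^ p
         map_zero' := zero_pow hp.ne_zero
         map_add' := fun a b => add_pow_char a b p }, fun a => rfl⟩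
    have hFrinj : Function.Injective Fr := by
      intro a b hab
      rw [hFr, hFr] at hab
      have h1 : (a - b) ^ p = 0 := by
        rw [sub_pow_char, hab, sub_self]
      exact sub_eq_zero.mp ((pow_eq_zero_iff hp.ne_zero).mp h1)
    let b := Basis.ofVectorSpace (ℤ[X] ⧸ kerI T) W
    obtain ⟨A₀, hA₀⟩ : ∃ A₀ : W →+ W,
        ∀ w, A₀ w = b.repr.symm (Finsupp.mapRange.addMonoidHom Fr (b.repr w)) :=
      ⟨(b.repr.symm.toLinearMap.toAddMonoidHom).comp
        ((Finsupp.mapRange.addMonoidHom Fr).comp b.repr.toLinearMap.toAddMonoidHom),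
        fun w => rfl⟩
    have hsemi : ∀ (c : ℤ[X] ⧸ kerI T) (w : W), A₀ (c • w) = c ^ p • A₀ w := by
      intro c w
      rw [hA₀, hA₀]
      have e1 : b.repr (c • w) = c • b.repr w := map_smul _ _ _
      have e2 : Finsupp.mapRange.addMonoidHom Fr (c • b.repr w) =
          c ^ p • Finsupp.mapRange.addMonoidHom Fr (b.repr w) := by
        ext i
        simp only [Finsupp.mapRange.addMonoidHom_apply, Finsupp.mapRange_apply,
          Finsupp.smul_apply, hFr, smul_eq_mul, mul_pow]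
      rw [e1, e2, map_smul]
    have hA₀inj : Function.Injective A₀ := by
      intro w₁ w₂ h12
      rw [hA₀, hA₀] at h12
      have h1 := b.repr.symm.injective h12
      have h2 : b.repr w₁ = b.repr w₂ := by
        ext i
        have h3 := DFunLike.congr_fun h1 i
        simp only [Finsupp.mapRange.addMonoidHom_apply, Finsupp.mapRange_apply] at h3
        exact hFrinj h3
      exact b.repr.injective h2
    refine ⟨AddEquiv.ofBijective A₀ ⟨hA₀inj, Finite.surjective_of_injective hA₀inj⟩, ?_⟩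
    intro w
    show A₀ (T w) = (T ^ p) (A₀ w)
    rw [← hXs, hsemi, hsmul, map_pow, rho_mk, aeval_X]

theorem twist (T : AddMonoid.End W) (A : W ≃+ W) (i : ℕ)
    (hA : ∀ w, A (T w) = (T ^ i) (A w)) (g : ℤ[X]) :
    ∀ w, A (aeval T g w) = aeval T (g.comp (X ^ i)) (A w) := by
  have hpow : ∀ (n : ℕ) (w : W), A ((T ^ n) w) = ((T ^ i) ^ n) (A w) := by
    intro n
    induction n with
    | zero => intro w; rfl
    | succ n ih =>
      intro w
      rw [pow_succ, pow_succ]
      show A ((T ^ n) (T w)) = ((T ^ i) ^ n) ((T ^ i) (A w))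
      rw [ih, hA]
  induction g using Polynomial.induction_on' with
  | add g h hg hh =>
    intro w
    rw [map_add, add_comp, map_add]
    show A (aeval T g w + aeval T h w) =
      aeval T (g.comp (X ^ i)) (A w) + aeval T (h.comp (X ^ i)) (A w)
    rw [map_add, hg, hh]
  | monomial n a =>
    intro w
    rw [monomial_comp, aeval_monomial, map_mul, aeval_C, map_pow, map_pow, aeval_X,
      ← Algebra.smul_def, ← Algebra.smul_def]
    show A (a • (T ^ n) w) = a • ((T ^ i) ^ n) (A w)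
    rw [map_zsmul, hpow]

/-- If twisted automorphisms are transitive on nonzero vectors, a polynomial in `T` killing a
nonzero vector is zero. -/
theorem inj_of_trans [Finite W] (T : AddMonoid.End W)
    (h1 : ∀ u v : W, u ≠ 0 → v ≠ 0 →
      ∃ (A : W ≃+ W) (i : ℕ), A u = v ∧ ∀ w, A (T w) = (T ^ i) (A w))
    (g : ℤ[X]) (w : W) (hw : w ≠ 0) (hgw : aeval T g w = 0) : aeval T g = 0 := by
  classical
  obtain ⟨N, hN⟩ : ∃ N : W → Set W,
      ∀ v, N v = Set.range (fun h : ℤ[X] => aeval T h v) := ⟨_, fun v => rfl⟩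
  have hmem : ∀ v z : W, z ∈ N v ↔ ∃ h : ℤ[X], aeval T h v = z := by
    intro v z
    rw [hN]
    rfl
  have hself : ∀ v : W, v ∈ N v := by
    intro v
    refine (hmem v v).mpr ⟨1, ?_⟩
    rw [map_one]
    rfl
  have hle : ∀ u v : W, u ≠ 0 → v ≠ 0 → (N u).ncard ≤ (N v).ncard := by
    intro u v hu hv
    obtain ⟨A, i, hAu, hA⟩ := h1 u v hu hv
    have hsub : A '' N u ⊆ N v := by
      rintro _ ⟨z, hz, rfl⟩
      obtain ⟨h, rfl⟩ := (hmem u z).mp hz
      refine (hmem v _).mpr ⟨h.comp (X ^ i), ?_⟩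
      rw [twist T A i hA h u, hAu]
    calc (N u).ncard = (A '' N u).ncard := (Set.ncard_image_of_injective _ A.injective).symm
      _ ≤ (N v).ncard := Set.ncard_le_ncard hsub (Set.toFinite _)
  have hmin : ∀ v z : W, v ≠ 0 → z ≠ 0 → z ∈ N v → N z = N v := by
    intro v z hv hz hzv
    obtain ⟨h, rfl⟩ := (hmem v z).mp hzv
    have hsub : N (aeval T h v) ⊆ N v := by
      intro y hy
      obtain ⟨h', rfl⟩ := (hmem _ y).mp hy
      refine (hmem v _).mpr ⟨h' * h, ?_⟩
      rw [map_mul]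
      rfl
    exact Set.eq_of_subset_of_ncard_le hsub (hle v _ hv hz) (Set.toFinite _)
  by_contra hne
  obtain ⟨w₂, hw₂⟩ : ∃ w₂ : W, aeval T g w₂ ≠ 0 := by
    by_contra hcon
    push Not at hcon
    exact hne (DFunLike.ext _ _ (fun v => hcon v))
  have hw₂0 : w₂ ≠ 0 := by
    intro h0
    rw [h0, map_zero] at hw₂
    exact hw₂ rfl
  obtain ⟨z, hz⟩ : ∃ z, z = aeval T g w₂ := ⟨_, rfl⟩
  have hz0 : z ≠ 0 := by rw [hz]; exact hw₂
  obtain ⟨w', hw'⟩ : ∃ w', w' = w + w₂ := ⟨_, rfl⟩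
  have hzw' : aeval T g w' = z := by rw [hw', map_add, hgw, zero_add, hz]
  have hw'0 : w' ≠ 0 := by
    intro h0
    rw [h0, map_zero] at hzw'
    exact hz0 hzw'.symm
  have e1 : N z = N w' := hmin w' z hw'0 hz0 ((hmem w' z).mpr ⟨g, hzw'⟩)
  have e2 : N z = N w₂ := hmin w₂ z hw₂0 hz0 ((hmem w₂ z).mpr ⟨g, hz.symm⟩)
  have h3 : w' ∈ N w₂ := by
    rw [← e2, e1]
    exact hself w'
  obtain ⟨s, hs⟩ := (hmem w₂ w').mp h3
  have h4 : w ∈ N w₂ := by
    refine (hmem w₂ w).mpr ⟨s - 1, ?_⟩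
    rw [map_sub, map_one]
    show aeval T s w₂ - w₂ = w
    rw [hs, hw', add_sub_cancel_right]
  have e3 : N w = N w₂ := hmin w₂ w hw₂0 hw h4
  have h5 : w₂ ∈ N w := by
    rw [e3]
    exact hself w₂
  obtain ⟨t, ht⟩ := (hmem w w₂).mp h5
  apply hw₂
  rw [← ht]
  show (aeval T g * aeval T t) w = 0
  rw [← map_mul, mul_comm, map_mul]
  show aeval T t (aeval T g w) = 0
  rw [hgw, map_zero]

/-- Conversely, enough twisted automorphisms force `p` to be a primitive root modulo `q`. -/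
theorem primitive_of_equiv [Finite W] [Nontrivial W] {p q : ℕ} [Fact p.Prime] [Fact q.Prime]
    (hpq : p ≠ q) (hpW : ∀ w : W, p • w = 0) (T : AddMonoid.End W) (hTq : T ^ q = 1)
    (hfix : ∀ w : W, T w = w → w = 0)
    (h1 : ∀ u v : W, u ≠ 0 → v ≠ 0 →
      ∃ (A : W ≃+ W) (i : ℕ), A u = v ∧ ∀ w, A (T w) = (T ^ i) (A w))
    (h2 : ∀ i : ℕ, ¬ q ∣ i → ∃ A : W ≃+ W, ∀ w, A (T w) = (T ^ i) (A w)) :
    orderOf (p : ZMod q) = q - 1 := by
  classical
  have hp : p.Prime := Fact.out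
  have hq : q.Prime := Fact.out
  have hinj : ∀ g : ℤ[X], ∀ w : W, w ≠ 0 → aeval T g w = 0 → aeval T g = 0 :=
    fun g w hw hgw => inj_of_trans T h1 g w hw hgw
  haveI hmax : (kerI T).IsMaximal := kerI_maximal T hinj
  letI : Field (ℤ[X] ⧸ kerI T) := Ideal.Quotient.field (kerI T)
  haveI : Finite (AddMonoid.End W) :=
    Finite.of_injective (fun f : AddMonoid.End W => (f : W → W)) DFunLike.coe_injective
  haveI : Finite (ℤ[X] ⧸ kerI T) := Finite.of_injective (rho T) (rho_inj T)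
  letI : Fintype (ℤ[X] ⧸ kerI T) := Fintype.ofFinite _
  haveI hchar : CharP (ℤ[X] ⧸ kerI T) p := by
    obtain ⟨c, hc⟩ := CharP.exists (ℤ[X] ⧸ kerI T)
    have h1 : c ∣ p :=
      (CharP.cast_eq_zero_iff (ℤ[X] ⧸ kerI T) c p).mp (quot_natCast_zero hpW T)
    have h2 : c ≠ 1 := CharP.char_ne_one (ℤ[X] ⧸ kerI T) c
    rcases (Nat.dvd_prime hp).mp h1 with h3 | h3
    · exact absurd h3 h2
    · rw [h3] at hc; exact hc
  obtain ⟨ξ, hξ⟩ : ∃ ξ : ℤ[X] ⧸ kerI T, ξ = Ideal.Quotient.mk (kerI T) X := ⟨_, rfl⟩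
  have hξq : ξ ^ q = 1 := by
    apply rho_inj T
    rw [map_pow, hξ, rho_mk, aeval_X, hTq, map_one]
  have hξ1 : ξ ≠ 1 := by
    intro h
    have h3 := congrArg (rho T) h
    rw [hξ, rho_mk, aeval_X, map_one] at h3
    obtain ⟨w, hw⟩ := exists_ne (0 : W)
    exact hw (hfix w (by rw [h3]; rfl))
  have hξord : orderOf ξ = q := orderOf_eq_prime hξq hξ1
  have hp0 : (p : ZMod q) ≠ 0 := by
    intro h
    have h3 : q ∣ p := (ZMod.natCast_eq_zero_iff p q).mp h
    exact hpq ((Nat.prime_dvd_prime_iff_eq hq hp).mp h3).symm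
  have hpow1 : (p : ZMod q) ^ (q - 1) = 1 := ZMod.pow_card_sub_one_eq_one hp0
  have hq1 : 0 < q - 1 := by have := hq.two_le; omega
  have hdle : orderOf (p : ZMod q) ≤ q - 1 := orderOf_le_of_pow_eq_one hq1 hpow1
  obtain ⟨d, hd⟩ : ∃ d, d = orderOf (p : ZMod q) := ⟨_, rfl⟩
  have hd0 : d ≠ 0 := by
    rw [hd]
    exact (orderOf_pos_iff.mpr (isOfFinOrder_iff_pow_eq_one.mpr ⟨q - 1, hq1, hpow1⟩)).ne'
  have hpd : p ^ d ≡ 1 [MOD q] := by
    rw [← ZMod.natCast_eq_natCast_iff, Nat.cast_pow, Nat.cast_one, hd]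
    exact pow_orderOf_eq_one _
  have hξpd : ξ ^ p ^ d = ξ := by
    have h3 : p ^ d % q = 1 := by
      have h4 : p ^ d % q = 1 % q := hpd
      rw [h4]
      exact Nat.mod_eq_of_lt hq.one_lt
    have h5 : p ^ d = q * (p ^ d / q) + 1 := by
      have h6 := Nat.div_add_mod (p ^ d) q
      rw [h3] at h6
      exact h6.symm
    rw [h5, pow_add, pow_mul, hξq, one_pow, one_mul, pow_one]
  have hfr : ∀ a : ℤ[X] ⧸ kerI T, a ^ p ^ d = a := by
    have h3 : iterateFrobenius (ℤ[X] ⧸ kerI T) p d = RingHom.id _ := by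
      apply Ideal.Quotient.ringHom_ext
      apply Polynomial.ringHom_ext'
      · exact RingHom.ext_int _ _
      · show (iterateFrobenius (ℤ[X] ⧸ kerI T) p d) (Ideal.Quotient.mk (kerI T) X) =
          Ideal.Quotient.mk (kerI T) X
        rw [iterateFrobenius_def, ← hξ]
        exact hξpd
    intro a
    have h4 := RingHom.congr_fun h3 a
    rw [iterateFrobenius_def] at h4
    exact h4
  have hcardle : Fintype.card (ℤ[X] ⧸ kerI T) ≤ p ^ d := by
    have hne : (X ^ p ^ d - X : (ℤ[X] ⧸ kerI T)[X]) ≠ 0 :=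
      FiniteField.X_pow_card_pow_sub_X_ne_zero _ hd0 hp.one_lt
    have h3 := card_le_degree_of_subset_roots
      (p := (X ^ p ^ d - X : (ℤ[X] ⧸ kerI T)[X])) (Z := Finset.univ)
      (fun a _ => by
        rw [mem_roots hne, IsRoot.def, eval_sub, eval_pow, eval_X, hfr, sub_self])
    rw [FiniteField.X_pow_card_pow_sub_X_natDegree_eq _ hd0 hp.one_lt, Finset.card_univ] at h3
    exact h3
  letI : Algebra (ZMod p) (ℤ[X] ⧸ kerI T) := ZMod.algebra _ p
  have hfin : Module.finrank (ZMod p) (ℤ[X] ⧸ kerI T) ≤ d := by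
    have h3 : Fintype.card (ℤ[X] ⧸ kerI T) =
        p ^ Module.finrank (ZMod p) (ℤ[X] ⧸ kerI T) := by
      rw [Module.card_eq_pow_finrank (K := ZMod p) (V := ℤ[X] ⧸ kerI T), ZMod.card]
    rw [h3] at hcardle
    exact (Nat.pow_le_pow_iff_right hp.one_lt).mp hcardle
  obtain ⟨μ, hμ⟩ : ∃ μ : (ZMod p)[X], μ = minpoly (ZMod p) ξ := ⟨_, rfl⟩
  have hint : IsIntegral (ZMod p) ξ := IsIntegral.of_finite (ZMod p) ξ
  have hμmonic : μ.Monic := by rw [hμ]; exact minpoly.monic hint
  have hμdeg : μ.natDegree ≤ d := by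
    rw [hμ]
    exact (minpoly.natDegree_le ξ).trans hfin
  have hμroot : eval₂ (algebraMap (ZMod p) (ℤ[X] ⧸ kerI T)) ξ μ = 0 := by
    rw [hμ, ← aeval_def]
    exact minpoly.aeval _ _
  have hσ : ∀ i : ℕ, ¬ q ∣ i →
      eval₂ (algebraMap (ZMod p) (ℤ[X] ⧸ kerI T)) (ξ ^ i) μ = 0 := by
    intro i hi
    obtain ⟨A, hA⟩ := h2 i hi
    have hker : ∀ a ∈ kerI T,
        ((Ideal.Quotient.mk (kerI T)).comp (compRingHom (X ^ i))) a = 0 := by
      intro a ha
      have ha0 : aeval T a = 0 := RingHom.mem_ker.mp ha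
      show Ideal.Quotient.mk (kerI T) (a.comp (X ^ i)) = 0
      rw [Ideal.Quotient.eq_zero_iff_mem]
      show a.comp (X ^ i) ∈ RingHom.ker (aeval T : ℤ[X] →ₐ[ℤ] AddMonoid.End W)
      rw [RingHom.mem_ker]
      apply DFunLike.ext
      intro w
      obtain ⟨w', rfl⟩ := A.surjective w
      rw [← twist T A i hA a w', ha0]
      show A 0 = 0
      exact map_zero A
    obtain ⟨σ, hσdef⟩ : ∃ σ : (ℤ[X] ⧸ kerI T) →+* (ℤ[X] ⧸ kerI T),
        σ = Ideal.Quotient.lift (kerI T)
          ((Ideal.Quotient.mk (kerI T)).comp (compRingHom (X ^ i))) hker := ⟨_, rfl⟩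
    have hσξ : σ ξ = ξ ^ i := by
      rw [hσdef, hξ, Ideal.Quotient.lift_mk]
      show Ideal.Quotient.mk (kerI T) ((X : ℤ[X]).comp (X ^ i)) = _
      rw [X_comp, map_pow]
    have h3 : σ.comp (algebraMap (ZMod p) (ℤ[X] ⧸ kerI T)) =
        algebraMap (ZMod p) (ℤ[X] ⧸ kerI T) := Subsingleton.elim _ _
    have h4 := Polynomial.hom_eval₂ (p := μ) (f := algebraMap (ZMod p) (ℤ[X] ⧸ kerI T))
      (g := σ) (x := ξ)
    rw [hμroot, map_zero, h3, hσξ] at h4
    exact h4.symm
  obtain ⟨Z, hZ⟩ : ∃ Z : Finset (ℤ[X] ⧸ kerI T),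
      Z = (Finset.range (q - 1)).image (fun i => ξ ^ (i + 1)) := ⟨_, rfl⟩
  have hZcard : Z.card = q - 1 := by
    rw [hZ, Finset.card_image_of_injOn, Finset.card_range]
    intro i hi j hj hij
    have hi' : i + 1 < q := by
      have := Finset.mem_range.mp (Finset.mem_coe.mp hi)
      omega
    have hj' : j + 1 < q := by
      have := Finset.mem_range.mp (Finset.mem_coe.mp hj)
      omega
    have h3 : i + 1 = j + 1 := pow_injOn_Iio_orderOf (x := ξ)
      (by rw [hξord]; exact hi') (by rw [hξord]; exact hj') hij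
    omega
  have hμne : μ.map (algebraMap (ZMod p) (ℤ[X] ⧸ kerI T)) ≠ 0 := (hμmonic.map _).ne_zero
  have hZsub : Z.val ⊆ (μ.map (algebraMap (ZMod p) (ℤ[X] ⧸ kerI T))).roots := by
    intro a ha
    rw [Finset.mem_val, hZ] at ha
    obtain ⟨i, hi, rfl⟩ := Finset.mem_image.mp ha
    have hi' : i + 1 < q := by
      have := Finset.mem_range.mp hi
      omega
    rw [mem_roots hμne, IsRoot.def, eval_map]
    exact hσ (i + 1) (fun hdvd => by
      have := Nat.le_of_dvd (Nat.succ_pos i) hdvd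
      omega)
  have h5 := card_le_degree_of_subset_roots hZsub
  rw [hZcard, hμmonic.natDegree_map] at h5
  rw [← hd]
  rw [← hd] at hdle
  exact le_antisymm hdle (h5.trans hμdeg)

end Cfsg.Agent.Helper20.FrobMod
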