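import Mathlib
import Cfsg.Agent.S2585
import Cfsg.Agent.Helper15.JordOrthMain
import Cfsg.Agent.Helper15.JordOrthRank
import Cfsg.Agent.Helper13.JordSymp
import Cfsg.Agent.Helper24.JordSymp
import Cfsg.Agent.Helper7.JordSymp
import Cfsg.Agent.Helper5.JordSymp
import Cfsg.Agent.Helper21.JordSymp
import Cfsg.Agent.Helper4.JordSymp

set_option autoImplicit false

namespace Cfsg.Agent.Helper20

open Matrix

universe u

theorem jord_quad_iff {F : Type u} [Field F] [Fintype F] [CharP F 2] {m t : ℕ}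
    (d : Fin t → ℕ) (hd : ∀ k, 1 ≤ d k) (hsum : ∑ k, d k = 2 * m) :
    (∃ Q : QuadraticForm F (Fin (2 * m) → F), (QuadraticMap.polarBilin Q).Nondegenerate ∧
      ∃ e : ((k : Fin t) × Fin (d k)) ≃ Fin (2 * m), ∃ A : ↥(Cfsg.isometryGroup F ⇑Q),
        IsConj (Matrix.reindex e e (Cfsg.jordanTypeMatrix d F))
          ((A : Matrix.GeneralLinearGroup (Fin (2 * m)) F) :
            Matrix (Fin (2 * m)) (Fin (2 * m)) F)) ↔
      ∀ j : ℕ, Odd j → Even (Finset.univ.filter (fun k : Fin t => d k = j)).card := by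
  classical
  have h2 : (2 : F) = 0 := CharTwo.two_eq_zero
  have hP1 : ∀ k, ((Cfsg.jordanTypeMatrix d F - 1) ^ k).rank = ∑ i, (d i - k) :=
    fun k => Helper15.jordanType_rank d k
  have hre : ∀ (e : ((k : Fin t) × Fin (d k)) ≃ Fin (2 * m)) (k : ℕ),
      ((Matrix.reindex e e (Cfsg.jordanTypeMatrix d F) - 1) ^ k).rank = ∑ i, (d i - k) := by
    intro e k
    have h3 : ∀ Z, Matrix.reindex e e Z = Matrix.reindexAlgEquiv F F e Z :=
      fun Z => (Matrix.reindexAlgEquiv_apply F F e Z).symm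
    have h1 : (Matrix.reindex e e (Cfsg.jordanTypeMatrix d F) - 1) ^ k
        = Matrix.reindex e e ((Cfsg.jordanTypeMatrix d F - 1) ^ k) := by
      rw [h3, h3, map_pow, map_sub, map_one]
    rw [h1, Matrix.rank_reindex, hP1]
  have hzero : ∑ i, (d i - 2 * m) = 0 := by
    apply Finset.sum_eq_zero
    intro i _
    have h1 : d i ≤ ∑ k, d k :=
      Finset.single_le_sum (fun _ _ => Nat.zero_le _) (Finset.mem_univ i)
    omega
  obtain ⟨ε⟩ : Nonempty (Fin (2 * m) ≃ Fin m ⊕ Fin m) :=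
    ⟨(Fintype.equivFinOfCardEq (by rw [Fintype.card_sum, Fintype.card_fin]; omega)).symm⟩
  constructor
  · rintro ⟨Q, hQ, e, A, c, hc⟩
    obtain ⟨Am, hAm⟩ : ∃ Am : Matrix (Fin (2 * m)) (Fin (2 * m)) F,
        Am = ((A : Matrix.GeneralLinearGroup (Fin (2 * m)) F) :
          Matrix (Fin (2 * m)) (Fin (2 * m)) F) := ⟨_, rfl⟩
    obtain ⟨J', hJ'⟩ : ∃ J' : Matrix (Fin (2 * m)) (Fin (2 * m)) F,
        J' = Matrix.reindex e e (Cfsg.jordanTypeMatrix d F) := ⟨_, rfl⟩
    have hc' : (c : Matrix (Fin (2 * m)) (Fin (2 * m)) F) * J'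
        = Am * (c : Matrix (Fin (2 * m)) (Fin (2 * m)) F) := by
      rw [hJ', hAm]
      exact hc
    have hpow : ∀ k, (c : Matrix (Fin (2 * m)) (Fin (2 * m)) F) * (J' - 1) ^ k
        = (Am - 1) ^ k * (c : Matrix (Fin (2 * m)) (Fin (2 * m)) F) := by
      intro k
      induction k with
      | zero => rw [pow_zero, pow_zero, mul_one, one_mul]
      | succ k ih =>
        rw [pow_succ, ← mul_assoc, ih, mul_assoc, pow_succ, mul_assoc]
        congr 1
        rw [mul_sub, sub_mul, hc', mul_one, one_mul]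
    have hcdet : IsUnit (c : Matrix (Fin (2 * m)) (Fin (2 * m)) F).det :=
      (Matrix.isUnit_iff_isUnit_det _).1 c.isUnit
    have hcidet : IsUnit ((c⁻¹ : (Matrix (Fin (2 * m)) (Fin (2 * m)) F)ˣ) :
        Matrix (Fin (2 * m)) (Fin (2 * m)) F).det :=
      (Matrix.isUnit_iff_isUnit_det _).1 (c⁻¹).isUnit
    have hrank : ∀ k, ((Am - 1) ^ k).rank = ∑ i, (d i - k) := by
      intro k
      have h1 : (Am - 1) ^ k = (c : Matrix (Fin (2 * m)) (Fin (2 * m)) F) * (J' - 1) ^ k
          * ((c⁻¹ : (Matrix (Fin (2 * m)) (Fin (2 * m)) F)ˣ) :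
            Matrix (Fin (2 * m)) (Fin (2 * m)) F) := by
        rw [hpow, mul_assoc, Units.mul_inv, mul_one]
      rw [h1, Matrix.rank_mul_eq_left_of_isUnit_det _ _ hcidet,
        Matrix.rank_mul_eq_right_of_isUnit_det _ _ hcdet, hJ', hre]
    obtain ⟨P, hPdef⟩ : ∃ P : Matrix (Fin (2 * m)) (Fin (2 * m)) F,
        P = LinearMap.BilinForm.toMatrix' (QuadraticMap.polarBilin Q) := ⟨_, rfl⟩
    have hPalt : ∀ v, v ⬝ᵥ P *ᵥ v = 0 := by
      intro v
      have h1 : v ⬝ᵥ P *ᵥ v = QuadraticMap.polarBilin Q v v := by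
        rw [hPdef, ← Matrix.toBilin'_apply', Matrix.toBilin'_toMatrix']
      rw [h1]
      show QuadraticMap.polar Q v v = 0
      rw [QuadraticMap.polar_self, two_smul, ← two_mul, h2, zero_mul]
    have hPdet : P.det ≠ 0 := by
      rw [hPdef]
      exact Matrix.nondegenerate_iff_det_ne_zero.1
        (LinearMap.BilinForm.nondegenerate_toMatrix'_iff.2 hQ)
    have hAP : Amᵀ * P * Am = P := by
      have hcomp : LinearMap.BilinForm.comp (QuadraticMap.polarBilin Q) (Matrix.toLin' Am)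
          (Matrix.toLin' Am) = QuadraticMap.polarBilin Q := by
        refine LinearMap.ext fun u => LinearMap.ext fun w => ?_
        exact Helper15.os_polar_iso Q (Matrix.toLin' Am)
          (fun v => by rw [Matrix.toLin'_apply, hAm]; exact A.2 v v) u w
      have hP' := congrArg LinearMap.BilinForm.toMatrix' hcomp
      rw [LinearMap.BilinForm.toMatrix'_comp, LinearMap.toMatrix'_toLin'] at hP'
      rw [hPdef]
      exact hP'
    have hre2 : ∀ Z, Matrix.reindex ε ε Z = Matrix.reindexAlgEquiv F F ε Z :=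
      fun Z => (Matrix.reindexAlgEquiv_apply F F ε Z).symm
    obtain ⟨P1, hP1def⟩ : ∃ P1 : Matrix (Fin m ⊕ Fin m) (Fin m ⊕ Fin m) F,
        P1 = Matrix.reindex ε ε P := ⟨_, rfl⟩
    obtain ⟨A1, hA1def⟩ : ∃ A1 : Matrix (Fin m ⊕ Fin m) (Fin m ⊕ Fin m) F,
        A1 = Matrix.reindex ε ε Am := ⟨_, rfl⟩
    have hP1alt : ∀ v, v ⬝ᵥ P1 *ᵥ v = 0 := by
      intro v
      have h := hPalt (v ∘ ε)
      rw [hP1def, Matrix.reindex_apply, Matrix.submatrix_mulVec_equiv, Equiv.symm_symm,
        ← comp_equiv_symm_dotProduct, Equiv.symm_symm]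
      exact h
    have hP1det : P1.det ≠ 0 := by
      rw [hP1def, Matrix.det_reindex_self]
      exact hPdet
    have hA1P1 : A1ᵀ * P1 * A1 = P1 := by
      rw [hA1def, hP1def, Matrix.transpose_reindex, hre2, hre2, hre2, ← map_mul, ← map_mul, hAP]
    have heven : ∀ k, Even k → Even ((Am - 1) ^ k).rank := by
      intro k hk
      have h1 : (A1 - 1) ^ k = Matrix.reindex ε ε ((Am - 1) ^ k) := by
        rw [hA1def, hre2, hre2, map_pow, map_sub, map_one]
      have h3 := Helper13.symp_rank_even A1 P1 hP1alt hP1det hA1P1 k hk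
      rw [h1, Matrix.rank_reindex] at h3
      exact h3
    exact Helper24.count_even_of_rank_even_odd d
      (fun k hk => by rw [← hrank k]; exact heven k hk)
  · intro hpar
    obtain ⟨κ, hκ1, hκ2, A, M, hMalt, hMd, hAM, hcard, hrk⟩ :=
      Helper21.exists_of_blocks_alt (F := F) (Finset.univ.val.map d) (by
        intro j hj
        have h1 := hpar j hj
        have h2' : (Finset.univ.val.map d).count j
            = (Finset.univ.filter (fun k : Fin t => d k = j)).card := by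
          rw [Multiset.count_map, Finset.card_def, Finset.filter_val]
          congr 1
          apply Multiset.filter_congr
          intro x _
          exact eq_comm
        rw [h2']
        exact h1)
        (fun m => Helper7.even_block_form_alt m) (fun d => Helper5.pair_block_form_alt d)
    have hsum' : (Finset.univ.val.map d).sum = 2 * m := by
      rw [← hsum]
      rfl
    rw [hsum'] at hcard
    have hrk' : ∀ k, ((A - 1) ^ k).rank = ∑ i, (d i - k) := by
      intro k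
      rw [hrk k, Multiset.map_map]
      rfl
    obtain ⟨σ⟩ : Nonempty (κ ≃ Fin m ⊕ Fin m) :=
      ⟨Fintype.equivOfCardEq (by rw [hcard, Fintype.card_sum, Fintype.card_fin]; omega)⟩
    obtain ⟨e⟩ : Nonempty (((k : Fin t) × Fin (d k)) ≃ Fin (2 * m)) :=
      ⟨Fintype.equivFinOfCardEq (by
        rw [Fintype.card_sigma]
        simp only [Fintype.card_fin]
        exact hsum)⟩
    obtain ⟨M', hM'⟩ : ∃ M' : Matrix (Fin m ⊕ Fin m) (Fin m ⊕ Fin m) F,
        M' = Matrix.reindex σ σ M := ⟨_, rfl⟩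
    obtain ⟨A', hA'⟩ : ∃ A' : Matrix (Fin m ⊕ Fin m) (Fin m ⊕ Fin m) F,
        A' = Matrix.reindex σ σ A := ⟨_, rfl⟩
    have hre3 : ∀ Z, Matrix.reindex σ σ Z = Matrix.reindexAlgEquiv F F σ Z :=
      fun Z => (Matrix.reindexAlgEquiv_apply F F σ Z).symm
    have hM'alt : ∀ v, v ⬝ᵥ M' *ᵥ v = 0 := by
      intro v
      have h := hMalt (v ∘ σ)
      rw [hM', Matrix.reindex_apply, Matrix.submatrix_mulVec_equiv, Equiv.symm_symm,
        ← comp_equiv_symm_dotProduct, Equiv.symm_symm]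
      exact h
    have hM'd : M'.det ≠ 0 := by
      rw [hM', Matrix.det_reindex_self]
      exact hMd
    have hA'M : A'ᵀ * M' * A' = M' := by
      rw [hA', hM', Matrix.transpose_reindex, hre3, hre3, hre3, ← map_mul, ← map_mul, hAM]
    have hrkA' : ∀ k, ((A' - 1) ^ k).rank = ∑ i, (d i - k) := by
      intro k
      have h1 : (A' - 1) ^ k = Matrix.reindex σ σ ((A - 1) ^ k) := by
        rw [hA', hre3, hre3, map_pow, map_sub, map_one]
      rw [h1, Matrix.rank_reindex, hrk']
    obtain ⟨B, hB⟩ := Helper4.alt_to_symp A' M' hM'alt hM'd hA'M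
    obtain ⟨Q', hQ'pol, hQ'inv⟩ := Cfsg.Agent.S2585.result B
    obtain ⟨Bm, hBm⟩ : ∃ Bm : Matrix (Fin m ⊕ Fin m) (Fin m ⊕ Fin m) F,
        Bm = (B : Matrix (Fin m ⊕ Fin m) (Fin m ⊕ Fin m) F) := ⟨_, rfl⟩
    have hre4 : ∀ Z, Matrix.reindex ε.symm ε.symm Z = Matrix.reindexAlgEquiv F F ε.symm Z :=
      fun Z => (Matrix.reindexAlgEquiv_apply F F ε.symm Z).symm
    obtain ⟨B2, hB2⟩ : ∃ B2 : Matrix (Fin (2 * m)) (Fin (2 * m)) F,
        B2 = Matrix.reindex ε.symm ε.symm Bm := ⟨_, rfl⟩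
    have hrkB2 : ∀ k, ((B2 - 1) ^ k).rank = ∑ i, (d i - k) := by
      intro k
      have h1 : (B2 - 1) ^ k = Matrix.reindex ε.symm ε.symm ((Bm - 1) ^ k) := by
        rw [hB2, hre4, hre4, map_pow, map_sub, map_one]
      rw [h1, Matrix.rank_reindex, hBm, hB k, hrkA']
    have hu : IsUnit B2.det := by
      rw [hB2, Matrix.det_reindex_self, hBm]
      exact SymplecticGroup.symplectic_det B.2
    obtain ⟨Bi, hBi⟩ : ∃ Bi : Matrix (Fin (2 * m)) (Fin (2 * m)) F, Bi = B2⁻¹ := ⟨_, rfl⟩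
    have h1 : B2 * Bi = 1 := by
      rw [hBi]
      exact Matrix.mul_nonsing_inv B2 hu
    have h1' : Bi * B2 = 1 := by
      rw [hBi]
      exact Matrix.nonsing_inv_mul B2 hu
    obtain ⟨L, hL⟩ : ∃ L : (Fin (2 * m) → F) →ₗ[F] (Fin m ⊕ Fin m → F),
        ∀ v, L v = v ∘ ε.symm :=
      ⟨LinearMap.funLeft F F ε.symm, fun v => rfl⟩
    obtain ⟨Q, hQdef⟩ : ∃ Q : QuadraticForm F (Fin (2 * m) → F), ∀ v, Q v = Q' (L v) :=
      ⟨Q'.comp L, fun v => rfl⟩
    have hkey : ∀ u : Fin (2 * m) → F, (B2 *ᵥ u) ∘ ε.symm = Bm *ᵥ (u ∘ ε.symm) := by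
      intro u
      rw [hB2, Matrix.reindex_apply, Matrix.submatrix_mulVec_equiv]
      funext i
      simp
    have hQinv : ∀ u, Q (B2 *ᵥ u) = Q u := by
      intro u
      rw [hQdef, hQdef, hL, hL, hkey, hBm]
      exact hQ'inv _
    have hmem : (⟨B2, Bi, h1, h1'⟩ : Matrix.GeneralLinearGroup (Fin (2 * m)) F)
        ∈ Cfsg.isometryGroup F ⇑Q := by
      intro u v
      exact hQinv u
    have hnd : (QuadraticMap.polarBilin Q).Nondegenerate := by
      have h3 : QuadraticMap.polarBilin Q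
          = Matrix.toBilin' (Matrix.reindex ε.symm ε.symm (Matrix.J (Fin m) F)) := by
        refine LinearMap.ext fun u => LinearMap.ext fun w => ?_
        show QuadraticMap.polar Q u w = _
        have hp : QuadraticMap.polar Q u w = QuadraticMap.polar Q' (L u) (L w) := by
          unfold QuadraticMap.polar
          rw [hQdef, hQdef, hQdef, map_add]
        rw [hp, hQ'pol, Matrix.toBilin'_apply', hL, hL]
        unfold Cfsg.sympForm
        rw [Matrix.reindex_apply, Matrix.submatrix_mulVec_equiv]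
        simp only [Equiv.symm_symm]
        rw [← comp_equiv_symm_dotProduct]
      rw [h3]
      apply Matrix.Nondegenerate.toBilin'
      apply Matrix.nondegenerate_of_det_ne_zero
      rw [Matrix.det_reindex_self]
      intro h0
      have hJ := Matrix.J_det_mul_J_det (Fin m) F
      rw [h0, mul_zero] at hJ
      exact zero_ne_one hJ
    refine ⟨Q, hnd, e, ⟨_, hmem⟩, ?_⟩
    exact Helper15.isConj_of_rank_eq _ _
      (Helper15.matrix_eq_zero_of_rank _ (by rw [hre e (2 * m), hzero]))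
      (Helper15.matrix_eq_zero_of_rank _ (by rw [hrkB2 (2 * m), hzero]))
      (fun k => by rw [hre e k]; exact (hrkB2 k).symm)

end Cfsg.Agent.Helper20
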