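import Mathlib
import Cfsg.Prelude.Def_OddOrderLocal
import Cfsg.Agent.Helper1.Quat

set_option autoImplicit false

namespace Cfsg.Agent.Helper20.Meta

open scoped commutatorElement

/-! ## Number theory -/

/-- The geometric sum `1 + R + ... + R^(m-1)`. -/
def gs (R m : ℕ) : ℕ := ∑ i ∈ Finset.range m, R ^ i

theorem gs_zero (R : ℕ) : gs R 0 = 0 := by simp [gs]

theorem gs_succ (R m : ℕ) : gs R (m + 1) = gs R m + R ^ m := by
  simp [gs, Finset.sum_range_succ]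

theorem gs_one (m : ℕ) : gs 1 m = m := by simp [gs]

theorem gs_mul (R m : ℕ) (hR : 1 ≤ R) : (R - 1) * gs R m = R ^ m - 1 := by
  induction m with
  | zero => simp [gs_zero]
  | succ m ih =>
    rw [gs_succ, mul_add, ih]
    obtain ⟨k, rfl⟩ : ∃ k, R = k + 1 := ⟨R - 1, by omega⟩
    have h1 : 1 ≤ (k + 1) ^ m := Nat.one_le_pow _ _ (by omega)
    rw [Nat.add_sub_cancel, pow_succ]
    generalize (k + 1) ^ m = X at h1 ⊢
    have h2 : X * (k + 1) = k * X + X := by ring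
    rw [h2]
    generalize k * X = Y
    omega

theorem emult_gs {p : ℕ} (hp : p.Prime) (hp2 : p ≠ 2) (R : ℕ) (hR : R % p = 1) (m : ℕ) :
    emultiplicity p (gs R m) = emultiplicity p m := by
  by_cases h1 : R = 1
  · rw [h1, gs_one]
  · have hR1 : 1 ≤ R := by
      rcases Nat.eq_zero_or_pos R with h | h
      · rw [h, Nat.zero_mod] at hR; omega
      · exact h
    have hodd : Odd p := hp.odd_of_ne_two hp2
    have hdvd : p ∣ R - 1 := by
      have h2 := Nat.div_add_mod R p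
      exact ⟨R / p, by omega⟩
    have hnd : ¬ p ∣ R := by
      intro h
      have h3 := Nat.mod_eq_zero_of_dvd h
      omega
    have h2 := Nat.emultiplicity_pow_sub_pow hp hodd (x := R) (y := 1) hdvd hnd m
    rw [one_pow, ← gs_mul R m hR1, Nat.Prime.emultiplicity_mul hp] at h2
    have hfin : emultiplicity p (R - 1) ≠ ⊤ := by
      rw [← finiteMultiplicity_iff_emultiplicity_ne_top, Nat.finiteMultiplicity_iff]
      exact ⟨hp.ne_one, by omega⟩
    exact ENat.add_right_injective_of_ne_top hfin h2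

theorem pow_dvd_mul_gs_iff {p : ℕ} (hp : p.Prime) (hp2 : p ≠ 2) (R : ℕ) (hR : R % p = 1)
    (t x m : ℕ) : p ^ t ∣ x * gs R m ↔ p ^ t ∣ x * m := by
  rw [pow_dvd_iff_le_emultiplicity, pow_dvd_iff_le_emultiplicity, Nat.Prime.emultiplicity_mul hp,
    Nat.Prime.emultiplicity_mul hp, emult_gs hp hp2 R hR m]

theorem pow_dvd_of_mul {p : ℕ} (hp : p.Prime) (n s z y : ℕ) (hs : s < n) (h : p ^ n ∣ z * y)
    (hy : ¬ p ^ (s + 1) ∣ y) : p ^ (n - s) ∣ z := by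
  have hy0 : y ≠ 0 := by
    rintro rfl
    exact hy (dvd_zero _)
  obtain ⟨v, y', hy', rfl⟩ := Nat.exists_eq_pow_mul_and_not_dvd hy0 p hp.ne_one
  have hv : v ≤ s := by
    by_contra hcon
    push Not at hcon
    exact hy (Dvd.dvd.mul_right (pow_dvd_pow p hcon) y')
  have hcop : Nat.Coprime (p ^ n) y' :=
    Nat.Coprime.pow_left n ((Nat.Prime.coprime_iff_not_dvd hp).mpr hy')
  have h1 : p ^ n ∣ z * p ^ v := by
    apply hcop.dvd_of_dvd_mul_right
    rw [mul_assoc]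
    exact h
  have h2 : p ^ (n - v) * p ^ v ∣ z * p ^ v := by
    rw [← pow_add]
    have : n - v + v = n := by omega
    rw [this]
    exact h1
  have h3 : p ^ (n - v) ∣ z := Nat.dvd_of_mul_dvd_mul_right (pow_pos hp.pos v) h2
  exact (pow_dvd_pow p (by omega)).trans h3

theorem exists_solve {p : ℕ} (hp : p.Prime) (α m S t : ℕ) (hS : p ^ m ∣ S)
    (hS' : ¬ p ^ (m + 1) ∣ S) (ht : p ^ m ∣ t) : ∃ c : ℕ, p ^ α ∣ c * S + t := by
  obtain ⟨S', rfl⟩ := hS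
  obtain ⟨t1, rfl⟩ := ht
  have hS1 : ¬ p ∣ S' := by
    intro h
    apply hS'
    rw [pow_succ]
    exact mul_dvd_mul_left _ h
  rcases Nat.eq_zero_or_pos α with h0 | h0
  · exact ⟨0, by rw [h0, pow_zero]; exact one_dvd _⟩
  · have hcop : Nat.Coprime S' (p ^ α) :=
      (Nat.Coprime.pow_left α ((Nat.Prime.coprime_iff_not_dvd hp).mpr hS1)).symm
    have hlt : 1 < p ^ α := Nat.one_lt_pow (by omega) hp.one_lt
    obtain ⟨c0, -, hc0⟩ := Nat.exists_mul_mod_eq_one_of_coprime hcop hlt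
    have hq : S' * c0 = p ^ α * (S' * c0 / p ^ α) + 1 := by
      have := Nat.div_add_mod (S' * c0) (p ^ α)
      omega
    obtain ⟨P', hP'⟩ : ∃ P', p ^ α = P' + 1 := ⟨p ^ α - 1, by omega⟩
    generalize S' * c0 / p ^ α = q at hq
    rw [hP'] at hq ⊢
    refine ⟨c0 * t1 * P', ⟨p ^ m * (t1 * (P' * q + 1)), ?_⟩⟩
    calc c0 * t1 * P' * (p ^ m * S') + p ^ m * t1
        = p ^ m * t1 * (P' * (S' * c0) + 1) := by ring
      _ = p ^ m * t1 * (P' * ((P' + 1) * q + 1) + 1) := by rw [hq]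
      _ = (P' + 1) * (p ^ m * (t1 * (P' * q + 1))) := by ring

theorem not_dvd_of_solve {p : ℕ} (hp : p.Prime) (α m S t c : ℕ) (h : p ^ α ∣ c * S + t)
    (hS : p ^ m ∣ S) (ht : ¬ p ^ (m + 1) ∣ t) (hm : m < α) : ¬ p ∣ c := by
  intro hc
  apply ht
  have h1 : p ^ (m + 1) ∣ c * S := by
    rw [pow_succ, mul_comm (p ^ m) p]
    exact mul_dvd_mul hc hS
  have h2 : p ^ (m + 1) ∣ c * S + t := (pow_dvd_pow p (by omega)).trans h
  exact (Nat.dvd_add_right h1).mp h2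

/-! ## General group lemmas -/

theorem orderOf_pow_pow {X : Type*} [Group X] {p : ℕ} (hp : p.Prime) (g : X) (m s : ℕ)
    (hg : orderOf g = p ^ m) (hs : s ≤ m) : orderOf (g ^ p ^ s) = p ^ (m - s) := by
  rw [orderOf_pow_of_dvd (x := g) (n := p ^ s) (pow_ne_zero s hp.ne_zero)
    (by rw [hg]; exact pow_dvd_pow p hs), hg, Nat.pow_div hs hp.pos]

theorem card_eq_map_mul_inf {X Y : Type*} [Group X] [Group Y] (f : X →* Y) (H : Subgroup X) :
    Nat.card H = Nat.card (H.map f) * Nat.card (H ⊓ f.ker : Subgroup X) := by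
  have h1 : (f.comp H.subtype).range = H.map f := by
    rw [MonoidHom.range_comp, Subgroup.range_subtype]
  have h2 : (f.comp H.subtype).ker = f.ker.subgroupOf H := (MonoidHom.comap_ker f H.subtype).symm
  have h3 := Subgroup.index_ker (f.comp H.subtype)
  have h4 := Subgroup.card_mul_index (f.comp H.subtype).ker
  rw [h3, h1, h2] at h4
  have h5 : Nat.card (f.ker.subgroupOf H) = Nat.card (H ⊓ f.ker : Subgroup X) := by
    rw [← Subgroup.inf_subgroupOf_right, inf_comm]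
    exact Nat.card_congr (Subgroup.subgroupOfEquivOfLe inf_le_left).toEquiv
  rw [h5] at h4
  rw [← h4, mul_comm]

theorem exists_zpowers_pow_eq {X : Type*} [Group X] [Finite X] {p : ℕ} [hp : Fact p.Prime]
    (g : X) (m : ℕ) (hg : orderOf g = p ^ m) (H : Subgroup X) (hH : H ≤ Subgroup.zpowers g) :
    ∃ w ≤ m, H = Subgroup.zpowers (g ^ p ^ w) ∧ Nat.card H = p ^ (m - w) := by
  have h1 : Nat.card H ∣ p ^ m := by
    have := Subgroup.card_dvd_of_le hH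
    rwa [Nat.card_zpowers, hg] at this
  obtain ⟨k, hk, hcard⟩ := (Nat.dvd_prime_pow hp.out).mp h1
  have hK : Nat.card (Subgroup.zpowers (g ^ p ^ (m - k))) = p ^ k := by
    rw [Nat.card_zpowers, orderOf_pow_pow hp.out g m (m - k) hg (Nat.sub_le m k)]
    congr 1; omega
  have hKle : Subgroup.zpowers (g ^ p ^ (m - k)) ≤ Subgroup.zpowers g :=
    Subgroup.zpowers_le.mpr (Subgroup.pow_mem _ (Subgroup.mem_zpowers g) _)
  refine ⟨m - k, Nat.sub_le m k, ?_, by rw [hcard]; congr 1; omega⟩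
  apply le_antisymm
  · exact Cfsg.Agent.Helper1.cyclic_le_of_card_dvd (Subgroup.zpowers g) hH hKle
      (by rw [hcard, hK])
  · exact Cfsg.Agent.Helper1.cyclic_le_of_card_dvd (Subgroup.zpowers g) hKle hH
      (by rw [hcard, hK])

theorem index_le_card {X : Type*} [Group X] [Finite X] (g : X) (T : Subgroup X)
    (h : ∀ x : X, x * g * x⁻¹ * g⁻¹ ∈ T) :
    (Subgroup.centralizer ({g} : Set X)).index ≤ Nat.card T := by
  let f : X ⧸ Subgroup.centralizer ({g} : Set X) → T :=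
    fun q => ⟨q.out * g * q.out⁻¹ * g⁻¹, h _⟩
  have hf : Function.Injective f := by
    intro q1 q2 h12
    have h1 : q1.out * g * q1.out⁻¹ * g⁻¹ = q2.out * g * q2.out⁻¹ * g⁻¹ :=
      congrArg Subtype.val h12
    have h2 : q1.out⁻¹ * q2.out ∈ Subgroup.centralizer ({g} : Set X) := by
      rw [Subgroup.mem_centralizer_iff]
      intro k hk
      rw [Set.mem_singleton_iff] at hk
      rw [hk]
      have h3 : q1.out * g * q1.out⁻¹ = q2.out * g * q2.out⁻¹ := mul_right_cancel h1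
      calc g * (q1.out⁻¹ * q2.out) = q1.out⁻¹ * (q1.out * g * q1.out⁻¹) * q2.out := by group
        _ = q1.out⁻¹ * (q2.out * g * q2.out⁻¹) * q2.out := by rw [h3]
        _ = q1.out⁻¹ * q2.out * g := by group
    have h4 : (QuotientGroup.mk q1.out : X ⧸ Subgroup.centralizer ({g} : Set X)) =
        QuotientGroup.mk q2.out := QuotientGroup.eq.mpr h2
    rwa [QuotientGroup.out_eq', QuotientGroup.out_eq'] at h4
  exact Nat.card_le_card_of_injective f hf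

theorem le_index_of_pow {X : Type*} [Group X] [Finite X] (C : Subgroup X) (h : X) (m : ℕ)
    (hm : ∀ z, 0 < z → z < m → h ^ z ∉ C) : m ≤ C.index := by
  let f : Fin m → X ⧸ C := fun z => QuotientGroup.mk (h ^ (z : ℕ))
  have key : ∀ z1 z2 : Fin m, (z1 : ℕ) < z2 → f z1 ≠ f z2 := by
    intro z1 z2 hlt h12
    have h2 : (h ^ (z1 : ℕ))⁻¹ * h ^ (z2 : ℕ) ∈ C := QuotientGroup.eq.mp h12
    have h3 : h ^ (z2 : ℕ) = h ^ (z1 : ℕ) * h ^ ((z2 : ℕ) - z1) := by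
      rw [← pow_add]; congr 1; omega
    rw [h3, inv_mul_cancel_left] at h2
    exact hm _ (by omega) (by have := z2.2; omega) h2
  have hf : Function.Injective f := by
    intro z1 z2 h12
    by_contra hne
    rcases Nat.lt_or_gt_of_ne (fun h' => hne (Fin.ext h')) with hlt | hlt
    · exact key z1 z2 hlt h12
    · exact key z2 z1 hlt h12.symm
  have h5 := Nat.card_le_card_of_injective f hf
  rw [Nat.card_eq_fintype_card, Fintype.card_fin] at h5
  exact h5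

theorem isMulComm_iff {X : Type*} [Group X] (L : Subgroup X) :
    IsMulCommutative ↥L ↔ ∀ x ∈ L, ∀ y ∈ L, x * y = y * x := by
  constructor
  · intro h x hx y hy
    have h1 := h.is_comm.comm (⟨x, hx⟩ : L) ⟨y, hy⟩
    exact congrArg Subtype.val h1
  · intro h
    exact ⟨⟨fun x y => Subtype.ext (h x x.2 y y.2)⟩⟩

theorem pow_add_div {X : Type*} [Group X] (a : X) (c m1 m2 : ℕ) :
    a ^ (c + m1) * (a ^ (c + m2))⁻¹ = a ^ m1 * (a ^ m2)⁻¹ := by
  rw [pow_add, pow_add, mul_inv_rev]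
  have hc : Commute (a ^ c) (a ^ m1) := Commute.pow_pow_self a c m1
  have hc2 : Commute (a ^ c) (a ^ m2)⁻¹ := (Commute.pow_pow_self a c m2).inv_right
  calc a ^ c * a ^ m1 * ((a ^ m2)⁻¹ * (a ^ c)⁻¹)
      = a ^ m1 * a ^ c * ((a ^ m2)⁻¹ * (a ^ c)⁻¹) := by rw [hc.eq]
    _ = a ^ m1 * (a ^ c * (a ^ m2)⁻¹) * (a ^ c)⁻¹ := by simp only [mul_assoc]
    _ = a ^ m1 * ((a ^ m2)⁻¹ * a ^ c) * (a ^ c)⁻¹ := by rw [hc2.eq]
    _ = a ^ m1 * (a ^ m2)⁻¹ := by simp only [mul_assoc, mul_inv_cancel, mul_one]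

/-! ## Frames -/

/-- A frame of a finite metacyclic `p`-group: `⟨a⟩` is normal, `G = ⟨a⟩⟨b⟩`, `b a b⁻¹ = a ^ r`,
`r ≡ 1 (mod p)`, `|a| = p ^ α`, `|a ^ (r-1)| = p ^ n`, and `b ^ j ∈ ⟨a⟩` iff `p ^ β ∣ j`. -/
structure Frame (p : ℕ) (G : Type*) [Group G] where
  a : G
  b : G
  r : ℕ
  α : ℕ
  β : ℕ
  n : ℕ
  hr : r % p = 1
  hconj : b * a * b⁻¹ = a ^ r
  hgen : ∀ g : G, ∃ i j : ℕ, g = a ^ i * b ^ j
  hα : orderOf a = p ^ α
  hn : orderOf (a ^ (r - 1)) = p ^ n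
  hβ : ∀ j : ℕ, b ^ j ∈ Subgroup.zpowers a ↔ p ^ β ∣ j

namespace Frame

variable {p : ℕ} {G : Type*} [Group G] (F : Frame p G)

theorem one_le_r : 1 ≤ F.r := by
  rcases Nat.eq_zero_or_pos F.r with h | h
  · have h1 := F.hr
    rw [h, Nat.zero_mod] at h1
    omega
  · exact h

theorem conjb (x : ℕ) : F.b * F.a ^ x * F.b⁻¹ = F.a ^ (x * F.r) := by
  rw [← _root_.conj_pow, F.hconj, ← pow_mul, mul_comm]

theorem conjb_pow (j x : ℕ) : F.b ^ j * F.a ^ x * (F.b ^ j)⁻¹ = F.a ^ (x * F.r ^ j) := by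
  induction j generalizing x with
  | zero => simp
  | succ j ih =>
    have h : F.b ^ (j + 1) * F.a ^ x * (F.b ^ (j + 1))⁻¹ =
        F.b * (F.b ^ j * F.a ^ x * (F.b ^ j)⁻¹) * F.b⁻¹ := by
      rw [pow_succ']; group
    rw [h, ih, F.conjb, pow_succ, mul_assoc]

theorem b_pow_mul (j x : ℕ) : F.b ^ j * F.a ^ x = F.a ^ (x * F.r ^ j) * F.b ^ j := by
  rw [← F.conjb_pow j x, inv_mul_cancel_right]

theorem mul_formula (i j x y : ℕ) :
    (F.a ^ i * F.b ^ j) * (F.a ^ x * F.b ^ y) = F.a ^ (i + x * F.r ^ j) * F.b ^ (j + y) := by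
  rw [pow_add, pow_add, ← F.conjb_pow j x]
  group

theorem pow_formula (x y m : ℕ) :
    (F.a ^ x * F.b ^ y) ^ m = F.a ^ (x * gs (F.r ^ y) m) * F.b ^ (y * m) := by
  induction m with
  | zero => simp [gs_zero]
  | succ m ih =>
    rw [pow_succ, ih, F.mul_formula, gs_succ, ← pow_mul, mul_add, mul_add, mul_one]

theorem comm_iff (i j x y : ℕ) :
    (F.a ^ i * F.b ^ j) * (F.a ^ x * F.b ^ y) = (F.a ^ x * F.b ^ y) * (F.a ^ i * F.b ^ j) ↔
      F.a ^ (i + x * F.r ^ j) = F.a ^ (x + i * F.r ^ y) := by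
  rw [F.mul_formula, F.mul_formula, add_comm y j]
  exact mul_left_inj _

theorem d_pow (x J : ℕ) :
    F.a ^ (x * (F.r ^ J - 1)) = (F.a ^ (F.r - 1)) ^ (x * gs F.r J) := by
  rw [← gs_mul F.r J F.one_le_r, ← pow_mul]
  congr 1
  ring

theorem comm_formula (i j x y : ℕ) :
    (F.a ^ x * F.b ^ y) * (F.a ^ i * F.b ^ j) * (F.a ^ x * F.b ^ y)⁻¹ * (F.a ^ i * F.b ^ j)⁻¹ =
      F.a ^ (i * (F.r ^ y - 1)) * (F.a ^ (x * (F.r ^ j - 1)))⁻¹ := by
  have h1 : (F.a ^ x * F.b ^ y) * (F.a ^ i * F.b ^ j) * (F.a ^ x * F.b ^ y)⁻¹ *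
      (F.a ^ i * F.b ^ j)⁻¹ = ((F.a ^ x * F.b ^ y) * (F.a ^ i * F.b ^ j)) *
      ((F.a ^ i * F.b ^ j) * (F.a ^ x * F.b ^ y))⁻¹ := by
    group
  have hB : ∀ (P Q B : G), P * B * (Q * B)⁻¹ = P * Q⁻¹ := fun P Q B => by group
  have e1 : x + i * F.r ^ y = (x + i) + i * (F.r ^ y - 1) := by
    obtain ⟨k, hk⟩ : ∃ k, F.r ^ y = k + 1 :=
      ⟨F.r ^ y - 1, by have := Nat.one_le_pow y F.r F.one_le_r; omega⟩
    rw [hk, Nat.add_sub_cancel]; ring
  have e2 : i + x * F.r ^ j = (x + i) + x * (F.r ^ j - 1) := by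
    obtain ⟨k, hk⟩ : ∃ k, F.r ^ j = k + 1 :=
      ⟨F.r ^ j - 1, by have := Nat.one_le_pow j F.r F.one_le_r; omega⟩
    rw [hk, Nat.add_sub_cancel]; ring
  rw [h1, F.mul_formula, F.mul_formula, add_comm y j, hB, e1, e2]
  exact pow_add_div _ _ _ _

theorem conj_a_pow (g : G) (m : ℕ) : ∃ e : ℕ, g * F.a ^ m * g⁻¹ = (F.a ^ m) ^ e := by
  obtain ⟨i, j, rfl⟩ := F.hgen g
  refine ⟨F.r ^ j, ?_⟩
  have h : F.a ^ i * F.b ^ j * F.a ^ m * (F.a ^ i * F.b ^ j)⁻¹ =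
      F.a ^ i * (F.b ^ j * F.a ^ m * (F.b ^ j)⁻¹) * (F.a ^ i)⁻¹ := by group
  rw [h, F.conjb_pow, ← pow_mul]
  have hc : F.a ^ i * F.a ^ (m * F.r ^ j) = F.a ^ (m * F.r ^ j) * F.a ^ i := by
    rw [← pow_add, ← pow_add, add_comm]
  rw [hc, mul_inv_cancel_right]

instance normal_zpowers (m : ℕ) : (Subgroup.zpowers (F.a ^ m)).Normal := by
  constructor
  intro n hn g
  obtain ⟨k, rfl⟩ := Subgroup.mem_zpowers_iff.mp hn
  obtain ⟨e, he⟩ := F.conj_a_pow g m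
  rw [← conj_zpow, he]
  exact Subgroup.zpow_mem _ (Subgroup.pow_mem _ (Subgroup.mem_zpowers _) e) k

instance normal_A : (Subgroup.zpowers F.a).Normal := by
  have h := F.normal_zpowers 1
  rwa [pow_one] at h

/-- The quotient map modulo `⟨a⟩`. -/
def π : G →* G ⧸ Subgroup.zpowers F.a := QuotientGroup.mk' (Subgroup.zpowers F.a)

theorem π_eq_one_iff (g : G) : F.π g = 1 ↔ g ∈ Subgroup.zpowers F.a :=
  QuotientGroup.eq_one_iff g

theorem π_ker : F.π.ker = Subgroup.zpowers F.a := QuotientGroup.ker_mk' _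

theorem π_surj : Function.Surjective F.π := QuotientGroup.mk'_surjective _

theorem π_top : Subgroup.zpowers (F.π F.b) = ⊤ := by
  rw [eq_top_iff]
  intro q _
  obtain ⟨g, rfl⟩ := F.π_surj q
  obtain ⟨i, j, rfl⟩ := F.hgen g
  rw [map_mul, map_pow, map_pow, (F.π_eq_one_iff F.a).mpr (Subgroup.mem_zpowers _), one_pow,
    one_mul]
  exact Subgroup.pow_mem _ (Subgroup.mem_zpowers _) j

theorem orderOf_π_b : orderOf (F.π F.b) = p ^ F.β := by
  apply Nat.dvd_antisymm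
  · rw [orderOf_dvd_iff_pow_eq_one, ← map_pow]
    exact (F.π_eq_one_iff _).mpr ((F.hβ _).mpr dvd_rfl)
  · rw [← F.hβ]
    have h1 := pow_orderOf_eq_one (F.π F.b)
    rw [← map_pow] at h1
    exact (F.π_eq_one_iff _).mp h1

variable [hp : Fact p.Prime]

theorem a_pow_eq_iff (hp2 : p ≠ 2) (x j : ℕ) :
    F.a ^ (x * F.r ^ j) = F.a ^ x ↔ p ^ F.n ∣ x * j := by
  have h1 : x * F.r ^ j = x + x * (F.r ^ j - 1) := by
    obtain ⟨k, hk⟩ : ∃ k, F.r ^ j = k + 1 :=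
      ⟨F.r ^ j - 1, by have := Nat.one_le_pow j F.r F.one_le_r; omega⟩
    rw [hk, Nat.add_sub_cancel]; ring
  rw [h1, pow_add, F.d_pow, mul_eq_left, ← orderOf_dvd_iff_pow_eq_one, F.hn,
    pow_dvd_mul_gs_iff hp.out hp2 F.r F.hr]

theorem n_le_α : F.n ≤ F.α := by
  have h1 : orderOf (F.a ^ (F.r - 1)) ∣ orderOf F.a := orderOf_pow_dvd (F.r - 1)
  rw [F.hn, F.hα] at h1
  exact (Nat.pow_dvd_pow_iff_le_right hp.out.one_lt).mp h1

theorem card_G : Nat.card G = p ^ (F.α + F.β) := by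
  have h1 := Subgroup.card_eq_card_quotient_mul_card_subgroup (Subgroup.zpowers F.a)
  have h2 : Nat.card (G ⧸ Subgroup.zpowers F.a) = p ^ F.β := by
    rw [← F.orderOf_π_b, ← Nat.card_zpowers, F.π_top, Subgroup.card_top]
  rw [h1, h2, Nat.card_zpowers, F.hα, ← pow_add, add_comm]

theorem commutator_eq : commutator G = Subgroup.zpowers (F.a ^ (F.r - 1)) := by
  apply le_antisymm
  · show ⁅(⊤ : Subgroup G), ⊤⁆ ≤ _
    rw [Subgroup.commutator_le]
    intro h _ g _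
    obtain ⟨x, y, rfl⟩ := F.hgen h
    obtain ⟨i, j, rfl⟩ := F.hgen g
    rw [commutatorElement_def, F.comm_formula, F.d_pow, F.d_pow]
    exact Subgroup.mul_mem _ (Subgroup.pow_mem _ (Subgroup.mem_zpowers _) _)
      (Subgroup.inv_mem _ (Subgroup.pow_mem _ (Subgroup.mem_zpowers _) _))
  · rw [Subgroup.zpowers_le]
    have h1 : F.a ^ (F.r - 1) = ⁅F.b, F.a⁆ := by
      rw [commutatorElement_def, F.hconj]
      have h2 : F.a ^ F.r = F.a ^ (F.r - 1) * F.a := by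
        rw [← pow_succ]; congr 1; have := F.one_le_r; omega
      rw [h2, mul_inv_cancel_right]
    rw [h1]
    show ⁅F.b, F.a⁆ ∈ ⁅(⊤ : Subgroup G), ⊤⁆
    exact Subgroup.commutator_mem_commutator (Subgroup.mem_top _) (Subgroup.mem_top _)

theorem card_commutator : Nat.card (commutator G) = p ^ F.n := by
  rw [F.commutator_eq, Nat.card_zpowers, F.hn]

variable [Finite G]

theorem b_pow_β_mem (hp2 : p ≠ 2) : F.b ^ p ^ F.β ∈ Subgroup.zpowers (F.a ^ p ^ F.n) := by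
  have h1 : F.b ^ p ^ F.β ∈ Subgroup.zpowers F.a := (F.hβ _).mpr dvd_rfl
  rw [← mem_powers_iff_mem_zpowers, Submonoid.mem_powers_iff] at h1
  obtain ⟨t, ht⟩ := h1
  have h2 : F.b * F.a ^ t * F.b⁻¹ = F.a ^ t := by
    rw [ht]; group
  rw [F.conjb] at h2
  have h3 := (F.a_pow_eq_iff hp2 t 1).mp (by rwa [pow_one])
  rw [mul_one] at h3
  obtain ⟨t', rfl⟩ := h3
  rw [← ht, pow_mul]
  exact Subgroup.pow_mem _ (Subgroup.mem_zpowers _) t'

theorem n_le_β (hp2 : p ≠ 2) : F.n ≤ F.β := by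
  have h1 : F.b ^ p ^ F.β ∈ Subgroup.zpowers F.a := (F.hβ _).mpr dvd_rfl
  rw [← mem_powers_iff_mem_zpowers, Submonoid.mem_powers_iff] at h1
  obtain ⟨t, ht⟩ := h1
  have h2 : F.b ^ p ^ F.β * F.a ^ 1 * (F.b ^ p ^ F.β)⁻¹ = F.a ^ 1 := by
    rw [← ht, pow_one, ← pow_succ, pow_succ', mul_inv_cancel_right]
  rw [F.conjb_pow] at h2
  have h3 := (F.a_pow_eq_iff hp2 1 (p ^ F.β)).mp h2
  rw [one_mul] at h3
  exact (Nat.pow_dvd_pow_iff_le_right hp.out.one_lt).mp h3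

/-- The level subgroup `⟨a^(p^s), b^(p^s)⟩`. -/
def lev (s : ℕ) : Subgroup G :=
  Subgroup.zpowers (F.a ^ p ^ s) ⊔ Subgroup.zpowers (F.b ^ p ^ s)

theorem mem_lev (s : ℕ) (g : G) :
    g ∈ F.lev s ↔ ∃ i j : ℕ, g = F.a ^ (p ^ s * i) * F.b ^ (p ^ s * j) := by
  constructor
  · intro h
    unfold Frame.lev at h
    rw [← SetLike.mem_coe, Subgroup.normal_mul, Set.mem_mul] at h
    obtain ⟨u, hu, v, hv, rfl⟩ := h
    rw [SetLike.mem_coe, ← mem_powers_iff_mem_zpowers, Submonoid.mem_powers_iff] at hu hv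
    obtain ⟨i, rfl⟩ := hu
    obtain ⟨j, rfl⟩ := hv
    exact ⟨i, j, by rw [pow_mul, pow_mul]⟩
  · rintro ⟨i, j, rfl⟩
    rw [pow_mul, pow_mul]
    exact Subgroup.mul_mem _
      (Subgroup.mem_sup_left (Subgroup.pow_mem _ (Subgroup.mem_zpowers _) i))
      (Subgroup.mem_sup_right (Subgroup.pow_mem _ (Subgroup.mem_zpowers _) j))

theorem lev_zero : F.lev 0 = ⊤ := by
  rw [eq_top_iff]
  intro g _
  obtain ⟨i, j, rfl⟩ := F.hgen g
  exact (F.mem_lev 0 _).mpr ⟨i, j, by simp⟩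

theorem index_le_of_mem_lev (hp2 : p ≠ 2) (s : ℕ) (hs : s ≤ F.n) (g : G)
    (hg : g ∈ F.lev s) : (Subgroup.centralizer ({g} : Set G)).index ≤ p ^ (F.n - s) := by
  have hT : Nat.card (Subgroup.zpowers ((F.a ^ (F.r - 1)) ^ p ^ s)) = p ^ (F.n - s) := by
    rw [Nat.card_zpowers, orderOf_pow_pow hp.out _ F.n s F.hn hs]
  rw [← hT]
  apply index_le_card
  intro h
  obtain ⟨i, j, rfl⟩ := (F.mem_lev s g).mp hg
  obtain ⟨x, y, rfl⟩ := F.hgen h
  rw [F.comm_formula, F.d_pow, F.d_pow]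
  apply Subgroup.mul_mem
  · rw [mul_assoc, pow_mul]
    exact Subgroup.pow_mem _ (Subgroup.mem_zpowers _) _
  · apply Subgroup.inv_mem
    have h1 : p ^ s ∣ x * gs F.r (p ^ s * j) :=
      (pow_dvd_mul_gs_iff hp.out hp2 F.r F.hr s x (p ^ s * j)).mpr ⟨x * j, by ring⟩
    obtain ⟨c, hc⟩ := h1
    rw [hc, pow_mul]
    exact Subgroup.pow_mem _ (Subgroup.mem_zpowers _) _

theorem le_index_of_not_mem_lev (hp2 : p ≠ 2) (s : ℕ) (hs : s < F.n) (g : G)
    (hg : g ∉ F.lev (s + 1)) : p ^ (F.n - s) ≤ (Subgroup.centralizer ({g} : Set G)).index := by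
  obtain ⟨x, y, rfl⟩ := F.hgen g
  by_cases hy : p ^ (s + 1) ∣ y
  · have hx : ¬ p ^ (s + 1) ∣ x := by
      intro hx
      obtain ⟨x', rfl⟩ := hx
      obtain ⟨y', rfl⟩ := hy
      exact hg ((F.mem_lev (s + 1) _).mpr ⟨x', y', rfl⟩)
    apply le_index_of_pow _ F.b
    intro z hz0 hz hmem
    have h1 : F.b ^ z * (F.a ^ x * F.b ^ y) = (F.a ^ x * F.b ^ y) * F.b ^ z :=
      (Subgroup.mem_centralizer_iff.mp hmem (F.a ^ x * F.b ^ y) rfl).symm
    have h2 : (F.a ^ 0 * F.b ^ z) * (F.a ^ x * F.b ^ y) =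
        (F.a ^ x * F.b ^ y) * (F.a ^ 0 * F.b ^ z) := by
      rw [pow_zero, one_mul]; exact h1
    rw [F.comm_iff, zero_add, zero_mul, add_zero] at h2
    have h3 := (F.a_pow_eq_iff hp2 x z).mp h2
    have h4 := pow_dvd_of_mul hp.out F.n s z x hs (by rwa [mul_comm] at h3) hx
    have h5 := Nat.le_of_dvd hz0 h4
    omega
  · apply le_index_of_pow _ F.a
    intro z hz0 hz hmem
    have h1 : F.a ^ z * (F.a ^ x * F.b ^ y) = (F.a ^ x * F.b ^ y) * F.a ^ z :=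
      (Subgroup.mem_centralizer_iff.mp hmem (F.a ^ x * F.b ^ y) rfl).symm
    have h2 : (F.a ^ x * F.b ^ y) * (F.a ^ z * F.b ^ 0) =
        (F.a ^ z * F.b ^ 0) * (F.a ^ x * F.b ^ y) := by
      rw [pow_zero, mul_one]; exact h1.symm
    rw [F.comm_iff, pow_zero, mul_one, add_comm z x, pow_add, pow_add] at h2
    have h2' : F.a ^ (z * F.r ^ y) = F.a ^ z := mul_left_cancel h2
    have h3 := (F.a_pow_eq_iff hp2 z y).mp h2'
    have h4 := pow_dvd_of_mul hp.out F.n s z y hs h3 hy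
    have h5 := Nat.le_of_dvd hz0 h4
    omega

theorem mem_lev_iff (hp2 : p ≠ 2) (s : ℕ) (hs : s ≤ F.n) (g : G) :
    g ∈ F.lev s ↔ (Subgroup.centralizer ({g} : Set G)).index ≤ p ^ (F.n - s) := by
  constructor
  · exact F.index_le_of_mem_lev hp2 s hs g
  · intro h
    by_contra hg
    rcases Nat.eq_zero_or_pos s with h0 | h0
    · rw [h0, F.lev_zero] at hg; exact hg (Subgroup.mem_top g)
    · obtain ⟨s', rfl⟩ : ∃ s', s = s' + 1 := ⟨s - 1, by omega⟩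
      have h1 := F.le_index_of_not_mem_lev hp2 s' (by omega) g hg
      have h2 : p ^ (F.n - (s' + 1)) < p ^ (F.n - s') :=
        Nat.pow_lt_pow_right hp.out.one_lt (by omega)
      omega

theorem lev_n_eq_center (hp2 : p ≠ 2) : F.lev F.n = Subgroup.center G := by
  ext g
  rw [F.mem_lev_iff hp2 F.n le_rfl, Nat.sub_self, pow_zero, Subgroup.mem_center_iff]
  constructor
  · intro h k
    have h1 : (Subgroup.centralizer ({g} : Set G)).index = 1 := by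
      have h0 := Subgroup.index_ne_zero_of_finite (H := Subgroup.centralizer ({g} : Set G))
      omega
    have h2 : k ∈ Subgroup.centralizer ({g} : Set G) := by
      rw [Subgroup.index_eq_one.mp h1]; exact Subgroup.mem_top k
    exact (Subgroup.mem_centralizer_iff.mp h2 g rfl).symm
  · intro h
    have h1 : Subgroup.centralizer ({g} : Set G) = ⊤ := by
      rw [eq_top_iff]
      intro k _
      rw [Subgroup.mem_centralizer_iff]
      intro m hm
      rw [Set.mem_singleton_iff] at hm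
      rw [hm]
      exact (h k).symm
    rw [h1, Subgroup.index_top]

theorem lev_inf_A (hp2 : p ≠ 2) (s : ℕ) (hs : s ≤ F.n) :
    F.lev s ⊓ Subgroup.zpowers F.a = Subgroup.zpowers (F.a ^ p ^ s) := by
  apply le_antisymm
  · intro g hg
    obtain ⟨hg1, hg2⟩ := Subgroup.mem_inf.mp hg
    obtain ⟨i, j, rfl⟩ := (F.mem_lev s g).mp hg1
    have h1 : F.b ^ (p ^ s * j) ∈ Subgroup.zpowers F.a := by
      have h2 : F.b ^ (p ^ s * j) =
          (F.a ^ (p ^ s * i))⁻¹ * (F.a ^ (p ^ s * i) * F.b ^ (p ^ s * j)) := by group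
      rw [h2]
      exact Subgroup.mul_mem _
        (Subgroup.inv_mem _ (Subgroup.pow_mem _ (Subgroup.mem_zpowers _) _)) hg2
    obtain ⟨q, hq⟩ := (F.hβ _).mp h1
    have h3 : F.b ^ (p ^ s * j) ∈ Subgroup.zpowers (F.a ^ p ^ s) := by
      rw [hq, pow_mul]
      have h4 := F.b_pow_β_mem hp2
      have h5 : Subgroup.zpowers (F.a ^ p ^ F.n) ≤ Subgroup.zpowers (F.a ^ p ^ s) := by
        rw [Subgroup.zpowers_le]
        have h6 : F.a ^ p ^ F.n = (F.a ^ p ^ s) ^ p ^ (F.n - s) := by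
          rw [← pow_mul, ← pow_add]; congr 2; omega
        rw [h6]
        exact Subgroup.pow_mem _ (Subgroup.mem_zpowers _) _
      exact Subgroup.pow_mem _ (h5 h4) q
    exact Subgroup.mul_mem _
      (by rw [pow_mul]; exact Subgroup.pow_mem _ (Subgroup.mem_zpowers _) i) h3
  · apply le_inf
    · exact le_sup_left
    · exact Subgroup.zpowers_le.mpr (Subgroup.pow_mem _ (Subgroup.mem_zpowers _) _)

theorem card_lev (hp2 : p ≠ 2) (s : ℕ) (hs : s ≤ F.n) :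
    Nat.card (F.lev s) = p ^ (F.α + F.β - 2 * s) := by
  have hnα := F.n_le_α
  have hnβ := F.n_le_β hp2
  have h1 := card_eq_map_mul_inf F.π (F.lev s)
  rw [F.π_ker, F.lev_inf_A hp2 s hs] at h1
  have h2 : (F.lev s).map F.π = Subgroup.zpowers (F.π F.b ^ p ^ s) := by
    unfold Frame.lev
    rw [Subgroup.map_sup, MonoidHom.map_zpowers, MonoidHom.map_zpowers, map_pow, map_pow,
      (F.π_eq_one_iff F.a).mpr (Subgroup.mem_zpowers _), one_pow, Subgroup.zpowers_one_eq_bot,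
      bot_sup_eq]
  rw [h2, Nat.card_zpowers, Nat.card_zpowers,
    orderOf_pow_pow hp.out _ F.β s F.orderOf_π_b (by omega),
    orderOf_pow_pow hp.out _ F.α s F.hα (by omega), ← pow_add] at h1
  rw [h1]
  congr 1
  omega

theorem index_center (hp2 : p ≠ 2) : (Subgroup.center G).index = p ^ (2 * F.n) := by
  have h1 := Subgroup.card_mul_index (Subgroup.center G)
  have hc : Nat.card (Subgroup.center G) = p ^ (F.α + F.β - 2 * F.n) := by
    rw [← F.lev_n_eq_center hp2]; exact F.card_lev hp2 F.n le_rfl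
  have hnα := F.n_le_α
  have hnβ := F.n_le_β hp2
  have h2 : p ^ (F.α + F.β) = p ^ (F.α + F.β - 2 * F.n) * p ^ (2 * F.n) := by
    rw [← pow_add]; congr 1; omega
  rw [hc, F.card_G, h2] at h1
  exact Nat.eq_of_mul_eq_mul_left (pow_pos hp.out.pos _) h1

theorem index_commutator : (commutator G).index = p ^ (F.α + F.β - F.n) := by
  have h1 := Subgroup.card_mul_index (commutator G)
  have hnα := F.n_le_α
  have h2 : p ^ (F.α + F.β) = p ^ F.n * p ^ (F.α + F.β - F.n) := by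
    rw [← pow_add]; congr 1; omega
  rw [F.card_commutator, F.card_G, h2] at h1
  exact Nat.eq_of_mul_eq_mul_left (pow_pos hp.out.pos _) h1

theorem pow_mem_lev (hp2 : p ≠ 2) (s : ℕ) (g : G) : g ^ p ^ s ∈ F.lev s := by
  obtain ⟨x, y, rfl⟩ := F.hgen g
  rw [F.pow_formula, F.mem_lev]
  have hR : F.r ^ y % p = 1 := by
    rw [Nat.pow_mod, F.hr, one_pow, Nat.one_mod_eq_one.mpr hp.out.ne_one]
  obtain ⟨c, hc⟩ :=
    (pow_dvd_mul_gs_iff hp.out hp2 (F.r ^ y) hR s x (p ^ s)).mpr (Dvd.intro_left x rfl)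
  exact ⟨c, y, by rw [hc, mul_comm y]⟩

theorem closure_pow_eq_lev (hp2 : p ≠ 2) (s : ℕ) :
    Subgroup.closure {x : G | ∃ y : G, y ^ p ^ s = x} = F.lev s := by
  apply le_antisymm
  · rw [Subgroup.closure_le]
    rintro x ⟨y, rfl⟩
    exact F.pow_mem_lev hp2 s y
  · unfold Frame.lev
    apply sup_le
    · exact Subgroup.zpowers_le.mpr (Subgroup.subset_closure ⟨F.a, rfl⟩)
    · exact Subgroup.zpowers_le.mpr (Subgroup.subset_closure ⟨F.b, rfl⟩)

theorem exists_normal_form (L : Subgroup G) :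
    ∃ u w x : ℕ, u ≤ F.α ∧ w ≤ F.β ∧
      L ⊓ Subgroup.zpowers F.a = Subgroup.zpowers (F.a ^ p ^ u) ∧
      F.a ^ x * F.b ^ p ^ w ∈ L ∧
      (∀ l ∈ L, ∃ i j : ℕ, l = (F.a ^ p ^ u) ^ i * (F.a ^ x * F.b ^ p ^ w) ^ j) ∧
      Nat.card L = p ^ (F.α - u) * p ^ (F.β - w) ∧
      L.map F.π = Subgroup.zpowers (F.π F.b ^ p ^ w) := by
  obtain ⟨u, hu, hLA, hcardA⟩ :=
    exists_zpowers_pow_eq F.a F.α F.hα (L ⊓ Subgroup.zpowers F.a) inf_le_right
  obtain ⟨w, hw, hLπ, hcardπ⟩ :=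
    exists_zpowers_pow_eq (F.π F.b) F.β F.orderOf_π_b (L.map F.π)
      (by rw [F.π_top]; exact le_top)
  have h1 : F.π F.b ^ p ^ w ∈ L.map F.π := by rw [hLπ]; exact Subgroup.mem_zpowers _
  obtain ⟨c, hcL, hc⟩ := Subgroup.mem_map.mp h1
  have h2 : c * (F.b ^ p ^ w)⁻¹ ∈ Subgroup.zpowers F.a := by
    rw [← F.π_eq_one_iff, map_mul, map_inv, map_pow, hc, mul_inv_cancel]
  rw [← mem_powers_iff_mem_zpowers, Submonoid.mem_powers_iff] at h2
  obtain ⟨x, hx⟩ := h2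
  have hc' : c = F.a ^ x * F.b ^ p ^ w := by rw [hx]; group
  subst hc'
  refine ⟨u, w, x, hu, hw, hLA, hcL, ?_, ?_, hLπ⟩
  · intro l hl
    have h3 : F.π l ∈ Subgroup.zpowers (F.π (F.a ^ x * F.b ^ p ^ w)) := by
      rw [hc, ← hLπ]; exact Subgroup.mem_map_of_mem _ hl
    rw [← mem_powers_iff_mem_zpowers, Submonoid.mem_powers_iff] at h3
    obtain ⟨j, hj⟩ := h3
    have h4 : l * ((F.a ^ x * F.b ^ p ^ w) ^ j)⁻¹ ∈ L ⊓ Subgroup.zpowers F.a := by
      apply Subgroup.mem_inf.mpr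
      refine ⟨Subgroup.mul_mem _ hl (Subgroup.inv_mem _ (Subgroup.pow_mem _ hcL j)), ?_⟩
      rw [← F.π_eq_one_iff, map_mul, map_inv, map_pow, hj, mul_inv_cancel]
    rw [hLA, ← mem_powers_iff_mem_zpowers, Submonoid.mem_powers_iff] at h4
    obtain ⟨i, hi⟩ := h4
    exact ⟨i, j, by rw [hi]; group⟩
  · rw [card_eq_map_mul_inf F.π L, F.π_ker, hcardA, hcardπ, mul_comm]

theorem comm_gen_iff (hp2 : p ≠ 2) (u w x : ℕ) :
    (F.a ^ x * F.b ^ p ^ w) * F.a ^ p ^ u = F.a ^ p ^ u * (F.a ^ x * F.b ^ p ^ w) ↔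
      F.n ≤ u + w := by
  have h1 : (F.a ^ x * F.b ^ p ^ w) * F.a ^ p ^ u = F.a ^ p ^ u * (F.a ^ x * F.b ^ p ^ w) ↔
      (F.a ^ x * F.b ^ p ^ w) * (F.a ^ p ^ u * F.b ^ 0) =
        (F.a ^ p ^ u * F.b ^ 0) * (F.a ^ x * F.b ^ p ^ w) := by
    rw [pow_zero, mul_one]
  have h2 : F.a ^ (x + p ^ u * F.r ^ p ^ w) = F.a ^ (p ^ u + x) ↔
      F.a ^ (p ^ u * F.r ^ p ^ w) = F.a ^ p ^ u := by
    rw [add_comm (p ^ u) x, pow_add, pow_add]
    exact mul_right_inj _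
  rw [h1, F.comm_iff, pow_zero, mul_one, h2, F.a_pow_eq_iff hp2, ← pow_add,
    Nat.pow_dvd_pow_iff_le_right hp.out.one_lt]

theorem abelian_iff (hp2 : p ≠ 2) (L : Subgroup G) (u w x : ℕ)
    (hLA : L ⊓ Subgroup.zpowers F.a = Subgroup.zpowers (F.a ^ p ^ u))
    (hc : F.a ^ x * F.b ^ p ^ w ∈ L)
    (hgen : ∀ l ∈ L, ∃ i j : ℕ, l = (F.a ^ p ^ u) ^ i * (F.a ^ x * F.b ^ p ^ w) ^ j) :
    (∀ l ∈ L, ∀ l' ∈ L, l * l' = l' * l) ↔ F.n ≤ u + w := by
  have hA : F.a ^ p ^ u ∈ L := by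
    have h1 : F.a ^ p ^ u ∈ L ⊓ Subgroup.zpowers F.a := by
      rw [hLA]; exact Subgroup.mem_zpowers _
    exact (Subgroup.mem_inf.mp h1).1
  rw [← F.comm_gen_iff hp2 u w x]
  constructor
  · intro h
    exact h _ hc _ hA
  · intro h l hl l' hl'
    obtain ⟨i, j, rfl⟩ := hgen l hl
    obtain ⟨i', j', rfl⟩ := hgen l' hl'
    have hcom : Commute (F.a ^ x * F.b ^ p ^ w) (F.a ^ p ^ u) := h
    exact ((((Commute.refl _).pow_pow i i').mul_right (hcom.symm.pow_pow i j')).mul_left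
      ((hcom.pow_pow j i').mul_right ((Commute.refl _).pow_pow j j'))).eq

theorem abelian_iff_card (hp2 : p ≠ 2) (L : Subgroup G) :
    (∀ l ∈ L, ∀ l' ∈ L, l * l' = l' * l) ↔ Nat.card L ≤ p ^ (F.α + F.β - F.n) := by
  obtain ⟨u, w, x, hu, hw, hLA, hc, hgen, hcard, -⟩ := F.exists_normal_form L
  rw [F.abelian_iff hp2 L u w x hLA hc hgen, hcard, ← pow_add,
    Nat.pow_le_pow_iff_right hp.out.one_lt]
  have h1 := F.n_le_α
  omega

end Frame

end Cfsg.Agent.Helper20.Meta
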