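import Mathlib
import Cfsg.Prelude.Def_OddOrderLocal
import Cfsg.Agent.Helper20.Metacyclic

set_option autoImplicit false

namespace Cfsg.Agent.Helper20.Meta

open scoped commutatorElement

/-! ## More general lemmas -/

theorem coe_mem_zpowers_iff {X : Type*} [Group X] (L : Subgroup X) (x y : L) :
    x ∈ Subgroup.zpowers y ↔ (x : X) ∈ Subgroup.zpowers (y : X) := by
  constructor
  · intro h
    obtain ⟨k, hk⟩ := Subgroup.mem_zpowers_iff.mp h
    exact Subgroup.mem_zpowers_iff.mpr ⟨k, by rw [← hk, Subgroup.coe_zpow]⟩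
  · intro h
    obtain ⟨k, hk⟩ := Subgroup.mem_zpowers_iff.mp h
    exact Subgroup.mem_zpowers_iff.mpr ⟨k, Subtype.ext (by rw [Subgroup.coe_zpow]; exact hk)⟩

theorem orderOf_pow_of_dvd_iff {X : Type*} [Group X] [Finite X] {p : ℕ} (hp : p.Prime) (d : X)
    (n : ℕ) (hd : orderOf d = p ^ n) (m k : ℕ) (h : ∀ t, p ^ t ∣ m ↔ p ^ t ∣ p ^ k) :
    orderOf (d ^ m) = p ^ (n - k) := by
  have hg : Nat.gcd (p ^ n) m = Nat.gcd (p ^ n) (p ^ k) := by
    apply Nat.dvd_antisymm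
    · have h1 := Nat.gcd_dvd_left (p ^ n) m
      have h2 := Nat.gcd_dvd_right (p ^ n) m
      obtain ⟨e, -, he⟩ := (Nat.dvd_prime_pow hp).mp h1
      rw [he] at h1 h2 ⊢
      exact Nat.dvd_gcd h1 ((h e).mp h2)
    · have h1 := Nat.gcd_dvd_left (p ^ n) (p ^ k)
      have h2 := Nat.gcd_dvd_right (p ^ n) (p ^ k)
      obtain ⟨e, -, he⟩ := (Nat.dvd_prime_pow hp).mp h1
      rw [he] at h1 h2 ⊢
      exact Nat.dvd_gcd h1 ((h e).mpr h2)
  rw [orderOf_pow, hd, hg]
  rcases le_total k n with hkn | hkn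
  · rw [Nat.gcd_eq_right (pow_dvd_pow p hkn), Nat.pow_div hkn hp.pos]
  · rw [Nat.gcd_eq_left (pow_dvd_pow p hkn), Nat.div_self (pow_pos hp.pos n),
      Nat.sub_eq_zero_of_le hkn, pow_zero]

theorem exists_pow_eq {X : Type*} [Group X] {p : ℕ} (hp : p.Prime) (d : X) (n : ℕ)
    (hd : orderOf d = p ^ n) (w S T : ℕ) (hS : p ^ w ∣ S) (hS' : ¬ p ^ (w + 1) ∣ S)
    (hT : p ^ w ∣ T) : ∃ c : ℕ, d ^ (c * S) = d ^ T := by
  obtain ⟨c, hc⟩ := exists_solve hp n w S ((p ^ n - 1) * T) hS hS' (Dvd.dvd.mul_left hT _)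
  refine ⟨c, ?_⟩
  have h1 : d ^ (c * S + (p ^ n - 1) * T) = 1 := by
    rw [← orderOf_dvd_iff_pow_eq_one, hd]; exact hc
  have h2 : d ^ (T + (p ^ n - 1) * T) = 1 := by
    have h3 : T + (p ^ n - 1) * T = p ^ n * T := by
      have h4 : 1 ≤ p ^ n := Nat.one_le_pow _ _ hp.pos
      obtain ⟨P, hP⟩ : ∃ P, p ^ n = P + 1 := ⟨p ^ n - 1, by omega⟩
      rw [hP, Nat.add_sub_cancel]; ring
    rw [h3, pow_mul, ← hd, pow_orderOf_eq_one, one_pow]
  rw [pow_add] at h1 h2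
  exact mul_right_cancel (h1.trans h2.symm)

theorem centralizer_sup_center {X : Type*} [Group X] (R : Subgroup X) :
    Subgroup.centralizer ((R ⊔ Subgroup.center X : Subgroup X) : Set X) =
      Subgroup.centralizer (R : Set X) := by
  apply le_antisymm
  · exact Subgroup.centralizer_le
      (SetLike.coe_subset_coe.mpr (le_sup_left : R ≤ R ⊔ Subgroup.center X))
  · intro g hg
    rw [Subgroup.mem_centralizer_iff] at hg ⊢
    intro h hh
    rw [Subgroup.mul_normal, Set.mem_mul] at hh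
    obtain ⟨r, hr, z, hz, rfl⟩ := hh
    have h1 := hg r hr
    have h2 : z * g = g * z := (Subgroup.mem_center_iff.mp hz g).symm
    calc r * z * g = r * (z * g) := mul_assoc _ _ _
      _ = r * (g * z) := by rw [h2]
      _ = (r * g) * z := (mul_assoc _ _ _).symm
      _ = (g * r) * z := by rw [h1]
      _ = g * (r * z) := mul_assoc _ _ _

theorem conj_pow_pow {X : Type*} [Group X] (a b : X) (r : ℕ) (h : b * a * b⁻¹ = a ^ r)
    (j x : ℕ) : b ^ j * a ^ x * (b ^ j)⁻¹ = a ^ (x * r ^ j) := by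
  induction j generalizing x with
  | zero => simp
  | succ j ih =>
    have h1 : b ^ (j + 1) * a ^ x * (b ^ (j + 1))⁻¹ =
        b * (b ^ j * a ^ x * (b ^ j)⁻¹) * b⁻¹ := by
      rw [pow_succ']; group
    rw [h1, ih, ← _root_.conj_pow, h, ← pow_mul]
    congr 1; ring

/-- Every finite metacyclic `p`-group has a frame. -/
theorem exists_frame {G : Type*} [Group G] [Finite G] {p : ℕ} [hp : Fact p.Prime]
    (hG : IsPGroup p G) (hmc : Cfsg.IsMetacyclic G) : Nonempty (Frame p G) := by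
  obtain ⟨N, hN, hNc, hQc⟩ := hmc
  haveI := hN
  haveI := hNc
  haveI := hQc
  obtain ⟨a', ha'⟩ := IsCyclic.exists_generator (α := N)
  obtain ⟨q0, hq0⟩ := IsCyclic.exists_generator (α := G ⧸ N)
  obtain ⟨b, rfl⟩ := QuotientGroup.mk_surjective q0
  have hord : ∀ g : G, ∃ k, orderOf g = p ^ k := by
    intro g
    obtain ⟨k, hk⟩ := hG g
    obtain ⟨m, -, hm⟩ := (Nat.dvd_prime_pow hp.out).mp (orderOf_dvd_of_pow_eq_one hk)
    exact ⟨m, hm⟩
  have hNa : N = Subgroup.zpowers (a' : G) := by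
    ext x
    constructor
    · intro hx
      obtain ⟨k, hk⟩ := Subgroup.mem_zpowers_iff.mp (ha' ⟨x, hx⟩)
      rw [Subgroup.mem_zpowers_iff]
      refine ⟨k, ?_⟩
      have h1 := congrArg Subtype.val hk
      rwa [Subgroup.coe_zpow] at h1
    · intro hx
      obtain ⟨k, rfl⟩ := Subgroup.mem_zpowers_iff.mp hx
      exact Subgroup.zpow_mem _ a'.2 k
  obtain ⟨α, hα⟩ := hord (a' : G)
  have hgen : ∀ g : G, ∃ i j : ℕ, g = (a' : G) ^ i * b ^ j := by
    intro g
    have h1 := hq0 (QuotientGroup.mk g)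
    rw [← mem_powers_iff_mem_zpowers, Submonoid.mem_powers_iff] at h1
    obtain ⟨j, hj⟩ := h1
    have h2 : g * (b ^ j)⁻¹ ∈ N := by
      rw [← QuotientGroup.eq_one_iff, QuotientGroup.mk_mul, QuotientGroup.mk_inv,
        QuotientGroup.mk_pow, hj, mul_inv_cancel]
    rw [hNa, ← mem_powers_iff_mem_zpowers, Submonoid.mem_powers_iff] at h2
    obtain ⟨i, hi⟩ := h2
    exact ⟨i, j, by rw [hi]; group⟩
  have hconj0 : ∃ r0 : ℕ, b * (a' : G) * b⁻¹ = (a' : G) ^ r0 := by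
    have h0 : b * (a' : G) * b⁻¹ ∈ N := hN.conj_mem _ a'.2 b
    have h1 : b * (a' : G) * b⁻¹ ∈ Subgroup.zpowers (a' : G) := by
      rw [← hNa]; exact h0
    rw [← mem_powers_iff_mem_zpowers, Submonoid.mem_powers_iff] at h1
    obtain ⟨r0, hr0⟩ := h1
    exact ⟨r0, hr0.symm⟩
  obtain ⟨r0, hr0⟩ := hconj0
  have hr : ∃ r : ℕ, r % p = 1 ∧ b * (a' : G) * b⁻¹ = (a' : G) ^ r := by
    rcases Nat.eq_zero_or_pos α with h0 | h0
    · rw [h0, pow_zero, orderOf_eq_one_iff] at hα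
      refine ⟨1, Nat.one_mod_eq_one.mpr hp.out.ne_one, ?_⟩
      rw [hα]; simp
    · refine ⟨r0, ?_, hr0⟩
      obtain ⟨m, hm⟩ := hG b
      have h1 := conj_pow_pow (a' : G) b r0 hr0 (p ^ m) 1
      rw [hm, one_mul, inv_one, mul_one, one_mul] at h1
      have h2 : (1 : ℕ) ≡ r0 ^ p ^ m [MOD orderOf (a' : G)] := pow_eq_pow_iff_modEq.mp h1
      rw [hα] at h2
      have h3 : (1 : ℕ) ≡ r0 ^ p ^ m [MOD p] := h2.of_dvd (dvd_pow_self p (by omega))
      have h4 : ((1 : ℕ) : ZMod p) = ((r0 ^ p ^ m : ℕ) : ZMod p) :=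
        (ZMod.natCast_eq_natCast_iff _ _ _).mpr h3
      rw [Nat.cast_pow, ZMod.pow_card_pow] at h4
      have h5 := (ZMod.natCast_eq_natCast_iff _ _ _).mp h4
      unfold Nat.ModEq at h5
      rw [Nat.one_mod_eq_one.mpr hp.out.ne_one] at h5
      exact h5.symm
  obtain ⟨r, hr1, hr2⟩ := hr
  obtain ⟨n, hn⟩ := hord ((a' : G) ^ (r - 1))
  obtain ⟨β, hβ⟩ : ∃ β, orderOf (QuotientGroup.mk b : G ⧸ N) = p ^ β := by
    obtain ⟨k, hk⟩ := hG b
    have h1 : (QuotientGroup.mk b : G ⧸ N) ^ p ^ k = 1 := by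
      rw [← QuotientGroup.mk_pow, hk]; rfl
    obtain ⟨m, -, hm⟩ := (Nat.dvd_prime_pow hp.out).mp (orderOf_dvd_of_pow_eq_one h1)
    exact ⟨m, hm⟩
  refine ⟨⟨(a' : G), b, r, α, β, n, hr1, hr2, hgen, hα, hn, ?_⟩⟩
  intro j
  rw [← hNa, ← QuotientGroup.eq_one_iff, QuotientGroup.mk_pow, ← orderOf_dvd_iff_pow_eq_one, hβ]

namespace Frame

variable {p : ℕ} {G : Type*} [Group G] (F : Frame p G) [hp : Fact p.Prime] [Finite G]

theorem card_center (hp2 : p ≠ 2) :
    Nat.card (Subgroup.center G) = p ^ (F.α + F.β - 2 * F.n) := by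
  rw [← F.lev_n_eq_center hp2]; exact F.card_lev hp2 F.n le_rfl

theorem map_lev (s : ℕ) : (F.lev s).map F.π = Subgroup.zpowers (F.π F.b ^ p ^ s) := by
  unfold Frame.lev
  rw [Subgroup.map_sup, MonoidHom.map_zpowers, MonoidHom.map_zpowers, map_pow, map_pow,
    (F.π_eq_one_iff F.a).mpr (Subgroup.mem_zpowers _), one_pow, Subgroup.zpowers_one_eq_bot,
    bot_sup_eq]

theorem dvd_of_pow_mem (u m : ℕ) (hu : u ≤ F.α)
    (h : F.a ^ m ∈ Subgroup.zpowers (F.a ^ p ^ u)) : p ^ u ∣ m := by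
  rw [← mem_powers_iff_mem_zpowers, Submonoid.mem_powers_iff] at h
  obtain ⟨k, hk⟩ := h
  rw [← pow_mul, pow_eq_pow_iff_modEq, F.hα] at hk
  exact (hk.dvd_iff (pow_dvd_pow p hu)).mp (Dvd.intro _ rfl)

theorem maximal_iff_card (hp2 : p ≠ 2) (L : Subgroup G) :
    Maximal (fun K : Subgroup G => IsMulCommutative ↥K) L ↔
      Nat.card L = p ^ (F.α + F.β - F.n) := by
  have hnα := F.n_le_α
  constructor
  · intro hmax
    have hab := (F.abelian_iff_card hp2 L).mp ((isMulComm_iff L).mp hmax.1)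
    by_contra hne
    obtain ⟨u, w, x, hu, hw, -, -, -, hcard, -⟩ := F.exists_normal_form L
    rw [← pow_add] at hcard
    rw [hcard] at hab hne
    have hlt : F.α - u + (F.β - w) < F.α + F.β - F.n := by
      have h1 := (Nat.pow_le_pow_iff_right hp.out.one_lt).mp hab
      have h2 : F.α - u + (F.β - w) ≠ F.α + F.β - F.n := fun h => hne (by rw [h])
      omega
    have hdvd : p ^ (F.α - u + (F.β - w) + 1) ∣ Nat.card G := by
      rw [F.card_G]; exact pow_dvd_pow p (by omega)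
    obtain ⟨K, hKcard, hLK⟩ := Sylow.exists_subgroup_card_pow_succ hdvd hcard
    have hKab : IsMulCommutative ↥K := by
      rw [isMulComm_iff, F.abelian_iff_card hp2 K, hKcard]
      exact Nat.pow_le_pow_right hp.out.pos (by omega)
    have hKL : K ≤ L := hmax.2 hKab hLK
    have h3 := Nat.card_le_card_of_injective (Subgroup.inclusion hKL)
      (Subgroup.inclusion_injective hKL)
    rw [hKcard, hcard] at h3
    have h4 := Nat.pow_lt_pow_right hp.out.one_lt (Nat.lt_add_one (F.α - u + (F.β - w)))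
    omega
  · intro hcard
    refine ⟨(isMulComm_iff L).mpr ((F.abelian_iff_card hp2 L).mpr hcard.le), ?_⟩
    intro K hK hLK
    have h1 := (F.abelian_iff_card hp2 K).mp ((isMulComm_iff K).mp hK)
    rw [← hcard] at h1
    exact (Subgroup.eq_of_le_of_card_ge hLK h1).ge

/-- The frame of a subgroup in normal form. -/
theorem exists_sub (hp2 : p ≠ 2) (L : Subgroup G) (u w x : ℕ) (hu : u ≤ F.α) (hw : w ≤ F.β)
    (hLA : L ⊓ Subgroup.zpowers F.a = Subgroup.zpowers (F.a ^ p ^ u))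
    (hc : F.a ^ x * F.b ^ p ^ w ∈ L)
    (hgen : ∀ l ∈ L, ∃ i j : ℕ, l = (F.a ^ p ^ u) ^ i * (F.a ^ x * F.b ^ p ^ w) ^ j) :
    ∃ FL : Frame p ↥L, FL.α = F.α - u ∧ FL.β = F.β - w ∧ FL.n = F.n - (u + w) := by
  have hA : F.a ^ p ^ u ∈ L := by
    have h1 : F.a ^ p ^ u ∈ L ⊓ Subgroup.zpowers F.a := by
      rw [hLA]; exact Subgroup.mem_zpowers _
    exact (Subgroup.mem_inf.mp h1).1
  have hR : F.r ^ p ^ w % p = 1 := by
    rw [Nat.pow_mod, F.hr, one_pow, Nat.one_mod_eq_one.mpr hp.out.ne_one]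
  have hconjG : (F.a ^ x * F.b ^ p ^ w) * F.a ^ p ^ u * (F.a ^ x * F.b ^ p ^ w)⁻¹ =
      (F.a ^ p ^ u) ^ (F.r ^ p ^ w) := by
    have h1 : (F.a ^ x * F.b ^ p ^ w) * F.a ^ p ^ u * (F.a ^ x * F.b ^ p ^ w)⁻¹ =
        F.a ^ x * (F.b ^ p ^ w * F.a ^ p ^ u * (F.b ^ p ^ w)⁻¹) * (F.a ^ x)⁻¹ := by group
    rw [h1, F.conjb_pow, ← pow_mul]
    have hcm : F.a ^ x * F.a ^ (p ^ u * F.r ^ p ^ w) = F.a ^ (p ^ u * F.r ^ p ^ w) * F.a ^ x := by
      rw [← pow_add, ← pow_add, add_comm]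
    rw [hcm, mul_inv_cancel_right]
  have hordA : orderOf (F.a ^ p ^ u) = p ^ (F.α - u) :=
    orderOf_pow_pow hp.out F.a F.α u F.hα hu
  have hordD : orderOf ((F.a ^ p ^ u) ^ (F.r ^ p ^ w - 1)) = p ^ (F.n - (u + w)) := by
    have h1 : (F.a ^ p ^ u) ^ (F.r ^ p ^ w - 1) =
        (F.a ^ (F.r - 1)) ^ (p ^ u * gs F.r (p ^ w)) := by
      rw [← pow_mul, F.d_pow]
    rw [h1]
    apply orderOf_pow_of_dvd_iff hp.out _ F.n F.hn
    intro t
    rw [pow_dvd_mul_gs_iff hp.out hp2 F.r F.hr, pow_add]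
  have hβL : ∀ j : ℕ, (F.a ^ x * F.b ^ p ^ w) ^ j ∈ Subgroup.zpowers (F.a ^ p ^ u) ↔
      p ^ (F.β - w) ∣ j := by
    intro j
    have h1 : (F.a ^ x * F.b ^ p ^ w) ^ j ∈ Subgroup.zpowers (F.a ^ p ^ u) ↔
        (F.a ^ x * F.b ^ p ^ w) ^ j ∈ Subgroup.zpowers F.a := by
      rw [← hLA, Subgroup.mem_inf]
      exact ⟨fun h => h.2, fun h => ⟨Subgroup.pow_mem _ hc j, h⟩⟩
    rw [h1, ← F.π_eq_one_iff, map_pow, map_mul, map_pow, map_pow,
      (F.π_eq_one_iff F.a).mpr (Subgroup.mem_zpowers _), one_pow, one_mul, ← pow_mul,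
      ← orderOf_dvd_iff_pow_eq_one, F.orderOf_π_b]
    constructor
    · intro h
      have h2 : p ^ (F.β - w) * p ^ w ∣ j * p ^ w := by
        rw [← pow_add, Nat.sub_add_cancel hw, mul_comm j]; exact h
      exact Nat.dvd_of_mul_dvd_mul_right (pow_pos hp.out.pos w) h2
    · rintro ⟨q, rfl⟩
      exact ⟨q, by rw [← mul_assoc, ← pow_add, Nat.add_sub_cancel' hw]⟩
  refine ⟨⟨⟨F.a ^ p ^ u, hA⟩, ⟨F.a ^ x * F.b ^ p ^ w, hc⟩, F.r ^ p ^ w, F.α - u, F.β - w,
    F.n - (u + w), hR, ?_, ?_, ?_, ?_, ?_⟩, rfl, rfl, rfl⟩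
  · apply Subtype.ext
    show (F.a ^ x * F.b ^ p ^ w) * F.a ^ p ^ u * (F.a ^ x * F.b ^ p ^ w)⁻¹ =
      (F.a ^ p ^ u) ^ (F.r ^ p ^ w)
    exact hconjG
  · intro l
    obtain ⟨i, j, hij⟩ := hgen l l.2
    exact ⟨i, j, Subtype.ext hij⟩
  · rw [← Subgroup.orderOf_coe]; exact hordA
  · rw [← Subgroup.orderOf_coe]; exact hordD
  · intro j
    rw [coe_mem_zpowers_iff]
    exact hβL j

theorem card_mul_card_centralizer (hp2 : p ≠ 2) (R : Subgroup G)
    (hZ : Subgroup.center G ≤ R) :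
    Nat.card R * Nat.card (Subgroup.centralizer (R : Set G)) = p ^ (2 * (F.α + F.β - F.n)) := by
  have hnα := F.n_le_α
  have hnβ := F.n_le_β hp2
  obtain ⟨u, w, x, hu, hw, hLA, hc, hgen, hcard, hLπ⟩ := F.exists_normal_form R
  have hlev : F.lev F.n ≤ R := by rw [F.lev_n_eq_center hp2]; exact hZ
  have hA : F.a ^ p ^ u ∈ R := by
    have h1 : F.a ^ p ^ u ∈ R ⊓ Subgroup.zpowers F.a := by
      rw [hLA]; exact Subgroup.mem_zpowers _
    exact (Subgroup.mem_inf.mp h1).1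
  have hun : u ≤ F.n := by
    have h1 : F.lev F.n ⊓ Subgroup.zpowers F.a ≤ R ⊓ Subgroup.zpowers F.a :=
      inf_le_inf_right _ hlev
    rw [F.lev_inf_A hp2 F.n le_rfl, hLA] at h1
    have h2 := Subgroup.card_dvd_of_le h1
    rw [Nat.card_zpowers, Nat.card_zpowers, orderOf_pow_pow hp.out _ F.α F.n F.hα hnα,
      orderOf_pow_pow hp.out _ F.α u F.hα hu] at h2
    have h3 := (Nat.pow_dvd_pow_iff_le_right hp.out.one_lt).mp h2
    omega
  have hwn : w ≤ F.n := by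
    have h1 : (F.lev F.n).map F.π ≤ R.map F.π := Subgroup.map_mono hlev
    rw [F.map_lev, hLπ] at h1
    have h2 := Subgroup.card_dvd_of_le h1
    rw [Nat.card_zpowers, Nat.card_zpowers,
      orderOf_pow_pow hp.out _ F.β F.n F.orderOf_π_b hnβ,
      orderOf_pow_pow hp.out _ F.β w F.orderOf_π_b hw] at h2
    have h3 := (Nat.pow_dvd_pow_iff_le_right hp.out.one_lt).mp h2
    omega
  have hx : p ^ w ∣ x * p ^ (F.n - u) := by
    have hR : F.r ^ p ^ w % p = 1 := by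
      rw [Nat.pow_mod, F.hr, one_pow, Nat.one_mod_eq_one.mpr hp.out.ne_one]
    have h1 : (F.a ^ x * F.b ^ p ^ w) ^ p ^ (F.n - w) ∈ R := Subgroup.pow_mem _ hc _
    rw [F.pow_formula, ← pow_add, Nat.add_sub_cancel' hwn] at h1
    have h2 : F.b ^ p ^ F.n ∈ R := hlev ((F.mem_lev F.n _).mpr ⟨0, 1, by simp⟩)
    have h3 : F.a ^ (x * gs (F.r ^ p ^ w) (p ^ (F.n - w))) ∈ R ⊓ Subgroup.zpowers F.a := by
      apply Subgroup.mem_inf.mpr
      refine ⟨?_, Subgroup.pow_mem _ (Subgroup.mem_zpowers _) _⟩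
      have h4 := Subgroup.mul_mem _ h1 (Subgroup.inv_mem _ h2)
      rwa [mul_inv_cancel_right] at h4
    rw [hLA] at h3
    have h5 := F.dvd_of_pow_mem u _ hu h3
    rw [pow_dvd_mul_gs_iff hp.out hp2 _ hR] at h5
    have e1 : p ^ (F.n - u) * p ^ u = p ^ F.n := by rw [← pow_add, Nat.sub_add_cancel hun]
    have e2 : p ^ (F.n - w) * p ^ w = p ^ F.n := by rw [← pow_add, Nat.sub_add_cancel hwn]
    have h6 : p ^ w * p ^ u ∣ x * p ^ (F.n - u) * p ^ u := by
      have h7 : x * p ^ (F.n - u) * p ^ u = (x * p ^ (F.n - w)) * p ^ w := by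
        rw [mul_assoc, e1, mul_assoc, e2]
      rw [h7, mul_comm (p ^ w)]
      exact mul_dvd_mul_right h5 _
    exact Nat.dvd_of_mul_dvd_mul_right (pow_pos hp.out.pos u) h6
  have hmemC : ∀ g : G, g * F.a ^ p ^ u = F.a ^ p ^ u * g →
      g * (F.a ^ x * F.b ^ p ^ w) = (F.a ^ x * F.b ^ p ^ w) * g →
      g ∈ Subgroup.centralizer (R : Set G) := by
    intro g h1 h2
    rw [Subgroup.mem_centralizer_iff]
    intro l hl
    obtain ⟨i, j, rfl⟩ := hgen l hl
    have hc1 : Commute g (F.a ^ p ^ u) := h1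
    have hc2 : Commute g (F.a ^ x * F.b ^ p ^ w) := h2
    exact (((hc1.pow_right i).mul_right (hc2.pow_right j)).eq).symm
  have hCA : Subgroup.centralizer (R : Set G) ⊓ Subgroup.zpowers F.a =
      Subgroup.zpowers (F.a ^ p ^ (F.n - w)) := by
    apply le_antisymm
    · intro g hg
      obtain ⟨hg1, hg2⟩ := Subgroup.mem_inf.mp hg
      rw [← mem_powers_iff_mem_zpowers, Submonoid.mem_powers_iff] at hg2
      obtain ⟨z, rfl⟩ := hg2
      have h1 : (F.a ^ x * F.b ^ p ^ w) * F.a ^ z = F.a ^ z * (F.a ^ x * F.b ^ p ^ w) :=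
        Subgroup.mem_centralizer_iff.mp hg1 _ hc
      have h2 : (F.a ^ x * F.b ^ p ^ w) * (F.a ^ z * F.b ^ 0) =
          (F.a ^ z * F.b ^ 0) * (F.a ^ x * F.b ^ p ^ w) := by
        rw [pow_zero, mul_one]; exact h1
      rw [F.comm_iff, pow_zero, mul_one, add_comm z x, pow_add, pow_add] at h2
      have h3 : F.a ^ (z * F.r ^ p ^ w) = F.a ^ z := mul_left_cancel h2
      have h4 := (F.a_pow_eq_iff hp2 z (p ^ w)).mp h3
      have h5 : p ^ (F.n - w) ∣ z := by
        have h6 : p ^ (F.n - w) * p ^ w ∣ z * p ^ w := by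
          rw [← pow_add, Nat.sub_add_cancel hwn]; exact h4
        exact Nat.dvd_of_mul_dvd_mul_right (pow_pos hp.out.pos w) h6
      obtain ⟨q, rfl⟩ := h5
      rw [pow_mul]
      exact Subgroup.pow_mem _ (Subgroup.mem_zpowers _) q
    · apply le_inf
      · rw [Subgroup.zpowers_le]
        apply hmemC
        · exact (Commute.pow_pow_self F.a _ _).eq
        · exact ((F.comm_gen_iff hp2 (F.n - w) w x).mpr (by omega)).symm
      · exact Subgroup.zpowers_le.mpr (Subgroup.pow_mem _ (Subgroup.mem_zpowers _) _)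
  have hCπ : (Subgroup.centralizer (R : Set G)).map F.π =
      Subgroup.zpowers (F.π F.b ^ p ^ (F.n - u)) := by
    apply le_antisymm
    · rintro q ⟨g, hg, rfl⟩
      obtain ⟨i, j, rfl⟩ := F.hgen g
      have h1 : F.a ^ p ^ u * (F.a ^ i * F.b ^ j) = (F.a ^ i * F.b ^ j) * F.a ^ p ^ u :=
        Subgroup.mem_centralizer_iff.mp hg _ hA
      have h2 : (F.a ^ i * F.b ^ j) * (F.a ^ p ^ u * F.b ^ 0) =
          (F.a ^ p ^ u * F.b ^ 0) * (F.a ^ i * F.b ^ j) := by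
        rw [pow_zero, mul_one]; exact h1.symm
      rw [F.comm_iff, pow_zero, mul_one, add_comm (p ^ u) i, pow_add, pow_add] at h2
      have h3 : F.a ^ (p ^ u * F.r ^ j) = F.a ^ p ^ u := mul_left_cancel h2
      have h4 := (F.a_pow_eq_iff hp2 (p ^ u) j).mp h3
      have h5 : p ^ (F.n - u) ∣ j := by
        have h6 : p ^ (F.n - u) * p ^ u ∣ j * p ^ u := by
          rw [← pow_add, Nat.sub_add_cancel hun, mul_comm j]; exact h4
        exact Nat.dvd_of_mul_dvd_mul_right (pow_pos hp.out.pos u) h6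
      obtain ⟨q, rfl⟩ := h5
      rw [map_mul, map_pow, map_pow, (F.π_eq_one_iff F.a).mpr (Subgroup.mem_zpowers _), one_pow,
        one_mul, pow_mul]
      exact Subgroup.pow_mem _ (Subgroup.mem_zpowers _) q
    · rw [Subgroup.zpowers_le]
      have hS : p ^ w ∣ gs F.r (p ^ w) := by
        have h := (pow_dvd_mul_gs_iff hp.out hp2 F.r F.hr w 1 (p ^ w)).mpr (by rw [one_mul])
        rwa [one_mul] at h
      have hS' : ¬ p ^ (w + 1) ∣ gs F.r (p ^ w) := by
        intro h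
        have h1 := (pow_dvd_mul_gs_iff hp.out hp2 F.r F.hr (w + 1) 1 (p ^ w)).mp
          (by rwa [one_mul])
        rw [one_mul, Nat.pow_dvd_pow_iff_le_right hp.out.one_lt] at h1
        omega
      have hT : p ^ w ∣ x * gs F.r (p ^ (F.n - u)) :=
        (pow_dvd_mul_gs_iff hp.out hp2 F.r F.hr w x (p ^ (F.n - u))).mpr hx
      obtain ⟨i, hi⟩ := exists_pow_eq hp.out (F.a ^ (F.r - 1)) F.n F.hn w _ _ hS hS' hT
      have hmem : F.a ^ i * F.b ^ p ^ (F.n - u) ∈ Subgroup.centralizer (R : Set G) := by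
        apply hmemC
        · have h2 : (F.a ^ i * F.b ^ p ^ (F.n - u)) * (F.a ^ p ^ u * F.b ^ 0) =
              (F.a ^ p ^ u * F.b ^ 0) * (F.a ^ i * F.b ^ p ^ (F.n - u)) := by
            rw [F.comm_iff, pow_zero, mul_one, add_comm (p ^ u) i, pow_add, pow_add]
            congr 1
            exact (F.a_pow_eq_iff hp2 (p ^ u) (p ^ (F.n - u))).mpr
              ⟨1, by rw [mul_one, ← pow_add, Nat.add_sub_cancel' hun]⟩
          rwa [pow_zero, mul_one] at h2
        · rw [F.comm_iff]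
          have e1 : i + x * F.r ^ p ^ (F.n - u) = (i + x) + x * (F.r ^ p ^ (F.n - u) - 1) := by
            obtain ⟨k, hk⟩ : ∃ k, F.r ^ p ^ (F.n - u) = k + 1 :=
              ⟨F.r ^ p ^ (F.n - u) - 1,
                by have := Nat.one_le_pow (p ^ (F.n - u)) F.r F.one_le_r; omega⟩
            rw [hk, Nat.add_sub_cancel]; ring
          have e2 : x + i * F.r ^ p ^ w = (i + x) + i * (F.r ^ p ^ w - 1) := by
            obtain ⟨k, hk⟩ : ∃ k, F.r ^ p ^ w = k + 1 :=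
              ⟨F.r ^ p ^ w - 1, by have := Nat.one_le_pow (p ^ w) F.r F.one_le_r; omega⟩
            rw [hk, Nat.add_sub_cancel]; ring
          rw [e1, e2, pow_add F.a (i + x) (x * (F.r ^ p ^ (F.n - u) - 1)),
            pow_add F.a (i + x) (i * (F.r ^ p ^ w - 1)), F.d_pow, F.d_pow, hi]
      have h7 : F.π (F.a ^ i * F.b ^ p ^ (F.n - u)) = F.π F.b ^ p ^ (F.n - u) := by
        rw [map_mul, map_pow, map_pow, (F.π_eq_one_iff F.a).mpr (Subgroup.mem_zpowers _),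
          one_pow, one_mul]
      rw [← h7]
      exact Subgroup.mem_map_of_mem _ hmem
  have hcardC := card_eq_map_mul_inf F.π (Subgroup.centralizer (R : Set G))
  rw [F.π_ker, hCA, hCπ, Nat.card_zpowers, Nat.card_zpowers,
    orderOf_pow_pow hp.out _ F.β (F.n - u) F.orderOf_π_b (by omega),
    orderOf_pow_pow hp.out _ F.α (F.n - w) F.hα (by omega)] at hcardC
  rw [hcardC, hcard, ← pow_add, ← pow_add, ← pow_add]
  congr 1
  omega

include F in
theorem exists_factorization (hp2 : p ≠ 2) :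
    ∃ A B : Subgroup G, IsCyclic ↥A ∧ IsCyclic ↥B ∧ A ⊓ B = ⊥ ∧
      Nat.card A * Nat.card B = Nat.card G := by
  have hnα := F.n_le_α
  have hbA : F.b ^ p ^ F.β ∈ Subgroup.zpowers F.a := (F.hβ _).mpr dvd_rfl
  have hbA' := hbA
  rw [← mem_powers_iff_mem_zpowers, Submonoid.mem_powers_iff] at hbA'
  obtain ⟨t, ht⟩ := hbA'
  obtain ⟨f, hf, hordt⟩ : ∃ f ≤ F.α, orderOf (F.a ^ t) = p ^ f := by
    have h1 : orderOf (F.a ^ t) ∣ p ^ F.α := by rw [← F.hα]; exact orderOf_pow_dvd t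
    exact (Nat.dvd_prime_pow hp.out).mp h1
  have hgcd : Nat.gcd (p ^ F.α) t = p ^ (F.α - f) := by
    have h1 := orderOf_pow (n := t) F.a
    rw [hordt, F.hα] at h1
    obtain ⟨k, hk, hgk⟩ := (Nat.dvd_prime_pow hp.out).mp (Nat.gcd_dvd_left (p ^ F.α) t)
    rw [hgk, Nat.pow_div hk hp.out.pos] at h1
    have h2 := Nat.pow_right_injective hp.out.two_le h1
    rw [hgk]; congr 1; omega
  have hte : p ^ (F.α - f) ∣ t := by rw [← hgcd]; exact Nat.gcd_dvd_right _ _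
  have hπb := F.orderOf_π_b
  have hπ : ∀ c y : ℕ, F.π (F.a ^ c * F.b ^ y) = F.π F.b ^ y := by
    intro c y
    rw [map_mul, map_pow, map_pow, (F.π_eq_one_iff F.a).mpr (Subgroup.mem_zpowers _), one_pow,
      one_mul]
  by_cases hcase : f = 0 ∨ F.β ≤ F.α - f
  · -- the split case
    have hsolve : ∃ c : ℕ, p ^ F.α ∣ c * gs F.r (p ^ F.β) + t := by
      rcases hcase with h0 | hle
      · refine ⟨0, ?_⟩
        rw [zero_mul, zero_add, ← F.hα, orderOf_dvd_iff_pow_eq_one, ← orderOf_eq_one_iff, hordt,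
          h0, pow_zero]
      · have hS : p ^ F.β ∣ gs F.r (p ^ F.β) := by
          have h := (pow_dvd_mul_gs_iff hp.out hp2 F.r F.hr F.β 1 (p ^ F.β)).mpr
            (by rw [one_mul])
          rwa [one_mul] at h
        have hS' : ¬ p ^ (F.β + 1) ∣ gs F.r (p ^ F.β) := by
          intro h
          have h1 := (pow_dvd_mul_gs_iff hp.out hp2 F.r F.hr (F.β + 1) 1 (p ^ F.β)).mp
            (by rwa [one_mul])
          rw [one_mul, Nat.pow_dvd_pow_iff_le_right hp.out.one_lt] at h1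
          omega
        exact exists_solve hp.out F.α F.β (gs F.r (p ^ F.β)) t hS hS'
          ((pow_dvd_pow p hle).trans hte)
    obtain ⟨c, hc⟩ := hsolve
    have hy : (F.a ^ c * F.b ^ 1) ^ p ^ F.β = 1 := by
      rw [F.pow_formula, pow_one, one_mul, ← ht, ← pow_add, ← orderOf_dvd_iff_pow_eq_one, F.hα]
      exact hc
    rw [pow_one] at hy
    have hπy : F.π (F.a ^ c * F.b) = F.π F.b := by
      have h2 := hπ c 1
      rwa [pow_one, pow_one] at h2
    have hordy : orderOf (F.a ^ c * F.b) = p ^ F.β := by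
      apply Nat.dvd_antisymm (orderOf_dvd_of_pow_eq_one hy)
      have h1 := orderOf_map_dvd F.π (F.a ^ c * F.b)
      rwa [hπy, hπb] at h1
    refine ⟨Subgroup.zpowers F.a, Subgroup.zpowers (F.a ^ c * F.b), inferInstance, inferInstance,
      ?_, ?_⟩
    · rw [eq_bot_iff]
      intro g hg
      obtain ⟨hg1, hg2⟩ := Subgroup.mem_inf.mp hg
      rw [← mem_powers_iff_mem_zpowers, Submonoid.mem_powers_iff] at hg2
      obtain ⟨m, rfl⟩ := hg2
      rw [Subgroup.mem_bot]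
      have h1 : F.π ((F.a ^ c * F.b) ^ m) = 1 := (F.π_eq_one_iff _).mpr hg1
      rw [map_pow, hπy, ← orderOf_dvd_iff_pow_eq_one, hπb] at h1
      rw [← orderOf_dvd_iff_pow_eq_one, hordy]
      exact h1
    · rw [Nat.card_zpowers, Nat.card_zpowers, F.hα, hordy, F.card_G, pow_add]
  · -- the non-split case
    push Not at hcase
    obtain ⟨hf0, hlt⟩ := hcase
    have hfpos : 0 < f := Nat.pos_of_ne_zero hf0
    have hnt : ¬ p ^ (F.α - f + 1) ∣ t := by
      intro h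
      have h1 : p ^ (F.α - f + 1) ∣ Nat.gcd (p ^ F.α) t :=
        Nat.dvd_gcd (pow_dvd_pow p (by omega)) h
      rw [hgcd, Nat.pow_dvd_pow_iff_le_right hp.out.one_lt] at h1
      omega
    have hR : F.r ^ p ^ (F.β - (F.α - f)) % p = 1 := by
      rw [Nat.pow_mod, F.hr, one_pow, Nat.one_mod_eq_one.mpr hp.out.ne_one]
    have hS : p ^ (F.α - f) ∣ gs (F.r ^ p ^ (F.β - (F.α - f))) (p ^ (F.α - f)) := by
      have h := (pow_dvd_mul_gs_iff hp.out hp2 _ hR (F.α - f) 1 (p ^ (F.α - f))).mpr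
        (by rw [one_mul])
      rwa [one_mul] at h
    have hS' : ¬ p ^ (F.α - f + 1) ∣ gs (F.r ^ p ^ (F.β - (F.α - f))) (p ^ (F.α - f)) := by
      intro h
      have h1 := (pow_dvd_mul_gs_iff hp.out hp2 _ hR (F.α - f + 1) 1 (p ^ (F.α - f))).mp
        (by rwa [one_mul])
      rw [one_mul, Nat.pow_dvd_pow_iff_le_right hp.out.one_lt] at h1
      omega
    obtain ⟨c, hc⟩ := exists_solve hp.out F.α (F.α - f) _ t hS hS' hte
    have hcp : ¬ p ∣ c := not_dvd_of_solve hp.out F.α (F.α - f) _ t c hc hS hnt (by omega)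
    have hxpow : (F.a ^ c * F.b ^ p ^ (F.β - (F.α - f))) ^ p ^ (F.α - f) = 1 := by
      have e1 : p ^ (F.β - (F.α - f)) * p ^ (F.α - f) = p ^ F.β := by
        rw [← pow_add]; congr 1; omega
      rw [F.pow_formula, e1, ← ht, ← pow_add, ← orderOf_dvd_iff_pow_eq_one, F.hα]
      exact hc
    have key : ∀ m : ℕ, (F.a ^ c * F.b ^ p ^ (F.β - (F.α - f))) ^ m ∈ Subgroup.zpowers F.b →
        p ^ (F.α - f) ∣ m := by
      intro m hm
      rw [F.pow_formula] at hm
      have h1 : F.a ^ (c * gs (F.r ^ p ^ (F.β - (F.α - f))) m) ∈ Subgroup.zpowers F.b := by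
        have h2 := Subgroup.mul_mem _ hm
          (Subgroup.inv_mem _ (Subgroup.pow_mem _ (Subgroup.mem_zpowers F.b)
            (p ^ (F.β - (F.α - f)) * m)))
        rwa [mul_inv_cancel_right] at h2
      rw [← mem_powers_iff_mem_zpowers, Submonoid.mem_powers_iff] at h1
      obtain ⟨j, hj⟩ := h1
      have h3 : F.b ^ j ∈ Subgroup.zpowers F.a := by
        rw [hj]; exact Subgroup.pow_mem _ (Subgroup.mem_zpowers _) _
      obtain ⟨q, rfl⟩ := (F.hβ j).mp h3
      rw [pow_mul, ← ht, ← pow_mul, pow_eq_pow_iff_modEq, F.hα] at hj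
      have h4 : p ^ (F.α - f) ∣ c * gs (F.r ^ p ^ (F.β - (F.α - f))) m :=
        (hj.dvd_iff (pow_dvd_pow p (Nat.sub_le _ _))).mp (Dvd.dvd.mul_right hte q)
      have hcop : Nat.Coprime (p ^ (F.α - f)) c :=
        Nat.Coprime.pow_left _ ((Nat.Prime.coprime_iff_not_dvd hp.out).mpr hcp)
      have h5 : p ^ (F.α - f) ∣ gs (F.r ^ p ^ (F.β - (F.α - f))) m :=
        hcop.dvd_of_dvd_mul_left h4
      have h6 := (pow_dvd_mul_gs_iff hp.out hp2 _ hR (F.α - f) 1 m).mp (by rwa [one_mul])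
      rwa [one_mul] at h6
    have hordx : orderOf (F.a ^ c * F.b ^ p ^ (F.β - (F.α - f))) = p ^ (F.α - f) := by
      apply Nat.dvd_antisymm (orderOf_dvd_of_pow_eq_one hxpow)
      apply key
      rw [pow_orderOf_eq_one]
      exact Subgroup.one_mem _
    have hordb : orderOf F.b = p ^ F.β * p ^ f := by
      have h1 : p ^ F.β ∣ orderOf F.b := by
        rw [← hπb]; exact orderOf_map_dvd F.π F.b
      have h2 := orderOf_pow_of_dvd (x := F.b) (n := p ^ F.β) (pow_ne_zero _ hp.out.ne_zero) h1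
      rw [← ht, hordt] at h2
      exact Nat.eq_mul_of_div_eq_right h1 h2.symm
    refine ⟨Subgroup.zpowers (F.a ^ c * F.b ^ p ^ (F.β - (F.α - f))), Subgroup.zpowers F.b,
      inferInstance, inferInstance, ?_, ?_⟩
    · rw [eq_bot_iff]
      intro g hg
      obtain ⟨hg1, hg2⟩ := Subgroup.mem_inf.mp hg
      rw [← mem_powers_iff_mem_zpowers, Submonoid.mem_powers_iff] at hg1
      obtain ⟨m, rfl⟩ := hg1
      rw [Subgroup.mem_bot, ← orderOf_dvd_iff_pow_eq_one, hordx]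
      exact key m hg2
    · rw [Nat.card_zpowers, Nat.card_zpowers, hordx, hordb, F.card_G, ← pow_add, ← pow_add]
      congr 1
      omega

end Frame

end Cfsg.Agent.Helper20.Meta
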