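import Mathlib
import Cfsg.Agent.Helper20.Metacyclic2

set_option autoImplicit false

namespace Cfsg.Agent.Helper20.Meta

namespace Frame

variable {p : ℕ} {G : Type*} [Group G] (F : Frame p G) [hp : Fact p.Prime] [Finite G]

theorem lev_normal (hp2 : p ≠ 2) (s : ℕ) : (F.lev s).Normal := by
  rw [← F.closure_pow_eq_lev hp2 s]
  constructor
  intro n hn g
  have h1 : (Subgroup.closure {x : G | ∃ y : G, y ^ p ^ s = x}).map
      (MulAut.conj g).toMonoidHom ≤ Subgroup.closure {x : G | ∃ y : G, y ^ p ^ s = x} := by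
    rw [MonoidHom.map_closure, Subgroup.closure_le]
    rintro _ ⟨x, ⟨y, rfl⟩, rfl⟩
    apply Subgroup.subset_closure
    refine ⟨g * y * g⁻¹, ?_⟩
    simp [conj_pow]
  have h2 := h1 (Subgroup.mem_map_of_mem _ hn)
  simpa using h2

theorem lev_succ_le (s : ℕ) : F.lev (s + 1) ≤ F.lev s := by
  intro g hg
  rw [F.mem_lev] at hg ⊢
  obtain ⟨i', j', rfl⟩ := hg
  exact ⟨p * i', p * j', by rw [pow_succ, mul_assoc, mul_assoc]⟩

theorem card_mul_card_center_sub (hp2 : p ≠ 2) (R : Subgroup G) (u w x : ℕ) (hu : u ≤ F.α)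
    (hw : w ≤ F.β)
    (hLA : R ⊓ Subgroup.zpowers F.a = Subgroup.zpowers (F.a ^ p ^ u))
    (hc : F.a ^ x * F.b ^ p ^ w ∈ R)
    (hgen : ∀ l ∈ R, ∃ i j : ℕ, l = (F.a ^ p ^ u) ^ i * (F.a ^ x * F.b ^ p ^ w) ^ j) :
    Nat.card R * Nat.card (Subgroup.center ↥R) =
      p ^ (2 * (F.α - u + (F.β - w)) - 2 * (F.n - (u + w))) := by
  obtain ⟨FL, hα, hβ, hn⟩ := F.exists_sub hp2 R u w x hu hw hLA hc hgen
  have h1 := FL.card_G
  have h2 := FL.card_center hp2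
  have h3 := FL.n_le_α
  have h4 := FL.n_le_β hp2
  rw [hα, hβ] at h1
  rw [hα, hβ, hn] at h2
  rw [hn, hα] at h3
  rw [hn, hβ] at h4
  rw [h1, h2, ← pow_add]
  congr 1
  omega

/-- Per-subgroup summary: order, `|R| |Z(R)|`, and the abelian criterion. -/
theorem exists_data (hp2 : p ≠ 2) (R : Subgroup G) :
    ∃ u w : ℕ, u ≤ F.α ∧ w ≤ F.β ∧ Nat.card R = p ^ (F.α - u + (F.β - w)) ∧
      Nat.card R * Nat.card (Subgroup.center ↥R) =
        p ^ (2 * (F.α - u + (F.β - w)) - 2 * (F.n - (u + w))) ∧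
      ((∀ l ∈ R, ∀ l' ∈ R, l * l' = l' * l) ↔ F.n ≤ u + w) := by
  obtain ⟨u, w, x, hu, hw, hLA, hc, hgen, hcard, -⟩ := F.exists_normal_form R
  refine ⟨u, w, hu, hw, ?_, F.card_mul_card_center_sub hp2 R u w x hu hw hLA hc hgen,
    F.abelian_iff hp2 R u w x hLA hc hgen⟩
  rw [hcard, ← pow_add]

end Frame

end Cfsg.Agent.Helper20.Meta
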