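import Mathlib

set_option autoImplicit false

namespace Cfsg.Agent.Helper20

/-- An element whose `2^j`-th power lies in a normal subgroup of odd index lies in it. -/
theorem mem_of_pow_two_pow_mem {G : Type*} [Group G] [Finite G] (N : Subgroup G) [N.Normal]
    (hN : Odd N.index) (g : G) (j : ℕ) (h : g ^ (2 ^ j) ∈ N) : g ∈ N := by
  have h1 : ((g : G ⧸ N)) ^ (2 ^ j) = 1 := by
    rw [← QuotientGroup.mk_pow]; exact (QuotientGroup.eq_one_iff _).2 h
  have h2 : orderOf (g : G ⧸ N) ∣ 2 ^ j := orderOf_dvd_of_pow_eq_one h1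
  have h3 : orderOf (g : G ⧸ N) ∣ Nat.card (G ⧸ N) := orderOf_dvd_natCard _
  have h4 : Nat.Coprime (2 ^ j) (Nat.card (G ⧸ N)) := by
    rw [← Subgroup.index_eq_card]
    exact Nat.Coprime.pow_left j (Nat.coprime_two_left.2 hN)
  have h5 := Nat.eq_one_of_dvd_coprimes h4 h2 h3
  rw [orderOf_eq_one_iff] at h5
  exact (QuotientGroup.eq_one_iff _).1 h5

/-- A 2-element lies in every normal subgroup of odd index. -/
theorem mem_of_orderOf_two_pow {G : Type*} [Group G] [Finite G] (N : Subgroup G) [N.Normal]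
    (hN : Odd N.index) (g : G) (j : ℕ) (h : orderOf g = 2 ^ j) : g ∈ N := by
  apply mem_of_pow_two_pow_mem N hN g j
  rw [← h, pow_orderOf_eq_one]
  exact N.one_mem

/-- If `c` inverts `x` then odd powers of `c` invert `x`. -/
theorem odd_pow_inverts {G : Type*} [Group G] (c x : G) (hc : c * x * c⁻¹ = x⁻¹) (k : ℕ) :
    c ^ (2 * k + 1) * x * (c ^ (2 * k + 1))⁻¹ = x⁻¹ := by
  have h2 : c ^ 2 * x * (c ^ 2)⁻¹ = x := by
    have h3 : c * x⁻¹ * c⁻¹ = x := by
      have := congrArg Inv.inv hc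
      simpa [mul_assoc] using this
    calc c ^ 2 * x * (c ^ 2)⁻¹ = c * (c * x * c⁻¹) * c⁻¹ := by
          rw [pow_two, mul_inv_rev]; simp only [mul_assoc]
      _ = x := by rw [hc, h3]
  have h2k : ∀ k : ℕ, (c ^ 2) ^ k * x * ((c ^ 2) ^ k)⁻¹ = x := by
    intro k
    induction k with
    | zero => simp
    | succ k ih =>
      calc (c ^ 2) ^ (k + 1) * x * ((c ^ 2) ^ (k + 1))⁻¹
          = c ^ 2 * ((c ^ 2) ^ k * x * ((c ^ 2) ^ k)⁻¹) * (c ^ 2)⁻¹ := by
            rw [pow_succ']; group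
        _ = x := by rw [ih, h2]
  calc c ^ (2 * k + 1) * x * (c ^ (2 * k + 1))⁻¹
      = c * ((c ^ 2) ^ k * x * ((c ^ 2) ^ k)⁻¹) * c⁻¹ := by
        rw [pow_succ', pow_mul]; group
    _ = x⁻¹ := by rw [h2k, hc]

/-- A real element is inverted by a 2-element. -/
theorem exists_two_elt_inverting {G : Type*} [Group G] [Finite G] (x : G) (hx : IsConj x x⁻¹) :
    ∃ t : G, (∃ j : ℕ, orderOf t = 2 ^ j) ∧ t * x * t⁻¹ = x⁻¹ := by
  obtain ⟨c, hc⟩ := isConj_iff.1 hx
  have hnpos : 0 < orderOf c := orderOf_pos c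
  have hmodd : Odd (ordCompl[2] (orderOf c)) := by
    rw [← Nat.not_even_iff_odd, even_iff_two_dvd]
    exact Nat.not_dvd_ordCompl Nat.prime_two hnpos.ne'
  obtain ⟨k, hk⟩ := hmodd
  refine ⟨c ^ (ordCompl[2] (orderOf c)), ⟨(orderOf c).factorization 2, ?_⟩, ?_⟩
  · rw [orderOf_pow, Nat.gcd_eq_right (Nat.ordCompl_dvd (orderOf c) 2)]
    have := Nat.ordProj_mul_ordCompl_eq_self (orderOf c) 2
    exact Nat.div_eq_of_eq_mul_left (Nat.ordCompl_pos 2 hnpos.ne') this.symm
  · rw [hk]; exact odd_pow_inverts c x hc k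

/-- Class size equals the index of the centralizer. -/
theorem index_centralizer_eq_card_isConj {G : Type*} [Group G] (h : G) :
    (Subgroup.centralizer ({h} : Set G)).index = Nat.card {x : G // IsConj h x} := by
  have h1 : (Subgroup.centralizer ({h} : Set G)).index =
      (MulAction.stabilizer (ConjAct G) h).index := by
    rw [Subgroup.centralizer_eq_comap_stabilizer]
    exact Subgroup.index_comap_of_surjective _ (MulEquiv.surjective _)
  rw [h1, MulAction.index_stabilizer, ← Nat.card_coe_set_eq]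
  apply Nat.card_congr
  exact Equiv.subtypeEquivRight (fun x => by rw [ConjAct.mem_orbit_conjAct]; exact isConj_comm)

/-- A real element with a conjugacy class of odd size is an involution (or trivial). -/
theorem sq_eq_one_of_real_of_odd_class {G : Type*} [Group G] [Finite G] (x : G)
    (hx : IsConj x x⁻¹) (hodd : Odd (Subgroup.centralizer ({x} : Set G)).index) : x ^ 2 = 1 := by
  classical
  rw [index_centralizer_eq_card_isConj] at hodd
  have hinv : ∀ y : G, IsConj x y → IsConj x y⁻¹ := by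
    intro y hy
    obtain ⟨c, hc⟩ := isConj_iff.1 hy
    obtain ⟨d, hd⟩ := isConj_iff.1 hx
    rw [isConj_iff]
    refine ⟨c * d, ?_⟩
    rw [← hc]
    calc c * d * x * (c * d)⁻¹ = c * (d * x * d⁻¹) * c⁻¹ := by group
      _ = (c * x * c⁻¹)⁻¹ := by rw [hd]; group
  have : Fintype {y : G // IsConj x y} := Fintype.ofFinite _
  let σ : Equiv.Perm {y : G // IsConj x y} :=
    { toFun := fun y => ⟨y.1⁻¹, hinv y.1 y.2⟩
      invFun := fun y => ⟨y.1⁻¹, hinv y.1 y.2⟩
      left_inv := fun y => by simp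
      right_inv := fun y => by simp }
  have hσ : σ ^ 2 ^ 1 = 1 := by
    ext y
    simp [σ, pow_two]
  have : Fact (Nat.Prime 2) := ⟨Nat.prime_two⟩
  have hnd : ¬ 2 ∣ Fintype.card {y : G // IsConj x y} := by
    rw [← Nat.card_eq_fintype_card, ← even_iff_two_dvd, Nat.not_even_iff_odd]
    exact hodd
  obtain ⟨y, hy⟩ := Equiv.Perm.exists_fixed_point_of_prime hnd hσ
  have hy1 : (y.1)⁻¹ = y.1 := congrArg Subtype.val hy
  have hy2 : y.1 ^ 2 = 1 := by
    rw [pow_two]
    nth_rewrite 1 [← hy1]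
    exact inv_mul_cancel _
  obtain ⟨c, hc⟩ := isConj_iff.1 y.2
  have : c * x ^ 2 * c⁻¹ = 1 := by
    rw [← hy2, ← hc, pow_two, pow_two]; simp only [mul_assoc, inv_mul_cancel_left]
  have h3 : x ^ 2 = c⁻¹ * (c * x ^ 2 * c⁻¹) * c := by group
  rw [h3, this]; group

/-- A real element lies in, and is real inside, every normal subgroup of odd index. -/
theorem real_in_odd_index_normal {G : Type*} [Group G] [Finite G] (x : G) (hx : IsConj x x⁻¹)
    (N : Subgroup G) [N.Normal] (hN : Odd N.index) :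
    ∃ hxN : x ∈ N, IsConj (⟨x, hxN⟩ : N) (⟨x, hxN⟩ : N)⁻¹ := by
  obtain ⟨t, ⟨j, hj⟩, ht⟩ := exists_two_elt_inverting x hx
  have htN : t ∈ N := mem_of_orderOf_two_pow N hN t j hj
  have hx2 : x ^ (2 ^ 1) ∈ N := by
    have h1 : (x ^ (2 ^ 1))⁻¹ = t * (x * t⁻¹ * x⁻¹) := by
      calc (x ^ (2 ^ 1))⁻¹ = x⁻¹ * x⁻¹ := by group
        _ = (t * x * t⁻¹) * x⁻¹ := by rw [ht]
        _ = t * (x * t⁻¹ * x⁻¹) := by group
    have h2 : (x ^ (2 ^ 1))⁻¹ ∈ N := by
      rw [h1]
      exact N.mul_mem htN (Subgroup.Normal.conj_mem inferInstance _ (N.inv_mem htN) x)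
    simpa using N.inv_mem h2
  have hxN : x ∈ N := mem_of_pow_two_pow_mem N hN x 1 hx2
  refine ⟨hxN, ?_⟩
  rw [isConj_iff]
  refine ⟨⟨t, htN⟩, ?_⟩
  apply Subtype.ext
  simpa using ht

end Cfsg.Agent.Helper20
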