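import Mathlib
import Cfsg.Agent.Helper20.Real
import Cfsg.Agent.Helper20.PClosed
import Cfsg.Agent.Helper1.Coprime
import Cfsg.Agent.Helper1.SZ

set_option autoImplicit false

namespace Cfsg.Agent.Helper20

universe u

/-- No non-identity element of odd order is conjugate to its inverse. -/
def NoOddReal (G : Type*) [Group G] : Prop :=
  ∀ x : G, x ≠ 1 → Odd (orderOf x) → ¬ IsConj x x⁻¹

theorem eq_one_of_dvd_coprime {a b d : ℕ} (hc : Nat.Coprime a b) (h1 : d ∣ a) (h2 : d ∣ b) :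
    d = 1 := by
  have h3 := Nat.dvd_gcd h1 h2
  rw [hc.gcd_eq_one] at h3
  exact Nat.dvd_one.1 h3

theorem noOddReal_subgroup {G : Type*} [Group G] (h : NoOddReal G) (N : Subgroup G) :
    NoOddReal ↥N := by
  intro y hy hodd hconj
  apply h (y : G)
  · intro h1
    exact hy (Subtype.ext h1)
  · rw [Subgroup.orderOf_coe]
    exact hodd
  · obtain ⟨c, hc⟩ := isConj_iff.1 hconj
    rw [isConj_iff]
    refine ⟨(c : G), ?_⟩
    have h1 := congrArg Subtype.val hc
    exact h1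

theorem noOddReal_quotient {G : Type u} [Group G] [Finite G] (h : NoOddReal G) (D : Subgroup G)
    [D.Normal] (hD : IsPGroup 2 ↥D) : NoOddReal (G ⧸ D) := by
  intro xb hxb hodd hconj
  obtain ⟨gb, hgb⟩ := isConj_iff.1 hconj
  obtain ⟨x₀, rfl⟩ := QuotientGroup.mk_surjective xb
  obtain ⟨g, rfl⟩ := QuotientGroup.mk_surjective gb
  obtain ⟨a, b, hb, hab⟩ := Nat.exists_eq_two_pow_mul_odd (orderOf_pos x₀).ne'
  obtain ⟨x, hxdef⟩ : ∃ x, x = x₀ ^ (2 ^ a) := ⟨_, rfl⟩
  have hxb' : x ^ b = 1 := by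
    rw [hxdef, ← pow_mul, ← hab]
    exact pow_orderOf_eq_one x₀
  have hxodd : Odd (orderOf x) := Odd.of_dvd_nat hb (orderOf_dvd_of_pow_eq_one hxb')
  have hmkx : (QuotientGroup.mk x : G ⧸ D) ≠ 1 := by
    intro h1
    have h2 : (QuotientGroup.mk x₀ : G ⧸ D) ^ (2 ^ a) = 1 := by
      rw [← QuotientGroup.mk_pow, ← hxdef]
      exact h1
    have h3 := orderOf_dvd_of_pow_eq_one h2
    have h4 : orderOf (QuotientGroup.mk x₀ : G ⧸ D) = 1 :=
      eq_one_of_dvd_coprime (Nat.Coprime.pow_right a (Odd.coprime_two_right hodd)) dvd_rfl h3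
    exact hxb (orderOf_eq_one_iff.1 h4)
  have hx1 : x ≠ 1 := by
    intro h1
    apply hmkx
    rw [h1]
    rfl
  have hinvq : (QuotientGroup.mk g : G ⧸ D) * QuotientGroup.mk x * (QuotientGroup.mk g)⁻¹ =
      (QuotientGroup.mk x)⁻¹ := by
    rw [hxdef, QuotientGroup.mk_pow, ← conj_pow, hgb, inv_pow]
  have hzD : g * x * g⁻¹ * x ∈ D := by
    rw [← QuotientGroup.eq_one_iff]
    rw [QuotientGroup.mk_mul, QuotientGroup.mk_mul, QuotientGroup.mk_mul, QuotientGroup.mk_inv,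
      hinvq, inv_mul_cancel]
  obtain ⟨k, hk⟩ := (IsPGroup.iff_card).1 hD
  have hcop : (Nat.card ↥(Subgroup.zpowers x)).Coprime (Nat.card ↥D) := by
    rw [Nat.card_zpowers, hk]
    exact Nat.Coprime.pow_right k (Odd.coprime_two_right hxodd)
  have hB : Subgroup.zpowers (g * x * g⁻¹) ≤ D ⊔ Subgroup.zpowers x := by
    rw [Subgroup.zpowers_le]
    have h1 : g * x * g⁻¹ = (g * x * g⁻¹ * x) * x⁻¹ := by group
    rw [h1]
    exact Subgroup.mul_mem _ (Subgroup.mem_sup_left hzD)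
      (Subgroup.mem_sup_right (Subgroup.inv_mem _ (Subgroup.mem_zpowers x)))
  have hcard : Nat.card ↥(Subgroup.zpowers (g * x * g⁻¹)) = Nat.card ↥(Subgroup.zpowers x) := by
    rw [Nat.card_zpowers, Nat.card_zpowers]
    exact orderOf_injective (MulAut.conj g).toMonoidHom (MulAut.conj g).injective x
  have hDsolv : Group.IsSolvable ↥D := by
    haveI : Group.IsNilpotent ↥D := hD.isNilpotent
    infer_instance
  obtain ⟨d, hd, hconj'⟩ := Cfsg.Agent.Helper1.sz2 D (Subgroup.zpowers x)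
    (Subgroup.zpowers (g * x * g⁻¹)) (by rw [Subgroup.normalizer_eq_top]; exact le_top) hB hcard
    hcop (Or.inr hDsolv)
  have h1 : d * x * d⁻¹ ∈ Subgroup.zpowers (g * x * g⁻¹) := by
    rw [← hconj']
    exact Cfsg.Agent.Helper1.conj_mem_conj_smul (Subgroup.mem_zpowers x)
  obtain ⟨i, hi⟩ := Subgroup.mem_zpowers_iff.1 h1
  rw [conj_zpow] at hi
  have h2 : x ^ i * x ∈ D := by
    rw [← QuotientGroup.eq_one_iff]
    have h3 := congrArg (QuotientGroup.mk : G → G ⧸ D) hi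
    have hd1 : (QuotientGroup.mk d : G ⧸ D) = 1 := (QuotientGroup.eq_one_iff _).2 hd
    rw [QuotientGroup.mk_mul, QuotientGroup.mk_mul, QuotientGroup.mk_inv, QuotientGroup.mk_zpow,
      QuotientGroup.mk_mul, QuotientGroup.mk_mul, QuotientGroup.mk_inv, hd1, one_mul, inv_one,
      mul_one, ← conj_zpow, hinvq, inv_zpow] at h3
    rw [QuotientGroup.mk_mul, QuotientGroup.mk_zpow]
    calc (QuotientGroup.mk x : G ⧸ D) ^ i * QuotientGroup.mk x
        = (QuotientGroup.mk x : G ⧸ D) ^ i * ((QuotientGroup.mk x : G ⧸ D) ^ i)⁻¹ := by rw [h3]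
      _ = 1 := mul_inv_cancel _
  have h5 : x ^ i * x = 1 := by
    have hy1 : (x ^ i * x) ^ (orderOf x) = 1 := by
      have h6 : x ^ i * x = x ^ (i + 1) := by rw [zpow_add_one]
      rw [h6, ← zpow_natCast, ← zpow_mul, mul_comm, zpow_mul, zpow_natCast, pow_orderOf_eq_one,
        one_zpow]
    have hy2 : (x ^ i * x) ^ (2 ^ k) = 1 := by
      have h6 := pow_card_eq_one' (G := ↥D) (x := ⟨x ^ i * x, h2⟩)
      rw [hk] at h6
      have h7 := congrArg Subtype.val h6
      rw [SubmonoidClass.coe_pow] at h7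
      exact h7
    have hd1 := orderOf_dvd_of_pow_eq_one hy1
    have hd2 := orderOf_dvd_of_pow_eq_one hy2
    have hc : (orderOf x).Coprime (2 ^ k) :=
      Nat.Coprime.pow_right k (Odd.coprime_two_right hxodd)
    exact orderOf_eq_one_iff.1 (eq_one_of_dvd_coprime hc hd1 hd2)
  have hxi : x ^ i = x⁻¹ := eq_inv_of_mul_eq_one_left h5
  rw [hxi] at hi
  apply h x hx1 hxodd
  rw [isConj_iff]
  refine ⟨g⁻¹ * d, ?_⟩
  have h6 : g⁻¹ * d * x * (g⁻¹ * d)⁻¹ = g⁻¹ * (d * x * d⁻¹) * g := by group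
  rw [h6, ← hi]
  group

theorem exists_two_group_of_involutions {G : Type*} [Group G] [Finite G] (h : NoOddReal G)
    (s t : G) (hs : s ^ 2 = 1) (ht : t ^ 2 = 1) :
    ∃ W : Subgroup G, IsPGroup 2 ↥W ∧ s ∈ W ∧ t ∈ W := by
  have hss : s * s = 1 := by rw [← pow_two]; exact hs
  have htt : t * t = 1 := by rw [← pow_two]; exact ht
  have hs' : s⁻¹ = s := inv_eq_of_mul_eq_one_left hss
  have ht' : t⁻¹ = t := inv_eq_of_mul_eq_one_left htt
  obtain ⟨c, hc⟩ : ∃ c, c = s * t := ⟨_, rfl⟩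
  have hinv : s * c * s⁻¹ = c⁻¹ := by
    rw [hc]
    calc s * (s * t) * s⁻¹ = (s * s) * t * s⁻¹ := by group
      _ = t * s := by rw [hss, one_mul, hs']
      _ = (s * t)⁻¹ := by rw [mul_inv_rev, hs', ht']
  obtain ⟨a, b, hb, hab⟩ := Nat.exists_eq_two_pow_mul_odd (orderOf_pos c).ne'
  have hyb : (c ^ (2 ^ a)) ^ b = 1 := by
    rw [← pow_mul, ← hab]
    exact pow_orderOf_eq_one c
  have hyodd : Odd (orderOf (c ^ (2 ^ a))) :=
    Odd.of_dvd_nat hb (orderOf_dvd_of_pow_eq_one hyb)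
  have hy1 : c ^ (2 ^ a) = 1 := by
    by_contra hne
    apply h _ hne hyodd
    rw [isConj_iff]
    refine ⟨s, ?_⟩
    rw [← conj_pow, hinv, inv_pow]
  have hCp : IsPGroup 2 ↥(Subgroup.zpowers c) := by
    obtain ⟨j, -, hj⟩ := (Nat.dvd_prime_pow Nat.prime_two).1 (orderOf_dvd_of_pow_eq_one hy1)
    apply IsPGroup.of_card (n := j)
    rw [Nat.card_zpowers]
    exact hj
  have hSp : IsPGroup 2 ↥(Subgroup.zpowers s) := by
    have h1 : orderOf s ∣ 2 ^ 1 := by
      rw [pow_one]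
      exact orderOf_dvd_of_pow_eq_one hs
    obtain ⟨j, -, hj⟩ := (Nat.dvd_prime_pow Nat.prime_two).1 h1
    apply IsPGroup.of_card (n := j)
    rw [Nat.card_zpowers]
    exact hj
  have hsN : s ∈ Subgroup.normalizer ((Subgroup.zpowers c : Subgroup G) : Set G) := by
    have hfwd : ∀ y ∈ Subgroup.zpowers c, s * y * s⁻¹ ∈ Subgroup.zpowers c := by
      intro y hy
      obtain ⟨j, rfl⟩ := Subgroup.mem_zpowers_iff.1 hy
      rw [← conj_zpow, hinv]
      exact Subgroup.zpow_mem _ (Subgroup.inv_mem _ (Subgroup.mem_zpowers c)) j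
    rw [Subgroup.mem_normalizer_iff]
    intro y
    refine ⟨hfwd y, fun hy => ?_⟩
    have h1 := hfwd _ hy
    have h2 : s * (s * y * s⁻¹) * s⁻¹ = y := by
      rw [hs']
      calc s * (s * y * s) * s = (s * s) * y * (s * s) := by group
        _ = y := by rw [hss, one_mul, mul_one]
    rw [h2] at h1
    exact h1
  refine ⟨Subgroup.zpowers s ⊔ Subgroup.zpowers c,
    hSp.to_sup_of_normal_right' hCp (by rw [Subgroup.zpowers_le]; exact hsN),
    Subgroup.mem_sup_left (Subgroup.mem_zpowers s), ?_⟩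
  have h1 : t = s⁻¹ * c := by rw [hc]; group
  rw [h1]
  exact Subgroup.mul_mem _ (Subgroup.inv_mem _ (Subgroup.mem_sup_left (Subgroup.mem_zpowers s)))
    (Subgroup.mem_sup_right (Subgroup.mem_zpowers c))

theorem exists_involution_of_two_group {G : Type*} [Group G] [Finite G] (P : Subgroup G)
    (hP : IsPGroup 2 ↥P) (hPbot : P ≠ ⊥) : ∃ s ∈ P, s ≠ 1 ∧ s ^ 2 = 1 := by
  haveI : Fact (Nat.Prime 2) := ⟨Nat.prime_two⟩
  obtain ⟨k, hk⟩ := (IsPGroup.iff_card).1 hP
  have hk0 : k ≠ 0 := by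
    intro h0
    rw [h0, pow_zero] at hk
    exact hPbot (Subgroup.card_eq_one.1 hk)
  have hdvd : 2 ∣ Nat.card ↥P := by
    rw [hk]
    exact dvd_pow_self 2 hk0
  obtain ⟨x, hx⟩ := exists_prime_orderOf_dvd_card' 2 hdvd
  refine ⟨(x : G), x.2, ?_, ?_⟩
  · intro h1
    have h2 : x = 1 := Subtype.ext h1
    rw [h2, orderOf_one] at hx
    exact absurd hx (by norm_num)
  · have h1 := pow_orderOf_eq_one x
    rw [hx] at h1
    have h2 := congrArg Subtype.val h1
    rw [SubmonoidClass.coe_pow] at h2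
    exact h2

/-- A finite group without non-identity real elements of odd order has a unique Sylow
`2`-subgroup. -/
theorem sylow_two_unique_of_noOddReal : ∀ (n : ℕ) (G : Type u) [Group G] [Finite G],
    Nat.card G = n → NoOddReal G → ∀ P Q : Sylow 2 G, P = Q := by
  intro n
  induction n using Nat.strong_induction_on with
  | _ n ih =>
  intro G _ _ hn h P₀ Q₀
  haveI : Fact (Nat.Prime 2) := ⟨Nat.prime_two⟩
  by_contra hne₀
  haveI : Nonempty {pq : Sylow 2 G × Sylow 2 G // pq.1 ≠ pq.2} := ⟨⟨(P₀, Q₀), hne₀⟩⟩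
  obtain ⟨⟨⟨P, Q⟩, hPQ⟩, hmax⟩ := Finite.exists_max
    (fun pq : {pq : Sylow 2 G × Sylow 2 G // pq.1 ≠ pq.2} =>
      Nat.card ↥((pq.1.1 : Subgroup G) ⊓ (pq.1.2 : Subgroup G)))
  have hmax' : ∀ P' Q' : Sylow 2 G, P' ≠ Q' →
      Nat.card ↥((P' : Subgroup G) ⊓ (Q' : Subgroup G)) ≤
        Nat.card ↥((P : Subgroup G) ⊓ (Q : Subgroup G)) := fun P' Q' h' => hmax ⟨(P', Q'), h'⟩
  have hPQ' : P ≠ Q := hPQ
  clear hmax
  obtain ⟨D, hD⟩ : ∃ D : Subgroup G, D = (P : Subgroup G) ⊓ (Q : Subgroup G) := ⟨_, rfl⟩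
  rw [← hD] at hmax'
  have hDleP : D ≤ (P : Subgroup G) := by rw [hD]; exact inf_le_left
  have hDleQ : D ≤ (Q : Subgroup G) := by rw [hD]; exact inf_le_right
  have hlt : ∀ K : Subgroup G, D ≤ K → ∀ u ∈ K, u ∉ D → Nat.card ↥D < Nat.card ↥K := by
    intro K hDK u huK huD
    by_contra hle
    have h1 := Subgroup.eq_of_le_of_card_ge hDK (not_lt.1 hle)
    exact huD (h1 ▸ huK)
  have keyP : ∀ R : Sylow 2 G, D ≤ (R : Subgroup G) → ∀ u ∈ (R : Subgroup G),
      u ∈ (P : Subgroup G) → u ∉ D → R = P := by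
    intro R hDR u huR huP huD
    by_contra hRP
    have h1 := hmax' R P hRP
    have h2 := hlt ((R : Subgroup G) ⊓ (P : Subgroup G)) (le_inf hDR hDleP) u ⟨huR, huP⟩ huD
    exact absurd h1 (not_le.2 h2)
  have keyQ : ∀ R : Sylow 2 G, D ≤ (R : Subgroup G) → ∀ u ∈ (R : Subgroup G),
      u ∈ (Q : Subgroup G) → u ∉ D → R = Q := by
    intro R hDR u huR huQ huD
    by_contra hRQ
    have h1 := hmax' R Q hRQ
    have h2 := hlt ((R : Subgroup G) ⊓ (Q : Subgroup G)) (le_inf hDR hDleQ) u ⟨huR, huQ⟩ huD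
    exact absurd h1 (not_le.2 h2)
  have hDP : D ≠ (P : Subgroup G) := by
    intro h1
    apply hPQ'
    have hle : (P : Subgroup G) ≤ Q := by
      rw [← h1]
      exact hDleQ
    exact Sylow.ext (P.is_maximal' Q.isPGroup' hle).symm
  have hDQ : D ≠ (Q : Subgroup G) := by
    intro h1
    apply hPQ'
    have hle : (Q : Subgroup G) ≤ P := by
      rw [← h1]
      exact hDleP
    exact Sylow.ext (Q.is_maximal' P.isPGroup' hle)
  by_cases hN : Subgroup.normalizer (D : Set G) = ⊤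
  · haveI hDn : D.Normal := Subgroup.normalizer_eq_top_iff.1 hN
    by_cases hDbot : D = ⊥
    · have hPbot : (P : Subgroup G) ≠ ⊥ := fun h1 => hDP (by rw [hDbot, h1])
      have hQbot : (Q : Subgroup G) ≠ ⊥ := fun h1 => hDQ (by rw [hDbot, h1])
      obtain ⟨s, hsP, hs1, hs2⟩ := exists_involution_of_two_group (P : Subgroup G) P.isPGroup' hPbot
      obtain ⟨t, htQ, ht1, ht2⟩ := exists_involution_of_two_group (Q : Subgroup G) Q.isPGroup' hQbot
      obtain ⟨W, hW, hsW, htW⟩ := exists_two_group_of_involutions h s t hs2 ht2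
      obtain ⟨R, hR⟩ := hW.exists_le_sylow
      have hDR : D ≤ (R : Subgroup G) := by
        rw [hDbot]
        exact bot_le
      have h1 := keyP R hDR s (hR hsW) hsP (by rw [hDbot, Subgroup.mem_bot]; exact hs1)
      have h2 := keyQ R hDR t (hR htW) htQ (by rw [hDbot, Subgroup.mem_bot]; exact ht1)
      exact hPQ' (h1.symm.trans h2)
    · have hDp : IsPGroup 2 ↥D := P.isPGroup'.to_le hDleP
      have hq := noOddReal_quotient h D hDp
      have hlt' : Nat.card (G ⧸ D) < n := hn ▸ Cfsg.Agent.Helper1.card_quotient_lt_of_ne_bot D hDbot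
      have heq := ih _ hlt' (G ⧸ D) rfl hq (P.mapSurjective (QuotientGroup.mk'_surjective D))
        (Q.mapSurjective (QuotientGroup.mk'_surjective D))
      have h1 : (P : Subgroup G).map (QuotientGroup.mk' D) =
          (Q : Subgroup G).map (QuotientGroup.mk' D) := by
        have h2 := congrArg (fun S : Sylow 2 (G ⧸ D) => (S : Subgroup (G ⧸ D))) heq
        exact h2
      have h2 := congrArg (Subgroup.comap (QuotientGroup.mk' D)) h1
      rw [Subgroup.comap_map_eq, Subgroup.comap_map_eq, QuotientGroup.ker_mk',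
        sup_eq_left.2 hDleP, sup_eq_left.2 hDleQ] at h2
      exact hPQ' (Sylow.ext h2)
  · obtain ⟨u, huP, huD, huN⟩ :=
      exists_mem_normalizer_not_mem (P : Subgroup G) D P.isPGroup' hDleP hDP
    obtain ⟨v, hvQ, hvD, hvN⟩ :=
      exists_mem_normalizer_not_mem (Q : Subgroup G) D Q.isPGroup' hDleQ hDQ
    obtain ⟨N, hNdef⟩ : ∃ N : Subgroup G, N = Subgroup.normalizer (D : Set G) := ⟨_, rfl⟩
    rw [← hNdef] at hN huN hvN
    have hltN : Nat.card ↥N < n := hn ▸ Cfsg.Agent.Helper1.card_lt_of_ne_top N hN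
    have hsubN := noOddReal_subgroup h N
    have huniq := ih _ hltN ↥N rfl hsubN
    have hDN : D ≤ N := by
      rw [hNdef]
      exact Subgroup.le_normalizer
    have hUP : D ⊔ Subgroup.zpowers u ≤ (P : Subgroup G) :=
      sup_le hDleP (by rw [Subgroup.zpowers_le]; exact huP)
    have hVQ : D ⊔ Subgroup.zpowers v ≤ (Q : Subgroup G) :=
      sup_le hDleQ (by rw [Subgroup.zpowers_le]; exact hvQ)
    have hUN : D ⊔ Subgroup.zpowers u ≤ N := sup_le hDN (by rw [Subgroup.zpowers_le]; exact huN)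
    have hVN : D ⊔ Subgroup.zpowers v ≤ N := sup_le hDN (by rw [Subgroup.zpowers_le]; exact hvN)
    have hUp : IsPGroup 2 ↥((D ⊔ Subgroup.zpowers u).subgroupOf N) :=
      (P.isPGroup'.to_le hUP).comap_of_injective N.subtype N.subtype_injective
    have hVp : IsPGroup 2 ↥((D ⊔ Subgroup.zpowers v).subgroupOf N) :=
      (Q.isPGroup'.to_le hVQ).comap_of_injective N.subtype N.subtype_injective
    obtain ⟨S₁, hS₁⟩ := hUp.exists_le_sylow
    obtain ⟨S₂, hS₂⟩ := hVp.exists_le_sylow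
    have hS : S₁ = S₂ := huniq S₁ S₂
    rw [← hS] at hS₂
    have hS₀ : IsPGroup 2 ↥((S₁ : Subgroup ↥N).map N.subtype) := S₁.isPGroup'.map _
    obtain ⟨R, hR⟩ := hS₀.exists_le_sylow
    have hUR : D ⊔ Subgroup.zpowers u ≤ (R : Subgroup G) := by
      intro w hw
      apply hR
      exact ⟨⟨w, hUN hw⟩, hS₁ (Subgroup.mem_subgroupOf.2 hw), rfl⟩
    have hVR : D ⊔ Subgroup.zpowers v ≤ (R : Subgroup G) := by
      intro w hw
      apply hR
      exact ⟨⟨w, hVN hw⟩, hS₂ (Subgroup.mem_subgroupOf.2 hw), rfl⟩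
    have hDR : D ≤ (R : Subgroup G) := le_sup_left.trans hUR
    have h1 := keyP R hDR u (hUR (Subgroup.mem_sup_right (Subgroup.mem_zpowers u))) huP huD
    have h2 := keyQ R hDR v (hVR (Subgroup.mem_sup_right (Subgroup.mem_zpowers v))) hvQ hvD
    exact hPQ' (h1.symm.trans h2)

end Cfsg.Agent.Helper20
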