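import Mathlib

set_option autoImplicit false

namespace Cfsg.Agent.Helper20

/-- A nontrivial normal subgroup of a finite `p`-group contains a nontrivial central element. -/
theorem exists_central_mem_of_normal {G : Type*} [Group G] [Finite G] {p : ℕ} [Fact p.Prime]
    (hG : IsPGroup p G) (N : Subgroup G) [N.Normal] (hN : N ≠ ⊥) :
    ∃ z ∈ N, z ≠ 1 ∧ z ∈ Subgroup.center G := by
  have hNp : IsPGroup p N := hG.to_subgroup N
  have hnt : Nontrivial N := (Subgroup.nontrivial_iff_ne_bot N).2 hN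
  have hdvd : p ∣ Nat.card N := by
    obtain ⟨n, hn0, hn⟩ := hNp.nontrivial_iff_card.mp hnt
    exact hn.symm ▸ dvd_pow_self _ (ne_of_gt hn0)
  have h1 : (1 : N) ∈ MulAction.fixedPoints (ConjAct G) N := fun g => smul_one g
  obtain ⟨b, hb, hne⟩ :=
    (hG.of_equiv ConjAct.toConjAct).exists_fixed_point_of_prime_dvd_card_of_fixed_point N hdvd h1
  refine ⟨b, b.2, fun h => hne (Subtype.ext h.symm), ?_⟩
  rw [Subgroup.mem_center_iff]
  intro g
  have h2 := congrArg Subtype.val (hb (ConjAct.toConjAct g))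
  rw [ConjAct.Subgroup.val_conj_smul, ConjAct.smul_def, ConjAct.ofConjAct_toConjAct] at h2
  calc g * b = g * b * g⁻¹ * g := by group
    _ = b * g := by rw [h2]

/-- A normal subgroup of order at most `p` of a finite `p`-group is central. -/
theorem normal_le_center_of_card_le {G : Type*} [Group G] [Finite G] {p : ℕ} [Fact p.Prime]
    (hG : IsPGroup p G) (N : Subgroup G) [N.Normal] (hN : Nat.card N ≤ p) :
    N ≤ Subgroup.center G := by
  by_cases hbot : N = ⊥
  · rw [hbot]; exact bot_le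
  obtain ⟨z, hzN, hz1, hzc⟩ := exists_central_mem_of_normal hG N hbot
  have hp := (Fact.out : p.Prime)
  have h1 : Subgroup.zpowers z ≤ N := by rw [Subgroup.zpowers_le]; exact hzN
  have h2 : p ≤ Nat.card (Subgroup.zpowers z) := by
    rw [Nat.card_zpowers]
    obtain ⟨k, hk⟩ := hG z
    have hdvd : orderOf z ∣ p ^ k := orderOf_dvd_of_pow_eq_one hk
    obtain ⟨j, hjk, hj⟩ := (Nat.dvd_prime_pow hp).1 hdvd
    have hj0 : j ≠ 0 := by
      rintro rfl
      rw [pow_zero, orderOf_eq_one_iff] at hj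
      exact hz1 hj
    rw [hj]; exact Nat.le_self_pow hj0 p
  have h3 : Subgroup.zpowers z = N := Subgroup.eq_of_le_of_card_ge h1 (hN.trans h2)
  intro x hx
  rw [← h3] at hx
  obtain ⟨n, rfl⟩ := Subgroup.mem_zpowers_iff.1 hx
  exact Subgroup.zpow_mem _ hzc n

/-- If `K` normalizes a subgroup `Z ≤ K` of order at most `p` in a finite `p`-group,
then `K` centralizes `Z`. -/
theorem commute_of_le_normalizer_of_card_le {G : Type*} [Group G] [Finite G] {p : ℕ}
    [Fact p.Prime] (hG : IsPGroup p G) (Z K : Subgroup G)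
    (hKn : K ≤ Subgroup.normalizer (Z : Set G)) (hZK : Z ≤ K) (hcard : Nat.card Z ≤ p) :
    ∀ z ∈ Z, ∀ k ∈ K, k * z = z * k := by
  intro z hz k hk
  have hn : (Z.subgroupOf K).Normal := (Subgroup.normal_subgroupOf_iff_le_normalizer hZK).2 hKn
  have hc : Nat.card (Z.subgroupOf K) ≤ p := by
    rw [Nat.card_congr (Subgroup.subgroupOfEquivOfLe hZK).toEquiv]; exact hcard
  have := normal_le_center_of_card_le (hG.to_subgroup K) (Z.subgroupOf K) hc
  have h1 : (⟨z, hZK hz⟩ : K) ∈ Subgroup.center K := this (Subgroup.mem_subgroupOf.2 hz)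
  rw [Subgroup.mem_center_iff] at h1
  have h2 := h1 ⟨k, hk⟩
  exact congrArg Subtype.val h2

end Cfsg.Agent.Helper20
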