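import Mathlib
import Cfsg.Prelude.Def_CaseTheorems
import Cfsg.Prelude.Def_OddOrderLocal
import Cfsg.Agent.Helper24.PNormalCenter

set_option autoImplicit false
set_option maxHeartbeats 1000000

open Cfsg
open scoped commutatorElement

namespace Cfsg.Agent.Helper20.SecRank

universe u

theorem prank_equiv {p k : ℕ} {G G' : Type*} [Group G] [Group G'] (e : G ≃* G')
    (h : PRankLE p k G) : PRankLE p k G' := by
  intro A hA hexp
  have hinj : Function.Injective (e.symm.toMonoidHom) := e.symm.injective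
  have hcard : Nat.card (A.map e.symm.toMonoidHom) = Nat.card A :=
    Subgroup.card_map_of_injective hinj
  rw [← hcard]
  refine h _ ?_ ?_
  · rw [isMulCommutative_iff]
    rintro ⟨a, ha⟩ ⟨b, hb⟩
    obtain ⟨a', ha', rfl⟩ := Subgroup.mem_map.mp ha
    obtain ⟨b', hb', rfl⟩ := Subgroup.mem_map.mp hb
    apply Subtype.ext
    have hc := (isMulCommutative_iff.mp hA) ⟨a', ha'⟩ ⟨b', hb'⟩
    have hc' : a' * b' = b' * a' := congrArg Subtype.val hc
    show e.symm.toMonoidHom a' * e.symm.toMonoidHom b' =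
      e.symm.toMonoidHom b' * e.symm.toMonoidHom a'
    rw [← map_mul, ← map_mul, hc']
  · intro a ha
    obtain ⟨a', ha', rfl⟩ := Subgroup.mem_map.mp ha
    rw [← map_pow, hexp a' ha', map_one]

theorem prank_of_surj {p k : ℕ} {S T : Type*} [Group S] [Group T]
    (hS : SectionalPRankLE p k S) (H : Subgroup S) (f : ↥H →* T)
    (hf : Function.Surjective f) : PRankLE p k T :=
  prank_equiv (QuotientGroup.quotientKerEquivOfSurjective f hf) (hS H f.ker)

theorem prank_self {p k : ℕ} {S : Type*} [Group S] (hS : SectionalPRankLE p k S) :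
    PRankLE p k S :=
  prank_of_surj hS ⊤ (⊤ : Subgroup S).subtype (fun s => ⟨⟨s, Subgroup.mem_top s⟩, rfl⟩)

theorem sectional_quot {p k : ℕ} {S : Type*} [Group S] (hS : SectionalPRankLE p k S)
    (Z : Subgroup S) [Z.Normal] : SectionalPRankLE p k (S ⧸ Z) := by
  intro H' N' hN'
  refine prank_of_surj hS (H'.comap (QuotientGroup.mk' Z))
    ((QuotientGroup.mk' N').comp ((QuotientGroup.mk' Z).subgroupComap H')) ?_
  rw [MonoidHom.coe_comp]
  exact (QuotientGroup.mk'_surjective N').comp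
    ((QuotientGroup.mk' Z).subgroupComap_surjective_of_surjective H'
      (QuotientGroup.mk'_surjective Z))

theorem isCyclic_quot {S : Type*} [Group S] (N : Subgroup S) [N.Normal] (g : S)
    (h : ∀ s : S, ∃ k : ℕ, (QuotientGroup.mk s : S ⧸ N) = (QuotientGroup.mk g) ^ k) :
    IsCyclic (S ⧸ N) := by
  refine ⟨⟨QuotientGroup.mk g, fun q => ?_⟩⟩
  obtain ⟨s, rfl⟩ := QuotientGroup.mk_surjective q
  obtain ⟨k, hk⟩ := h s
  refine ⟨(k : ℤ), ?_⟩
  show (QuotientGroup.mk g : S ⧸ N) ^ (k : ℤ) = QuotientGroup.mk s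
  rw [zpow_natCast, hk]

theorem normal_of_commutator_le {S : Type*} [Group S] (N : Subgroup S)
    (h : commutator S ≤ N) : N.Normal := by
  refine ⟨fun n hn g => ?_⟩
  have e : g * n * g⁻¹ = ⁅g, n⁆ * n := by
    rw [commutatorElement_def]; group
  rw [e]
  exact N.mul_mem
    (h (Subgroup.commutator_mem_commutator (Subgroup.mem_top _) (Subgroup.mem_top _))) hn

theorem commutator_le_of_quot_comm {S : Type*} [Group S] (N : Subgroup S) [N.Normal]
    (h : ∀ a b : S ⧸ N, a * b = b * a) : commutator S ≤ N := by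
  rw [commutator_def, Subgroup.commutator_le]
  intro a _ b _
  rw [← QuotientGroup.eq_one_iff, commutatorElement_def, QuotientGroup.mk_mul,
    QuotientGroup.mk_mul, QuotientGroup.mk_mul, QuotientGroup.mk_inv, QuotientGroup.mk_inv,
    h (QuotientGroup.mk a) (QuotientGroup.mk b), mul_inv_cancel_right, mul_inv_cancel]

theorem comm3 {M : Type*} [Monoid M] (p q r : M) (hpq : Commute p q) (hpr : Commute p r)
    (hqr : Commute q r) (a j b a' j' b' : ℕ) :
    Commute (p ^ a * q ^ j * r ^ b) (p ^ a' * q ^ j' * r ^ b') := by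
  have h1 : ∀ t : M, Commute p t → Commute q t → Commute r t →
      Commute (p ^ a * q ^ j * r ^ b) t :=
    fun t h1 h2 h3 => ((h1.pow_left a).mul_left (h2.pow_left j)).mul_left (h3.pow_left b)
  have h2 : ∀ t : M, Commute t p → Commute t q → Commute t r →
      Commute t (p ^ a' * q ^ j' * r ^ b') :=
    fun t h1 h2 h3 => ((h1.pow_right a').mul_right (h2.pow_right j')).mul_right (h3.pow_right b')
  exact h1 _ (h2 p (Commute.refl p) hpq hpr) (h2 q hpq.symm (Commute.refl q) hqr)
    (h2 r hpr.symm hqr.symm (Commute.refl r))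

theorem pow_invol {G : Type*} [Monoid G] (z : G) (hz2 : z ^ 2 = 1) (k : ℕ) :
    z ^ k = 1 ∨ z ^ k = z := by
  obtain ⟨m, hm | hm⟩ := Nat.even_or_odd' k
  · left; rw [hm, pow_mul, hz2, one_pow]
  · right; rw [hm, pow_succ, pow_mul, hz2, one_pow, one_mul]

theorem mem_zpowers_nat {G : Type*} [Group G] [Finite G] {g w : G}
    (h : w ∈ Subgroup.zpowers g) : ∃ k : ℕ, g ^ k = w := by
  rw [← mem_powers_iff_mem_zpowers] at h
  exact (Submonoid.mem_powers_iff _ _).mp h

theorem mem_zpowers_invol {G : Type*} [Group G] [Finite G] (z : G) (hz2 : z ^ 2 = 1) (w : G)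
    (h : w ∈ Subgroup.zpowers z) : w = 1 ∨ w = z := by
  obtain ⟨k, rfl⟩ := mem_zpowers_nat h
  exact pow_invol z hz2 k

theorem order_succ {S : Type*} [Group S] [Finite S] (h2 : IsPGroup 2 S) (x : S) (hx : x ≠ 1) :
    ∃ a : ℕ, orderOf x = 2 ^ (a + 1) := by
  haveI : Fact (Nat.Prime 2) := ⟨Nat.prime_two⟩
  obtain ⟨e, he⟩ := (IsPGroup.iff_orderOf.mp h2) x
  have he0 : e ≠ 0 := by
    rintro rfl
    rw [pow_zero, orderOf_eq_one_iff] at he
    exact hx he
  obtain ⟨e', rfl⟩ := Nat.exists_eq_add_one_of_ne_zero he0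
  exact ⟨e', he⟩

theorem pow_half_ne_one {S : Type*} [Group S] (x : S) (a : ℕ) (ha : orderOf x = 2 ^ (a + 1)) :
    x ^ 2 ^ a ≠ 1 := by
  intro h
  have h3 := orderOf_dvd_of_pow_eq_one h
  rw [ha] at h3
  have h5 : 0 < 2 ^ a := by positivity
  have h4 := Nat.le_of_dvd h5 h3
  rw [pow_succ] at h4
  omega

theorem pow_half_sq {S : Type*} [Group S] (x : S) (a : ℕ) (ha : orderOf x = 2 ^ (a + 1)) :
    (x ^ 2 ^ a) ^ 2 = 1 := by
  rw [← pow_mul, ← pow_succ, ← ha, pow_orderOf_eq_one]

theorem exists_invol {S : Type*} [Group S] [Finite S] (h2 : IsPGroup 2 S) (K : Subgroup S)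
    (hK : K ≠ ⊥) : ∃ z ∈ K, z ≠ 1 ∧ z ^ 2 = 1 := by
  haveI : Nontrivial K := (Subgroup.nontrivial_iff_ne_bot K).mpr hK
  obtain ⟨w, hw1⟩ := exists_ne (1 : K)
  have hw1' : (w : S) ≠ 1 := fun h => hw1 (Subtype.ext h)
  obtain ⟨a, ha⟩ := order_succ h2 (w : S) hw1'
  exact ⟨(w : S) ^ 2 ^ a, K.pow_mem w.2 _, pow_half_ne_one _ a ha, pow_half_sq _ a ha⟩

theorem odd_pow_eq_one {S : Type*} [Group S] (h2 : IsPGroup 2 S) (d : S) (m : ℕ)
    (hm : ¬ 2 ∣ m) (h : d ^ m = 1) : d = 1 := by
  haveI : Fact (Nat.Prime 2) := ⟨Nat.prime_two⟩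
  obtain ⟨e, he⟩ := (IsPGroup.iff_orderOf.mp h2) d
  have h3 := orderOf_dvd_of_pow_eq_one h
  rw [he] at h3
  rcases Nat.eq_zero_or_pos e with h0 | h0
  · rw [h0, pow_zero, orderOf_eq_one_iff] at he
    exact he
  · exfalso
    exact hm ((dvd_pow_self 2 h0.ne').trans h3)

theorem zpowers_normal_of_central {S : Type*} [Group S] (z : S)
    (hzc : ∀ s : S, s * z = z * s) : (Subgroup.zpowers z).Normal := by
  refine ⟨fun n hn g => ?_⟩
  obtain ⟨k, rfl⟩ := Subgroup.mem_zpowers_iff.mp hn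
  have hc : Commute g (z ^ k) := Commute.zpow_right (hzc g) k
  rw [hc.eq, mul_inv_cancel_right]
  exact hn

theorem quot_comm {S : Type*} [Group S] (Z : Subgroup S) [Z.Normal]
    (hcomm : commutator S ≤ Z) (a b : S ⧸ Z) : a * b = b * a := by
  obtain ⟨s, rfl⟩ := QuotientGroup.mk_surjective a
  obtain ⟨t, rfl⟩ := QuotientGroup.mk_surjective b
  rw [← QuotientGroup.mk_mul, ← QuotientGroup.mk_mul, QuotientGroup.eq]
  have h : (s * t)⁻¹ * (t * s) = ⁅t⁻¹, s⁻¹⁆ := by
    rw [commutatorElement_def]; group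
  rw [h]
  exact hcomm (Subgroup.commutator_mem_commutator (Subgroup.mem_top _) (Subgroup.mem_top _))

theorem normal_of_gen3 {S : Type*} [Group S] (N : Subgroup S) (p q r : S)
    (hgen : ∀ s : S, ∃ i j k : ℕ, s = p ^ i * q ^ j * r ^ k)
    (hp : ∀ w ∈ N, p * w * p⁻¹ ∈ N) (hq : ∀ w ∈ N, q * w * q⁻¹ ∈ N)
    (hr : ∀ w ∈ N, r * w * r⁻¹ ∈ N) : N.Normal := by
  have hpow : ∀ t : S, (∀ w ∈ N, t * w * t⁻¹ ∈ N) →
      ∀ n : ℕ, ∀ w ∈ N, t ^ n * w * (t ^ n)⁻¹ ∈ N := by
    intro t ht n
    induction n with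
    | zero =>
      intro w hw
      rw [pow_zero, one_mul, inv_one, mul_one]
      exact hw
    | succ n ih =>
      intro w hw
      have e : t ^ (n + 1) * w * (t ^ (n + 1))⁻¹ = t ^ n * (t * w * t⁻¹) * (t ^ n)⁻¹ := by
        rw [pow_succ, mul_inv_rev]
        simp only [mul_assoc]
      rw [e]
      exact ih _ (ht w hw)
  refine ⟨fun w hw s => ?_⟩
  obtain ⟨i, j, k, rfl⟩ := hgen s
  have h3 := hpow p hp i _ (hpow q hq j _ (hpow r hr k w hw))
  have e : p ^ i * q ^ j * r ^ k * w * (p ^ i * q ^ j * r ^ k)⁻¹ =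
      p ^ i * (q ^ j * (r ^ k * w * (r ^ k)⁻¹) * (q ^ j)⁻¹) * (p ^ i)⁻¹ := by
    rw [mul_inv_rev, mul_inv_rev]
    simp only [mul_assoc]
  rw [e]
  exact h3

theorem ab_decomp {Q : Type*} [Group Q] [Finite Q] (hc : ∀ a b : Q, a * b = b * a)
    (hQ2 : IsPGroup 2 Q) (x y : Q) (hgen : ∀ q : Q, ∃ i j : ℕ, q = x ^ i * y ^ j)
    (hord : orderOf y ≤ orderOf x) :
    ∃ v : Q, (∀ q : Q, ∃ i j : ℕ, q = x ^ i * v ^ j) ∧
      (∀ n m : ℕ, v ^ m = x ^ n → v ^ m = 1) := by
  haveI : Fact (Nat.Prime 2) := ⟨Nat.prime_two⟩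
  haveI hXn : (Subgroup.zpowers x).Normal := ⟨fun n hn g => by
    have e : g * n * g⁻¹ = n := by rw [hc g n, mul_inv_cancel_right]
    rw [e]; exact hn⟩
  obtain ⟨d, hd⟩ : ∃ d : ℕ, d = orderOf (QuotientGroup.mk y : Q ⧸ Subgroup.zpowers x) :=
    ⟨_, rfl⟩
  have hpow : (QuotientGroup.mk y : Q ⧸ Subgroup.zpowers x) ^ d = 1 := by
    rw [hd]; exact pow_orderOf_eq_one _
  have hmin : ∀ m : ℕ, (QuotientGroup.mk y : Q ⧸ Subgroup.zpowers x) ^ m = 1 → d ∣ m := by
    intro m hm
    rw [hd]; exact orderOf_dvd_of_pow_eq_one hm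
  have h1 : y ^ d ∈ Subgroup.zpowers x := by
    rw [← QuotientGroup.eq_one_iff, QuotientGroup.mk_pow]
    exact hpow
  obtain ⟨k, hk⟩ := mem_zpowers_nat h1
  have hdy : d ∣ orderOf y :=
    hmin _ (by rw [← QuotientGroup.mk_pow, pow_orderOf_eq_one, QuotientGroup.mk_one])
  obtain ⟨m', hm'⟩ := hdy
  have hyx : orderOf y ∣ orderOf x := by
    obtain ⟨a, ha⟩ := (IsPGroup.iff_orderOf.mp hQ2) x
    obtain ⟨b, hb⟩ := (IsPGroup.iff_orderOf.mp hQ2) y
    rw [ha, hb] at hord
    rw [ha, hb]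
    exact Nat.pow_dvd_pow 2 ((Nat.pow_le_pow_iff_right (by norm_num)).mp hord)
  have hm'pos : 0 < m' := by
    rcases Nat.eq_zero_or_pos m' with h | h
    · exfalso
      rw [h, mul_zero] at hm'
      exact (orderOf_pos y).ne' hm'
    · exact h
  have hxk : orderOf x ∣ k * m' := by
    apply orderOf_dvd_of_pow_eq_one
    rw [pow_mul, hk, ← pow_mul, ← hm', pow_orderOf_eq_one]
  have hdk : d ∣ k := by
    have h3 : d * m' ∣ k * m' := by rw [← hm']; exact hyx.trans hxk
    exact Nat.dvd_of_mul_dvd_mul_right hm'pos h3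
  obtain ⟨k', hk'⟩ := hdk
  refine ⟨y * (x ^ k')⁻¹, ?_, ?_⟩
  · intro q
    obtain ⟨i, j, rfl⟩ := hgen q
    refine ⟨i + k' * j, j, ?_⟩
    have hcm : Commute (y * (x ^ k')⁻¹) (x ^ k') := hc _ _
    have hyj : y ^ j = (y * (x ^ k')⁻¹) ^ j * x ^ (k' * j) := by
      rw [pow_mul, ← hcm.mul_pow, inv_mul_cancel_right]
    rw [hyj, pow_add, hc ((y * (x ^ k')⁻¹) ^ j) (x ^ (k' * j)), mul_assoc]
  · intro n m h
    have hv : (QuotientGroup.mk (y * (x ^ k')⁻¹) : Q ⧸ Subgroup.zpowers x) =
        QuotientGroup.mk y := by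
      rw [QuotientGroup.eq, mul_inv_rev, inv_inv, inv_mul_cancel_right]
      exact Subgroup.pow_mem _ (Subgroup.mem_zpowers x) k'
    have h1' : (QuotientGroup.mk y : Q ⧸ Subgroup.zpowers x) ^ m = 1 := by
      rw [← hv, ← QuotientGroup.mk_pow, h, QuotientGroup.eq_one_iff]
      exact Subgroup.pow_mem _ (Subgroup.mem_zpowers x) n
    obtain ⟨t, ht⟩ := hmin m h1'
    have hvd : (y * (x ^ k')⁻¹) ^ d = 1 := by
      rw [(show Commute y (x ^ k')⁻¹ from hc _ _).mul_pow, inv_pow, ← pow_mul, mul_comm k' d,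
        ← hk', hk, mul_inv_cancel]
    rw [ht, pow_mul, hvd, one_pow]

theorem meta_of_cyclic_central {S : Type u} [Group S] (x z : S)
    (hzc : ∀ s : S, s * z = z * s) (hgen : ∀ s : S, ∃ i k : ℕ, s = x ^ i * z ^ k) :
    IsMetacyclic S := by
  have hxz : Commute x z := hzc x
  have hcom : ∀ a b : S, a * b = b * a := by
    intro a b
    obtain ⟨i, k, rfl⟩ := hgen a
    obtain ⟨i', k', rfl⟩ := hgen b
    have h1 : Commute (x ^ i) (x ^ i' * z ^ k') :=
      ((Commute.refl x).pow_pow i i').mul_right (hxz.pow_pow i k')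
    have h2 : Commute (z ^ k) (x ^ i' * z ^ k') :=
      (hxz.symm.pow_pow k i').mul_right ((Commute.refl z).pow_pow k k')
    exact (h1.mul_left h2).eq
  have hN : (Subgroup.zpowers x).Normal := ⟨fun n hn g => by
    have e : g * n * g⁻¹ = n := by rw [hcom g n, mul_inv_cancel_right]
    rw [e]; exact hn⟩
  refine ⟨Subgroup.zpowers x, hN, inferInstance, ?_⟩
  haveI := hN
  refine isCyclic_quot (Subgroup.zpowers x) z (fun s => ?_)
  obtain ⟨i, k, rfl⟩ := hgen s
  refine ⟨k, ?_⟩
  have e1 : ((x ^ i : S) : S ⧸ Subgroup.zpowers x) = 1 :=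
    (QuotientGroup.eq_one_iff _).mpr (Subgroup.pow_mem _ (Subgroup.mem_zpowers x) i)
  rw [QuotientGroup.mk_mul, e1, one_mul, QuotientGroup.mk_pow]

theorem sq_central {S : Type*} [Group S] [Finite S] (z : S) (hz2 : z ^ 2 = 1)
    (hzc : ∀ s : S, s * z = z * s) (hcomm : commutator S ≤ Subgroup.zpowers z) (s t : S) :
    s ^ 2 * t = t * s ^ 2 := by
  have hc : ⁅s⁻¹, t⁻¹⁆ ∈ Subgroup.zpowers z :=
    hcomm (Subgroup.commutator_mem_commutator (Subgroup.mem_top _) (Subgroup.mem_top _))
  have e : t⁻¹ * s * t = s * ⁅s⁻¹, t⁻¹⁆ := by rw [commutatorElement_def]; group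
  rcases mem_zpowers_invol z hz2 _ hc with h | h
  · rw [h, mul_one] at e
    have e' : s * t = t * s := by
      calc s * t = t * (t⁻¹ * s * t) := by group
        _ = t * s := by rw [e]
    exact ((show Commute s t from e').pow_left 2).eq
  · rw [h] at e
    have e' : s * t = t * (s * z) := by
      calc s * t = t * (t⁻¹ * s * t) := by group
        _ = t * (s * z) := by rw [e]
    have hz' : z * z = 1 := by rw [← pow_two]; exact hz2
    calc s ^ 2 * t = s * (s * t) := by rw [pow_two, mul_assoc]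
      _ = s * (t * (s * z)) := by rw [e']
      _ = (s * t) * (s * z) := by rw [mul_assoc]
      _ = t * (s * z) * (s * z) := by rw [e']
      _ = t * (s * (z * s) * z) := by simp only [mul_assoc]
      _ = t * (s * (s * z) * z) := by rw [← hzc s]
      _ = t * (s * s * (z * z)) := by simp only [mul_assoc]
      _ = t * s ^ 2 := by rw [hz', mul_one, pow_two]

theorem core {S : Type u} [Group S] [Finite S] (h2 : IsPGroup 2 S) (hr : PRankLE 2 2 S)
    (z : S) (hz1 : z ≠ 1) (hz2 : z ^ 2 = 1) (hzc : ∀ s : S, s * z = z * s)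
    (hcomm : commutator S ≤ Subgroup.zpowers z) (x y : S)
    (hgen : ∀ s : S, ∃ i j k : ℕ, s = x ^ i * y ^ j * z ^ k)
    (hind : ∀ n m k : ℕ, y ^ m = x ^ n * z ^ k → y ^ m = 1 ∨ y ^ m = z) :
    IsMetacyclic S := by
  by_cases hzx : z ∈ Subgroup.zpowers x
  · have hN : (Subgroup.zpowers x).Normal :=
      normal_of_commutator_le _ (hcomm.trans (Subgroup.zpowers_le.mpr hzx))
    refine ⟨Subgroup.zpowers x, hN, inferInstance, ?_⟩
    haveI := hN
    refine isCyclic_quot (Subgroup.zpowers x) y (fun s => ?_)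
    obtain ⟨i, j, k, rfl⟩ := hgen s
    refine ⟨j, ?_⟩
    have e1 : ((x ^ i : S) : S ⧸ Subgroup.zpowers x) = 1 :=
      (QuotientGroup.eq_one_iff _).mpr (Subgroup.pow_mem _ (Subgroup.mem_zpowers x) i)
    have e2 : ((z ^ k : S) : S ⧸ Subgroup.zpowers x) = 1 :=
      (QuotientGroup.eq_one_iff _).mpr (Subgroup.pow_mem _ hzx k)
    rw [QuotientGroup.mk_mul, QuotientGroup.mk_mul, e1, e2, one_mul, mul_one,
      QuotientGroup.mk_pow]
  by_cases hzy : z ∈ Subgroup.zpowers y
  · have hN : (Subgroup.zpowers y).Normal :=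
      normal_of_commutator_le _ (hcomm.trans (Subgroup.zpowers_le.mpr hzy))
    refine ⟨Subgroup.zpowers y, hN, inferInstance, ?_⟩
    haveI := hN
    refine isCyclic_quot (Subgroup.zpowers y) x (fun s => ?_)
    obtain ⟨i, j, k, rfl⟩ := hgen s
    refine ⟨i, ?_⟩
    have e1 : ((y ^ j : S) : S ⧸ Subgroup.zpowers y) = 1 :=
      (QuotientGroup.eq_one_iff _).mpr (Subgroup.pow_mem _ (Subgroup.mem_zpowers y) j)
    have e2 : ((z ^ k : S) : S ⧸ Subgroup.zpowers y) = 1 :=
      (QuotientGroup.eq_one_iff _).mpr (Subgroup.pow_mem _ hzy k)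
    rw [QuotientGroup.mk_mul, QuotientGroup.mk_mul, e1, e2, mul_one, mul_one,
      QuotientGroup.mk_pow]
  by_cases hy1 : y = 1
  · exact meta_of_cyclic_central x z hzc (fun s => by
      obtain ⟨i, j, k, rfl⟩ := hgen s
      exact ⟨i, k, by rw [hy1, one_pow, mul_one]⟩)
  by_cases hx1 : x = 1
  · exact meta_of_cyclic_central y z hzc (fun s => by
      obtain ⟨i, j, k, rfl⟩ := hgen s
      exact ⟨j, k, by rw [hx1, one_pow, one_mul]⟩)
  obtain ⟨a, ha⟩ := order_succ h2 x hx1
  obtain ⟨b, hb⟩ := order_succ h2 y hy1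
  obtain ⟨u, hu⟩ : ∃ u : S, u = x ^ 2 ^ a := ⟨_, rfl⟩
  obtain ⟨v, hv⟩ : ∃ v : S, v = y ^ 2 ^ b := ⟨_, rfl⟩
  have hu2 : u ^ 2 = 1 := by rw [hu]; exact pow_half_sq x a ha
  have hv2 : v ^ 2 = 1 := by rw [hv]; exact pow_half_sq y b hb
  have hu1 : u ≠ 1 := by rw [hu]; exact pow_half_ne_one x a ha
  have hv1 : v ≠ 1 := by rw [hv]; exact pow_half_ne_one y b hb
  have huz : u ≠ z := by
    intro h
    apply hzx
    rw [← h, hu]
    exact Subgroup.pow_mem _ (Subgroup.mem_zpowers x) _
  have hvz : v ≠ z := by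
    intro h
    apply hzy
    rw [← h, hv]
    exact Subgroup.pow_mem _ (Subgroup.mem_zpowers y) _
  have hsq := sq_central z hz2 hzc hcomm
  have hz' : z * z = 1 := by rw [← pow_two]; exact hz2
  by_cases huv : u * v = v * u
  · exfalso
    have hcomm3 : ∀ p ∈ ({u, v, z} : Set S), ∀ q ∈ ({u, v, z} : Set S), p * q = q * p := by
      intro p hp q hq
      simp only [Set.mem_insert_iff, Set.mem_singleton_iff] at hp hq
      rcases hp with h | h | h <;> rcases hq with h' | h' | h' <;> rw [h, h'] <;>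
        first | exact huv | exact huv.symm | exact hzc _ | exact (hzc _).symm
    have hEc : IsMulCommutative (Subgroup.closure ({u, v, z} : Set S)) :=
      Subgroup.isMulCommutative_closure hcomm3
    have hEe : ∀ w ∈ Subgroup.closure ({u, v, z} : Set S), w ^ 2 = 1 := by
      intro w hw
      induction hw using Subgroup.closure_induction with
      | mem w hw =>
        simp only [Set.mem_insert_iff, Set.mem_singleton_iff] at hw
        rcases hw with h | h | h
        · rw [h]; exact hu2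
        · rw [h]; exact hv2
        · rw [h]; exact hz2
      | one => exact one_pow 2
      | mul p q hp hq ihp ihq =>
        have hpq : p * q = q * p :=
          congrArg Subtype.val ((isMulCommutative_iff.mp hEc) ⟨p, hp⟩ ⟨q, hq⟩)
        rw [(show Commute p q from hpq).mul_pow, ihp, ihq, one_mul]
      | inv p hp ihp => rw [inv_pow, ihp, inv_one]
    have h4 := hr _ hEc hEe
    have huE : u ∈ Subgroup.closure ({u, v, z} : Set S) := Subgroup.subset_closure (by simp)
    have hvE : v ∈ Subgroup.closure ({u, v, z} : Set S) := Subgroup.subset_closure (by simp)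
    have hzE : z ∈ Subgroup.closure ({u, v, z} : Set S) := Subgroup.subset_closure (by simp)
    have hvu : v ≠ u := by
      intro h
      rcases hind (2 ^ a) (2 ^ b) 0 (by rw [pow_zero, mul_one, ← hu, ← hv]; exact h) with h' | h'
      · exact hv1 (by rw [hv]; exact h')
      · exact hvz (by rw [hv]; exact h')
    have hvuz : v ≠ u * z := by
      intro h
      rcases hind (2 ^ a) (2 ^ b) 1 (by rw [pow_one, ← hu, ← hv]; exact h) with h' | h'
      · exact hv1 (by rw [hv]; exact h')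
      · exact hvz (by rw [hv]; exact h')
    have k1 : u * z ≠ u := fun h => hz1 (mul_left_cancel (h.trans (mul_one u).symm))
    have k2 : u * z ≠ z := fun h => hu1 (mul_right_cancel (h.trans (one_mul z).symm))
    have k3 : u * z ≠ 1 := by
      intro h
      apply huz
      calc u = u * z * z := by rw [mul_assoc, hz', mul_one]
        _ = z := by rw [h, one_mul]
    have n1 : v ∉ ({u * z, u, z, 1} : Set S) := by
      intro hm
      simp only [Set.mem_insert_iff, Set.mem_singleton_iff] at hm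
      rcases hm with h | h | h | h
      · exact hvuz h
      · exact hvu h
      · exact hvz h
      · exact hv1 h
    have n2 : u * z ∉ ({u, z, 1} : Set S) := by
      intro hm
      simp only [Set.mem_insert_iff, Set.mem_singleton_iff] at hm
      rcases hm with h | h | h
      · exact k1 h
      · exact k2 h
      · exact k3 h
    have n3 : u ∉ ({z, 1} : Set S) := by
      intro hm
      simp only [Set.mem_insert_iff, Set.mem_singleton_iff] at hm
      rcases hm with h | h
      · exact huz h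
      · exact hu1 h
    have e1 := Set.ncard_insert_of_notMem n1
    have e2 := Set.ncard_insert_of_notMem n2
    have e3 := Set.ncard_insert_of_notMem n3
    have e4 := Set.ncard_pair hz1
    have hsub : ({v, u * z, u, z, 1} : Set S) ⊆
        (Subgroup.closure ({u, v, z} : Set S) : Set S) := by
      intro w hw
      simp only [Set.mem_insert_iff, Set.mem_singleton_iff] at hw
      rcases hw with h | h | h | h | h
      · rw [h]; exact hvE
      · rw [h]; exact Subgroup.mul_mem _ huE hzE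
      · rw [h]; exact huE
      · rw [h]; exact hzE
      · rw [h]; exact Subgroup.one_mem _
    have h5 := Set.ncard_le_ncard hsub (Set.toFinite _)
    have h6 : (Subgroup.closure ({u, v, z} : Set S) : Set S).ncard =
        Nat.card ↥(Subgroup.closure ({u, v, z} : Set S)) := (Nat.card_coe_set_eq _).symm
    omega
  · have ha0 : a = 0 := by
      by_contra hne
      obtain ⟨a', rfl⟩ := Nat.exists_eq_add_one_of_ne_zero hne
      apply huv
      have e : u = (x ^ 2 ^ a') ^ 2 := by rw [hu, ← pow_mul, ← pow_succ]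
      rw [e]; exact hsq _ _
    have hb0 : b = 0 := by
      by_contra hne
      obtain ⟨b', rfl⟩ := Nat.exists_eq_add_one_of_ne_zero hne
      apply huv
      have e : v = (y ^ 2 ^ b') ^ 2 := by rw [hv, ← pow_mul, ← pow_succ]
      rw [e]; exact (hsq _ _).symm
    have hux : u = x := by rw [hu, ha0, pow_zero, pow_one]
    have hvy : v = y := by rw [hv, hb0, pow_zero, pow_one]
    rw [hux] at hu2
    rw [hvy] at hv2
    rw [hux, hvy] at huv
    have hxi : x⁻¹ = x := inv_eq_of_mul_eq_one_right (by rw [← pow_two]; exact hu2)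
    have hyi : y⁻¹ = y := inv_eq_of_mul_eq_one_right (by rw [← pow_two]; exact hv2)
    have hcxy : ⁅x, y⁆ ∈ Subgroup.zpowers z :=
      hcomm (Subgroup.commutator_mem_commutator (Subgroup.mem_top _) (Subgroup.mem_top _))
    have hcne : ⁅x, y⁆ ≠ 1 := fun h => huv (commutatorElement_eq_one_iff_mul_comm.mp h)
    have hcz : ⁅x, y⁆ = z := (mem_zpowers_invol z hz2 _ hcxy).resolve_left hcne
    have hxy2 : (x * y) ^ 2 = z := by
      rw [← hcz, commutatorElement_def, hxi, hyi, pow_two, ← mul_assoc]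
    have hzN : z ∈ Subgroup.zpowers (x * y) := by
      rw [← hxy2]; exact Subgroup.pow_mem _ (Subgroup.mem_zpowers _) 2
    have hN : (Subgroup.zpowers (x * y)).Normal :=
      normal_of_commutator_le _ (hcomm.trans (Subgroup.zpowers_le.mpr hzN))
    refine ⟨Subgroup.zpowers (x * y), hN, inferInstance, ?_⟩
    haveI := hN
    refine isCyclic_quot (Subgroup.zpowers (x * y)) x (fun s => ?_)
    obtain ⟨i, j, k, rfl⟩ := hgen s
    refine ⟨i + j, ?_⟩
    have e0 : y⁻¹ * x = (x * y)⁻¹ := by rw [mul_inv_rev, hxi]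
    have e1 : ((y : S) : S ⧸ Subgroup.zpowers (x * y)) = QuotientGroup.mk x := by
      rw [QuotientGroup.eq, e0]
      exact Subgroup.inv_mem _ (Subgroup.mem_zpowers _)
    have e2 : ((z ^ k : S) : S ⧸ Subgroup.zpowers (x * y)) = 1 :=
      (QuotientGroup.eq_one_iff _).mpr (Subgroup.pow_mem _ hzN k)
    rw [QuotientGroup.mk_mul, QuotientGroup.mk_mul, e2, mul_one, QuotientGroup.mk_pow,
      QuotientGroup.mk_pow, e1, pow_add]

theorem core_of_quot {S : Type u} [Group S] [Finite S] (h2 : IsPGroup 2 S)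
    (hr : PRankLE 2 2 S) (z : S) (hz1 : z ≠ 1) (hz2 : z ^ 2 = 1)
    (hzc : ∀ s : S, s * z = z * s) [hZn : (Subgroup.zpowers z).Normal]
    (hcomm : commutator S ≤ Subgroup.zpowers z) (xb yb : S ⧸ Subgroup.zpowers z)
    (hgen : ∀ q : S ⧸ Subgroup.zpowers z, ∃ i j : ℕ, q = xb ^ i * yb ^ j)
    (hord : orderOf yb ≤ orderOf xb) : IsMetacyclic S := by
  have hQc := quot_comm (Subgroup.zpowers z) hcomm
  have hQ2 : IsPGroup 2 (S ⧸ Subgroup.zpowers z) := h2.to_quotient _
  obtain ⟨vb, hgen', hind'⟩ := ab_decomp hQc hQ2 xb yb hgen hord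
  obtain ⟨x, rfl⟩ := QuotientGroup.mk_surjective xb
  obtain ⟨v, rfl⟩ := QuotientGroup.mk_surjective vb
  refine core h2 hr z hz1 hz2 hzc hcomm x v ?_ ?_
  · intro s
    obtain ⟨i, j, hij⟩ := hgen' (QuotientGroup.mk s)
    have e : (QuotientGroup.mk (x ^ i * v ^ j) : S ⧸ Subgroup.zpowers z) =
        QuotientGroup.mk s := by
      rw [hij, QuotientGroup.mk_mul, QuotientGroup.mk_pow, QuotientGroup.mk_pow]
    obtain ⟨k, hk⟩ := mem_zpowers_nat (QuotientGroup.eq.mp e)
    exact ⟨i, j, k, by rw [hk, mul_inv_cancel_left]⟩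
  · intro n m k h
    have h1 : (QuotientGroup.mk v : S ⧸ Subgroup.zpowers z) ^ m = (QuotientGroup.mk x) ^ n := by
      have e2 : ((z ^ k : S) : S ⧸ Subgroup.zpowers z) = 1 :=
        (QuotientGroup.eq_one_iff _).mpr (Subgroup.pow_mem _ (Subgroup.mem_zpowers z) k)
      rw [← QuotientGroup.mk_pow, ← QuotientGroup.mk_pow, h, QuotientGroup.mk_mul, e2, mul_one]
    have h3 := hind' n m h1
    rw [← QuotientGroup.mk_pow, QuotientGroup.eq_one_iff] at h3
    exact mem_zpowers_invol z hz2 _ h3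

theorem main_aux (n : ℕ) : ∀ (S : Type u) [Group S] [Finite S], Nat.card S = n →
    IsPGroup 2 S → SectionalPRankLE 2 2 S → IsMetacyclic S := by
  induction n using Nat.strong_induction_on with
  | _ n ih =>
  intro S _ _ hn h2 hr
  haveI : Fact (Nat.Prime 2) := ⟨Nat.prime_two⟩
  rcases subsingleton_or_nontrivial S with hS | hS
  · exact meta_of_cyclic_central (1 : S) 1 (fun s => by rw [mul_one, one_mul])
      (fun s => ⟨0, 0, Subsingleton.elim _ _⟩)
  have hzex : ∃ z : S, z ≠ 1 ∧ z ^ 2 = 1 ∧ (∀ s : S, s * z = z * s) ∧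
      (commutator S = ⊥ ∨ z ∈ commutator S) := by
    by_cases hab : commutator S = ⊥
    · have hcen : Subgroup.center S ≠ ⊥ :=
        (Subgroup.nontrivial_iff_ne_bot _).mp h2.center_nontrivial
      obtain ⟨z, hzmem, hz1, hz2⟩ := exists_invol h2 (Subgroup.center S) hcen
      exact ⟨z, hz1, hz2, fun s => Subgroup.mem_center_iff.mp hzmem s, Or.inl hab⟩
    · obtain ⟨w, hwN, hwc, hw1⟩ :=
        Cfsg.Agent.Helper24.pgroup_normal_inf_center h2 (commutator S) hab
      have hK : commutator S ⊓ Subgroup.center S ≠ ⊥ := by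
        intro h
        have hmem : w ∈ commutator S ⊓ Subgroup.center S := Subgroup.mem_inf.mpr ⟨hwN, hwc⟩
        rw [h, Subgroup.mem_bot] at hmem
        exact hw1 hmem
      obtain ⟨z, hzmem, hz1, hz2⟩ := exists_invol h2 _ hK
      exact ⟨z, hz1, hz2, fun s => Subgroup.mem_center_iff.mp (Subgroup.mem_inf.mp hzmem).2 s,
        Or.inr (Subgroup.mem_inf.mp hzmem).1⟩
  obtain ⟨z, hz1, hz2, hzc, hzcomm⟩ := hzex
  haveI hZn : (Subgroup.zpowers z).Normal := zpowers_normal_of_central z hzc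
  have hcard : Nat.card (S ⧸ Subgroup.zpowers z) < n := by
    have h1 := Subgroup.card_eq_card_quotient_mul_card_subgroup (Subgroup.zpowers z)
    have h3 : Nat.card (Subgroup.zpowers z) = 2 := by
      rw [Nat.card_zpowers, orderOf_eq_prime hz2 hz1]
    have h4 : 0 < Nat.card (S ⧸ Subgroup.zpowers z) := Nat.card_pos
    rw [h3, hn] at h1
    omega
  obtain ⟨Nb, hNbn, hNbc, hQc⟩ := ih (Nat.card (S ⧸ Subgroup.zpowers z)) hcard
    (S ⧸ Subgroup.zpowers z) rfl (h2.to_quotient _) (sectional_quot hr _)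
  obtain ⟨lb, hlb⟩ := IsCyclic.exists_monoid_generator (α := Nb)
  obtain ⟨gb, hgb⟩ := IsCyclic.exists_monoid_generator (α := (S ⧸ Subgroup.zpowers z) ⧸ Nb)
  obtain ⟨l, hl⟩ := QuotientGroup.mk_surjective (lb : S ⧸ Subgroup.zpowers z)
  obtain ⟨gq, rfl⟩ := QuotientGroup.mk_surjective gb
  obtain ⟨g, rfl⟩ := QuotientGroup.mk_surjective gq
  have F1 : ∀ s : S, (QuotientGroup.mk s : S ⧸ Subgroup.zpowers z) ∈ Nb →
      ∃ i k : ℕ, s = l ^ i * z ^ k := by
    intro s hs
    obtain ⟨i, hi⟩ := (Submonoid.mem_powers_iff _ _).mp (hlb ⟨_, hs⟩)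
    have h3 : (lb : S ⧸ Subgroup.zpowers z) ^ i = QuotientGroup.mk s := congrArg Subtype.val hi
    have hi' : (QuotientGroup.mk (l ^ i) : S ⧸ Subgroup.zpowers z) = QuotientGroup.mk s := by
      rw [QuotientGroup.mk_pow, hl]; exact h3
    obtain ⟨k, hk⟩ := mem_zpowers_nat (QuotientGroup.eq.mp hi')
    exact ⟨i, k, by rw [hk, mul_inv_cancel_left]⟩
  have F2 : ∀ s : S, ∃ j : ℕ,
      (QuotientGroup.mk (s * (g ^ j)⁻¹) : S ⧸ Subgroup.zpowers z) ∈ Nb := by
    intro s
    obtain ⟨j, hj⟩ := (Submonoid.mem_powers_iff _ _).mp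
      (hgb (QuotientGroup.mk (QuotientGroup.mk s)))
    refine ⟨j, ?_⟩
    rw [← QuotientGroup.mk_pow, ← QuotientGroup.mk_pow] at hj
    have h1 := QuotientGroup.eq.mp hj
    have h3 : (QuotientGroup.mk (s * (g ^ j)⁻¹) : S ⧸ Subgroup.zpowers z) =
        QuotientGroup.mk s * (QuotientGroup.mk (g ^ j))⁻¹ := by
      rw [QuotientGroup.mk_mul, QuotientGroup.mk_inv]
    rw [h3]
    exact hNbn.mem_comm h1
  have F3 : ∀ s : S, ∃ i j k : ℕ, s = l ^ i * g ^ j * z ^ k := by
    intro s
    obtain ⟨j, hj⟩ := F2 s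
    obtain ⟨i, k, hik⟩ := F1 _ hj
    refine ⟨i, j, k, ?_⟩
    have hcz : Commute (g ^ j) (z ^ k) := (show Commute g z from hzc g).pow_pow j k
    calc s = s * (g ^ j)⁻¹ * g ^ j := by rw [inv_mul_cancel_right]
      _ = l ^ i * z ^ k * g ^ j := by rw [hik]
      _ = l ^ i * (z ^ k * g ^ j) := by rw [mul_assoc]
      _ = l ^ i * (g ^ j * z ^ k) := by rw [hcz.eq]
      _ = l ^ i * g ^ j * z ^ k := by rw [mul_assoc]
  by_cases hzl : z ∈ Subgroup.zpowers l
  · have hN : Subgroup.zpowers l = Nb.comap (QuotientGroup.mk' (Subgroup.zpowers z)) := by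
      apply le_antisymm
      · rw [Subgroup.zpowers_le, Subgroup.mem_comap, QuotientGroup.mk'_apply, hl]
        exact lb.2
      · intro s hs
        rw [Subgroup.mem_comap, QuotientGroup.mk'_apply] at hs
        obtain ⟨i, k, rfl⟩ := F1 s hs
        exact Subgroup.mul_mem _ (Subgroup.pow_mem _ (Subgroup.mem_zpowers l) i)
          (Subgroup.pow_mem _ hzl k)
    have hNn : (Subgroup.zpowers l).Normal := by
      rw [hN]; exact hNbn.comap _
    refine ⟨Subgroup.zpowers l, hNn, inferInstance, ?_⟩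
    haveI := hNn
    refine isCyclic_quot (Subgroup.zpowers l) g (fun s => ?_)
    obtain ⟨i, j, k, rfl⟩ := F3 s
    refine ⟨j, ?_⟩
    have e1 : ((l ^ i : S) : S ⧸ Subgroup.zpowers l) = 1 :=
      (QuotientGroup.eq_one_iff _).mpr (Subgroup.pow_mem _ (Subgroup.mem_zpowers l) i)
    have e2 : ((z ^ k : S) : S ⧸ Subgroup.zpowers l) = 1 :=
      (QuotientGroup.eq_one_iff _).mpr (Subgroup.pow_mem _ hzl k)
    rw [QuotientGroup.mk_mul, QuotientGroup.mk_mul, e1, e2, one_mul, mul_one,
      QuotientGroup.mk_pow]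
  · have hint : ∀ w : S, w ∈ Subgroup.zpowers l → w ∈ Subgroup.zpowers z → w = 1 := by
      intro w hwl hwz
      rcases mem_zpowers_invol z hz2 w hwz with h | h
      · exact h
      · exfalso
        apply hzl
        rw [← h]; exact hwl
    have hcommZ : commutator S ≤ Subgroup.zpowers z := by
      rcases hzcomm with hbot | hzin
      · rw [hbot]; exact bot_le
      · have hconj : (QuotientGroup.mk (g * l * g⁻¹) : S ⧸ Subgroup.zpowers z) ∈ Nb := by
          have h1 : (QuotientGroup.mk (g * l * g⁻¹) : S ⧸ Subgroup.zpowers z) =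
              QuotientGroup.mk g * (lb : S ⧸ Subgroup.zpowers z) * (QuotientGroup.mk g)⁻¹ := by
            rw [QuotientGroup.mk_mul, QuotientGroup.mk_mul, QuotientGroup.mk_inv, hl]
          rw [h1]
          exact hNbn.conj_mem _ lb.2 _
        obtain ⟨i, k, hik⟩ := F1 _ hconj
        have hBc : ∀ s : S, s * z ^ k = z ^ k * s :=
          fun s => ((show Commute s z from hzc s).pow_right k).eq
        have hlc : Commute l (l ^ i * z ^ k) :=
          ((Commute.refl l).pow_right i).mul_right ((show Commute l z from hzc l).pow_right k)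
        obtain ⟨c, hc⟩ : ∃ c : S, c = l⁻¹ * (l ^ i * z ^ k) := ⟨_, rfl⟩
        have hgc : g * c * g⁻¹ = c ^ i := by
          have e1 : g * c * g⁻¹ =
              (g * l * g⁻¹)⁻¹ * (g * l * g⁻¹) ^ i * (g * z ^ k * g⁻¹) := by
            rw [conj_pow, hc]; group
          have e2 : g * z ^ k * g⁻¹ = z ^ k := by rw [hBc g, mul_inv_cancel_right]
          have e3 : (l ^ i * z ^ k)⁻¹ * z ^ k = l⁻¹ ^ i := by
            rw [mul_inv_rev, mul_assoc, hBc ((l ^ i)⁻¹), inv_mul_cancel_left, inv_pow]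
          rw [e1, e2, hik, hc, hlc.inv_left.mul_pow, mul_assoc, hBc ((l ^ i * z ^ k) ^ i),
            ← mul_assoc, e3]
        have hcn : (Subgroup.zpowers c).Normal := by
          refine normal_of_gen3 (Subgroup.zpowers c) l g z F3 ?_ ?_ ?_
          · intro w hw
            obtain ⟨m, rfl⟩ := Subgroup.mem_zpowers_iff.mp hw
            have hlcc : Commute l c := by
              rw [hc]; exact (Commute.refl l).inv_right.mul_right hlc
            rw [(hlcc.zpow_right m).eq, mul_inv_cancel_right]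
            exact hw
          · intro w hw
            obtain ⟨m, rfl⟩ := Subgroup.mem_zpowers_iff.mp hw
            rw [← conj_zpow, hgc]
            exact Subgroup.zpow_mem _ (Subgroup.pow_mem _ (Subgroup.mem_zpowers c) i) m
          · intro w hw
            have e : z * w * z⁻¹ = w := by rw [← hzc w, mul_inv_cancel_right]
            rw [e]; exact hw
        haveI := hcn
        have hQc' : ∀ a b : S ⧸ Subgroup.zpowers c, a * b = b * a := by
          have hc1 : (QuotientGroup.mk c : S ⧸ Subgroup.zpowers c) = 1 :=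
            (QuotientGroup.eq_one_iff _).mpr (Subgroup.mem_zpowers c)
          have hglg : g * l * g⁻¹ = l * c := by rw [hik, hc, mul_inv_cancel_left]
          have hgl : (QuotientGroup.mk g : S ⧸ Subgroup.zpowers c) * QuotientGroup.mk l =
              QuotientGroup.mk l * QuotientGroup.mk g := by
            have h1 : (QuotientGroup.mk (g * l * g⁻¹) : S ⧸ Subgroup.zpowers c) =
                QuotientGroup.mk (l * c) := by rw [hglg]
            rw [QuotientGroup.mk_mul, QuotientGroup.mk_mul, QuotientGroup.mk_inv,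
              QuotientGroup.mk_mul, hc1, mul_one] at h1
            calc (QuotientGroup.mk g : S ⧸ Subgroup.zpowers c) * QuotientGroup.mk l
                = (QuotientGroup.mk g * QuotientGroup.mk l * (QuotientGroup.mk g)⁻¹) *
                    QuotientGroup.mk g := by rw [inv_mul_cancel_right]
              _ = QuotientGroup.mk l * QuotientGroup.mk g := by rw [h1]
          have hzq : ∀ a : S ⧸ Subgroup.zpowers c, Commute a (QuotientGroup.mk z) := by
            intro a
            obtain ⟨s, rfl⟩ := QuotientGroup.mk_surjective a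
            show (QuotientGroup.mk s : S ⧸ Subgroup.zpowers c) * QuotientGroup.mk z =
              QuotientGroup.mk z * QuotientGroup.mk s
            rw [← QuotientGroup.mk_mul, ← QuotientGroup.mk_mul, hzc s]
          intro a b
          obtain ⟨s, rfl⟩ := QuotientGroup.mk_surjective a
          obtain ⟨t, rfl⟩ := QuotientGroup.mk_surjective b
          obtain ⟨i1, j1, k1, rfl⟩ := F3 s
          obtain ⟨i2, j2, k2, rfl⟩ := F3 t
          have hcm := comm3 (QuotientGroup.mk l : S ⧸ Subgroup.zpowers c) (QuotientGroup.mk g)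
            (QuotientGroup.mk z) hgl.symm (hzq _) (hzq _) i1 j1 k1 i2 j2 k2
          simp only [QuotientGroup.mk_mul, QuotientGroup.mk_pow]
          exact hcm.eq
        have hS'c : commutator S ≤ Subgroup.zpowers c := commutator_le_of_quot_comm _ hQc'
        obtain ⟨m, hm⟩ := mem_zpowers_nat (hS'c hzin)
        obtain ⟨d, hd⟩ : ∃ d : S, d = l⁻¹ * l ^ i := ⟨_, rfl⟩
        have hcd : c = d * z ^ k := by rw [hc, hd, mul_assoc]
        have hdl : d ∈ Subgroup.zpowers l := by
          rw [hd]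
          exact Subgroup.mul_mem _ (Subgroup.inv_mem _ (Subgroup.mem_zpowers l))
            (Subgroup.pow_mem _ (Subgroup.mem_zpowers l) i)
        have hcm : c ^ m = d ^ m * z ^ (k * m) := by
          rw [hcd, (show Commute d (z ^ k) from hBc d).mul_pow, ← pow_mul]
        have h1 : d ^ m * z ^ (k * m) = z := by rw [← hcm]; exact hm
        have hdm : d ^ m = 1 := by
          apply hint _ (Subgroup.pow_mem _ hdl m)
          rw [eq_mul_inv_of_mul_eq h1]
          exact Subgroup.mul_mem _ (Subgroup.mem_zpowers z)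
            (Subgroup.inv_mem _ (Subgroup.pow_mem _ (Subgroup.mem_zpowers z) _))
        have hzkm : z ^ (k * m) = z := by
          rw [hdm, one_mul] at h1; exact h1
        have hmodd : ¬ 2 ∣ m := by
          rintro ⟨m', rfl⟩
          have e : z ^ (k * (2 * m')) = 1 := by
            rw [show k * (2 * m') = 2 * (k * m') by ring, pow_mul, hz2, one_pow]
          rw [e] at hzkm
          exact hz1 hzkm.symm
        have hd1 : d = 1 := odd_pow_eq_one h2 d m hmodd hdm
        have hcz : c = z ^ k := by rw [hcd, hd1, one_mul]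
        refine hS'c.trans ?_
        rw [hcz]
        exact Subgroup.zpowers_le.mpr (Subgroup.pow_mem _ (Subgroup.mem_zpowers z) k)
    have hQcomm := quot_comm (Subgroup.zpowers z) hcommZ
    have hgenQ : ∀ q : S ⧸ Subgroup.zpowers z, ∃ i j : ℕ,
        q = (QuotientGroup.mk l) ^ i * (QuotientGroup.mk g) ^ j := by
      intro q
      obtain ⟨s, rfl⟩ := QuotientGroup.mk_surjective q
      obtain ⟨i, j, k, rfl⟩ := F3 s
      refine ⟨i, j, ?_⟩
      have e2 : ((z ^ k : S) : S ⧸ Subgroup.zpowers z) = 1 :=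
        (QuotientGroup.eq_one_iff _).mpr (Subgroup.pow_mem _ (Subgroup.mem_zpowers z) k)
      rw [QuotientGroup.mk_mul, QuotientGroup.mk_mul, e2, mul_one, QuotientGroup.mk_pow,
        QuotientGroup.mk_pow]
    rcases le_total (orderOf (QuotientGroup.mk g : S ⧸ Subgroup.zpowers z))
        (orderOf (QuotientGroup.mk l : S ⧸ Subgroup.zpowers z)) with hle | hle
    · exact core_of_quot h2 (prank_self hr) z hz1 hz2 hzc hcommZ _ _ hgenQ hle
    · refine core_of_quot h2 (prank_self hr) z hz1 hz2 hzc hcommZ _ _ (fun q => ?_) hle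
      obtain ⟨i, j, hq⟩ := hgenQ q
      exact ⟨j, i, by rw [hq]; exact hQcomm _ _⟩

theorem metacyclic_of_sectional {S : Type u} [Group S] [Finite S] (h2 : IsPGroup 2 S)
    (hr : SectionalPRankLE 2 2 S) : IsMetacyclic S :=
  main_aux (Nat.card S) S rfl h2 hr

end Cfsg.Agent.Helper20.SecRank
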