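import Mathlib
import Cfsg.Agent.Helper20.SecRank
import Cfsg.Agent.Helper11.Taussky
import Cfsg.Agent.Helper11.PowGraph
import Cfsg.Agent.Helper11.MaxClass

set_option autoImplicit false
set_option maxHeartbeats 1000000

open Cfsg
open scoped commutatorElement

namespace Cfsg.Agent.Helper20.SecRank2

open Cfsg.Agent.Helper20.SecRank

universe u

theorem exists_xy {S : Type*} [Group S]
    (hsub : ∃ H : Subgroup S, Nonempty (↥H ≃* DihedralGroup 4) ∨
      Nonempty (↥H ≃* QuaternionGroup 2)) :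
    ∃ x y : S, orderOf x = 4 ∧ y * x * y⁻¹ = x⁻¹ ∧ (y ^ 2 = 1 ∨ y ^ 2 = x ^ 2) := by
  obtain ⟨H, ⟨⟨e⟩⟩ | ⟨⟨e⟩⟩⟩ := hsub
  · obtain ⟨φ, hφ⟩ : ∃ φ : DihedralGroup 4 →* S, Function.Injective φ :=
      ⟨H.subtype.comp e.symm.toMonoidHom, H.subtype_injective.comp e.symm.injective⟩
    refine ⟨φ (DihedralGroup.r 1), φ (DihedralGroup.sr 0), ?_, ?_, Or.inl ?_⟩
    · rw [orderOf_injective φ hφ]
      exact DihedralGroup.orderOf_r_one
    · have h : (DihedralGroup.sr 0 : DihedralGroup 4) * DihedralGroup.r 1 *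
          (DihedralGroup.sr 0)⁻¹ = (DihedralGroup.r 1)⁻¹ := by decide
      have h' := congrArg φ h
      rw [map_mul, map_mul, map_inv, map_inv] at h'
      exact h'
    · have h : (DihedralGroup.sr 0 : DihedralGroup 4) ^ 2 = 1 := by decide
      have h' := congrArg φ h
      rw [map_pow, map_one] at h'
      exact h'
  · obtain ⟨φ, hφ⟩ : ∃ φ : QuaternionGroup 2 →* S, Function.Injective φ :=
      ⟨H.subtype.comp e.symm.toMonoidHom, H.subtype_injective.comp e.symm.injective⟩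
    refine ⟨φ (QuaternionGroup.a 1), φ (QuaternionGroup.xa 0), ?_, ?_, Or.inr ?_⟩
    · rw [orderOf_injective φ hφ]
      exact QuaternionGroup.orderOf_a_one
    · have h : (QuaternionGroup.xa 0 : QuaternionGroup 2) * QuaternionGroup.a 1 *
          (QuaternionGroup.xa 0)⁻¹ = (QuaternionGroup.a 1)⁻¹ := by decide
      have h' := congrArg φ h
      rw [map_mul, map_mul, map_inv, map_inv] at h'
      exact h'
    · have h : (QuaternionGroup.xa 0 : QuaternionGroup 2) ^ 2 = (QuaternionGroup.a 1) ^ 2 := by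
        decide
      have h' := congrArg φ h
      rw [map_pow, map_pow] at h'
      exact h'

theorem cyc_data {S : Type*} [Group S] [Finite S] (N : Subgroup S) [hNn : N.Normal]
    (hNc : IsCyclic N) (hQc : IsCyclic (S ⧸ N)) :
    ∃ a β : S, a ∈ N ∧ (∀ s ∈ N, s ∈ Subgroup.zpowers a) ∧
      (∀ q : S ⧸ N, ∃ j : ℕ, q = (QuotientGroup.mk β) ^ j) := by
  obtain ⟨g, hg⟩ := IsCyclic.exists_monoid_generator (α := N)
  obtain ⟨gb, hgb⟩ := IsCyclic.exists_monoid_generator (α := S ⧸ N)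
  obtain ⟨β, rfl⟩ := QuotientGroup.mk_surjective gb
  refine ⟨(g : S), β, g.2, ?_, ?_⟩
  · intro s hs
    obtain ⟨i, hi⟩ := (Submonoid.mem_powers_iff _ _).mp (hg ⟨s, hs⟩)
    have h3 : (g : S) ^ i = s := congrArg Subtype.val hi
    rw [← h3]
    exact Subgroup.pow_mem _ (Subgroup.mem_zpowers _) i
  · intro q
    obtain ⟨j, hj⟩ := (Submonoid.mem_powers_iff _ _).mp (hgb q)
    exact ⟨j, hj.symm⟩

theorem extract {S : Type*} [Group S] [Finite S] (N : Subgroup S) [hNn : N.Normal] (a β : S)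
    (hN : ∀ s ∈ N, s ∈ Subgroup.zpowers a)
    (hβ : ∀ q : S ⧸ N, ∃ j : ℕ, q = (QuotientGroup.mk β) ^ j)
    (x y : S) (hx : orderOf x = 4) (hyx : y * x * y⁻¹ = x⁻¹)
    (hy2 : y ^ 2 = 1 ∨ y ^ 2 = x ^ 2) :
    ∃ c ∈ N, ∃ t : S, orderOf c = 4 ∧ t * c * t⁻¹ = c⁻¹ ∧ t ^ 2 ∈ N := by
  haveI : Fact (Nat.Prime 2) := ⟨Nat.prime_two⟩
  have hQcomm : ∀ p q : S ⧸ N, p * q = q * p := by
    intro p q
    obtain ⟨i, rfl⟩ := hβ p
    obtain ⟨j, rfl⟩ := hβ q
    exact ((Commute.refl _).pow_pow i j).eq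
  have hS'N : commutator S ≤ N := commutator_le_of_quot_comm N hQcomm
  have hx4 : x ^ 4 = 1 := by rw [← hx]; exact pow_orderOf_eq_one x
  have hx2ne : x ^ 2 ≠ 1 := by
    intro h
    have h1 := orderOf_dvd_of_pow_eq_one h
    rw [hx] at h1
    omega
  have hx22 : (x ^ 2) ^ 2 = 1 := by rw [← pow_mul]; exact hx4
  have hx2N : x ^ 2 ∈ N := by
    have h1 : ⁅y, x⁆ ∈ N :=
      hS'N (Subgroup.commutator_mem_commutator (Subgroup.mem_top _) (Subgroup.mem_top _))
    have h2 : ⁅y, x⁆ = (x ^ 2)⁻¹ := by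
      rw [commutatorElement_def, hyx, pow_two, mul_inv_rev]
    rw [h2] at h1
    exact inv_mem_iff.mp h1
  have hxne : x ≠ x⁻¹ := by
    intro h
    apply hx2ne
    calc x ^ 2 = x * x := pow_two x
      _ = x * x⁻¹ := by rw [← h]
      _ = 1 := mul_inv_cancel x
  have hy2N : y ^ 2 ∈ N := by
    rcases hy2 with h | h
    · rw [h]; exact N.one_mem
    · rw [h]; exact hx2N
  by_cases hxN : x ∈ N
  · exact ⟨x, hxN, y, hx, hyx, hy2N⟩
  have hw : ∃ w ∈ N, w * x * w⁻¹ = x⁻¹ ∧ w ^ 2 = y ^ 2 := by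
    by_cases hyN : y ∈ N
    · exact ⟨y, hyN, hyx, rfl⟩
    · have hmx : (QuotientGroup.mk x : S ⧸ N) ≠ 1 :=
        fun h => hxN ((QuotientGroup.eq_one_iff x).mp h)
      have hmy : (QuotientGroup.mk y : S ⧸ N) ≠ 1 :=
        fun h => hyN ((QuotientGroup.eq_one_iff y).mp h)
      have hmx2 : (QuotientGroup.mk x : S ⧸ N) ^ 2 = 1 := by
        rw [← QuotientGroup.mk_pow]; exact (QuotientGroup.eq_one_iff _).mpr hx2N
      have hmy2 : (QuotientGroup.mk y : S ⧸ N) ^ 2 = 1 := by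
        rw [← QuotientGroup.mk_pow]; exact (QuotientGroup.eq_one_iff _).mpr hy2N
      have hox : orderOf (QuotientGroup.mk x : S ⧸ N) = 2 := orderOf_eq_prime hmx2 hmx
      have hoy : orderOf (QuotientGroup.mk y : S ⧸ N) = 2 := orderOf_eq_prime hmy2 hmy
      have hmem : ∀ q : S ⧸ N, q ∈ Subgroup.zpowers (QuotientGroup.mk β : S ⧸ N) := by
        intro q
        obtain ⟨j, rfl⟩ := hβ q
        exact Subgroup.pow_mem _ (Subgroup.mem_zpowers _) j
      have h1 : (QuotientGroup.mk x : S ⧸ N) ∈ Subgroup.zpowers (QuotientGroup.mk y : S ⧸ N) :=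
        Cfsg.Agent.Helper11.pg_cyc (hmem _) (hmem _) (dvd_of_eq (hox.trans hoy.symm))
      have hxy : (QuotientGroup.mk x : S ⧸ N) = QuotientGroup.mk y :=
        (mem_zpowers_invol _ hmy2 _ h1).resolve_left hmx
      have hwN : x⁻¹ * y ∈ N := QuotientGroup.eq.mp hxy
      refine ⟨x⁻¹ * y, hwN, ?_, ?_⟩
      · have e : x⁻¹ * y * x * (x⁻¹ * y)⁻¹ = x⁻¹ * (y * x * y⁻¹) * x := by group
        rw [e, hyx]; group
      · have e : (x⁻¹ * y) ^ 2 = x⁻¹ * (y * x * y⁻¹)⁻¹ * (y * y) := by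
          rw [pow_two]; group
        rw [e, hyx, inv_inv, inv_mul_cancel, one_mul, pow_two]
  obtain ⟨w, hwN, hwx, hw2⟩ := hw
  have hw1 : w ≠ 1 := by
    intro h
    rw [h, one_mul, inv_one, mul_one] at hwx
    exact hxne hwx
  rcases hy2 with h | h
  · exfalso
    rw [h] at hw2
    have how : orderOf w = 2 := orderOf_eq_prime hw2 hw1
    have hox2 : orderOf (x ^ 2) = 2 := orderOf_eq_prime hx22 hx2ne
    have h1 : w ∈ Subgroup.zpowers (x ^ 2) :=
      Cfsg.Agent.Helper11.pg_cyc (hN w hwN) (hN _ hx2N) (dvd_of_eq (how.trans hox2.symm))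
    have h3 : w = x ^ 2 := (mem_zpowers_invol _ hx22 _ h1).resolve_left hw1
    rw [h3] at hwx
    apply hxne
    have e : x ^ 2 * x * (x ^ 2)⁻¹ = x := by group
    rw [e] at hwx
    exact hwx
  · rw [h] at hw2
    refine ⟨w, hwN, x, ?_, ?_, hx2N⟩
    · have h1 : ¬ w ^ 2 ^ 1 = 1 := by rw [pow_one, hw2]; exact hx2ne
      have h2' : w ^ 2 ^ (1 + 1) = 1 := by
        rw [show (2 : ℕ) ^ (1 + 1) = 2 * 2 by norm_num, pow_mul, hw2]
        exact hx22
      exact orderOf_eq_prime_pow h1 h2'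
    · have e1 : w * x = x⁻¹ * w := by
        calc w * x = (w * x * w⁻¹) * w := by group
          _ = x⁻¹ * w := by rw [hwx]
      have e2 : x * w = w * x⁻¹ := by
        calc x * w = x * (w * x) * x⁻¹ := by group
          _ = x * (x⁻¹ * w) * x⁻¹ := by rw [e1]
          _ = w * x⁻¹ := by group
      calc x * w * x⁻¹ = w * x⁻¹ * x⁻¹ := by rw [e2]
        _ = w * (x ^ 2)⁻¹ := by group
        _ = w * (w ^ 2)⁻¹ := by rw [hw2]
        _ = w⁻¹ := by group

theorem index_two {S : Type*} [Group S] [Finite S] (h2 : IsPGroup 2 S) (N : Subgroup S)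
    [hNn : N.Normal] (a β : S) (hN : ∀ s ∈ N, s ∈ Subgroup.zpowers a)
    (hβ : ∀ q : S ⧸ N, ∃ j : ℕ, q = (QuotientGroup.mk β) ^ j)
    (c t : S) (hcN : c ∈ N) (hc : orderOf c = 4) (htc : t * c * t⁻¹ = c⁻¹)
    (ht2 : t ^ 2 ∈ N) : t ∉ N ∧ ∀ s : S, s ∈ N ∨ t⁻¹ * s ∈ N := by
  haveI : Fact (Nat.Prime 2) := ⟨Nat.prime_two⟩
  have hc4 : c ^ 4 = 1 := by rw [← hc]; exact pow_orderOf_eq_one c
  have hc2ne : c ^ 2 ≠ 1 := by
    intro h
    have h1 := orderOf_dvd_of_pow_eq_one h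
    rw [hc] at h1
    omega
  have hcne : c ≠ c⁻¹ := by
    intro h
    apply hc2ne
    calc c ^ 2 = c * c := pow_two c
      _ = c * c⁻¹ := by rw [← h]
      _ = 1 := mul_inv_cancel c
  have hNcomm : ∀ u ∈ N, ∀ v ∈ N, u * v = v * u := by
    intro u hu v hv
    obtain ⟨i, hi⟩ := Subgroup.mem_zpowers_iff.mp (hN u hu)
    obtain ⟨j, hj⟩ := Subgroup.mem_zpowers_iff.mp (hN v hv)
    rw [← hi, ← hj]
    exact (Commute.zpow_zpow_self a i j).eq
  have htN : t ∉ N := by
    intro h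
    apply hcne
    rw [← htc, hNcomm t h c hcN, mul_inv_cancel_right]
  have hconj : ∀ s : S, s * c * s⁻¹ = c ∨ s * c * s⁻¹ = c⁻¹ := by
    intro s
    have h1 : s * c * s⁻¹ ∈ N := hNn.conj_mem c hcN s
    have ho : orderOf (s * c * s⁻¹) = orderOf c :=
      orderOf_injective (MulAut.conj s).toMonoidHom (MulAut.conj s).injective c
    have h3 : s * c * s⁻¹ ∈ Subgroup.zpowers c :=
      Cfsg.Agent.Helper11.pg_cyc (hN _ h1) (hN c hcN) (dvd_of_eq ho)
    obtain ⟨e, he⟩ := mem_zpowers_nat h3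
    have he' : c ^ (e % 4) = s * c * s⁻¹ := by
      rw [← he, ← hc, pow_mod_orderOf]
    have hcases : e % 4 = 0 ∨ e % 4 = 1 ∨ e % 4 = 2 ∨ e % 4 = 3 := by omega
    rcases hcases with h | h | h | h
    · exfalso
      rw [h, pow_zero] at he'
      rw [← he', orderOf_one, hc] at ho
      omega
    · left; rw [← he', h, pow_one]
    · exfalso
      rw [h] at he'
      have h5 : (s * c * s⁻¹) ^ 2 = 1 := by rw [← he', ← pow_mul]; exact hc4
      have h6 := orderOf_dvd_of_pow_eq_one h5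
      rw [ho, hc] at h6
      omega
    · right
      rw [← he', h]
      exact eq_inv_of_mul_eq_one_left (by rw [← pow_succ]; exact hc4)
  have hsqc : ∀ s : S, s ^ 2 * c * (s ^ 2)⁻¹ = c := by
    intro s
    have e : s ^ 2 * c * (s ^ 2)⁻¹ = s * (s * c * s⁻¹) * s⁻¹ := by
      rw [pow_two, mul_inv_rev]; simp only [mul_assoc]
    rw [e]
    rcases hconj s with h | h
    · rw [h, h]
    · rw [h]
      have e' : s * c⁻¹ * s⁻¹ = (s * c * s⁻¹)⁻¹ := by group
      rw [e', h, inv_inv]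
  have hQ2 : IsPGroup 2 (S ⧸ N) := h2.to_quotient N
  obtain ⟨j0, hj0⟩ := hβ (QuotientGroup.mk t)
  have hj0odd : ¬ 2 ∣ j0 := by
    rintro ⟨j', rfl⟩
    have h1 : (QuotientGroup.mk (β ^ (2 * j')) : S ⧸ N) = QuotientGroup.mk t := by
      rw [QuotientGroup.mk_pow]; exact hj0.symm
    have hn' : (β ^ (2 * j'))⁻¹ * t ∈ N := QuotientGroup.eq.mp h1
    have hB : β ^ (2 * j') = (β ^ j') ^ 2 := by rw [← pow_mul, mul_comm]
    have e : t * c * t⁻¹ = β ^ (2 * j') * (((β ^ (2 * j'))⁻¹ * t) * c *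
        ((β ^ (2 * j'))⁻¹ * t)⁻¹) * (β ^ (2 * j'))⁻¹ := by group
    apply hcne
    rw [← htc, e, hNcomm _ hn' c hcN, mul_inv_cancel_right, hB, hsqc]
  have hb2 : (QuotientGroup.mk β : S ⧸ N) ^ 2 = 1 := by
    have h1 : ((QuotientGroup.mk β : S ⧸ N) ^ 2) ^ j0 = 1 := by
      rw [← pow_mul, mul_comm 2 j0, pow_mul, ← hj0, ← QuotientGroup.mk_pow]
      exact (QuotientGroup.eq_one_iff _).mpr ht2
    exact odd_pow_eq_one hQ2 _ j0 hj0odd h1
  refine ⟨htN, fun s => ?_⟩
  have hmt : (QuotientGroup.mk t : S ⧸ N) = QuotientGroup.mk β := by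
    rcases pow_invol _ hb2 j0 with h | h
    · exfalso
      rw [h] at hj0
      exact htN ((QuotientGroup.eq_one_iff t).mp hj0)
    · rw [hj0, h]
  obtain ⟨j, hj⟩ := hβ (QuotientGroup.mk s)
  rcases pow_invol _ hb2 j with h | h
  · left
    rw [h] at hj
    exact (QuotientGroup.eq_one_iff s).mp hj
  · right
    rw [h, ← hmt] at hj
    exact QuotientGroup.eq.mp hj.symm

theorem ab_card {S : Type u} [Group S] [Finite S] (h2 : IsPGroup 2 S) (N : Subgroup S)
    [hNn : N.Normal] (a : S) (haN : a ∈ N) (hN : ∀ s ∈ N, s ∈ Subgroup.zpowers a)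
    (c t : S) (hcN : c ∈ N) (hc : orderOf c = 4) (htc : t * c * t⁻¹ = c⁻¹)
    (ht2 : t ^ 2 ∈ N) (hidx : ∀ s : S, s ∈ N ∨ t⁻¹ * s ∈ N) :
    Nat.card (Abelianization S) = 4 ∧ (∀ x : Abelianization S, x ^ 2 = 1) ∧
      Nat.card S ≠ 4 := by
  haveI : Fact (Nat.Prime 2) := ⟨Nat.prime_two⟩
  have hc4 : c ^ 4 = 1 := by rw [← hc]; exact pow_orderOf_eq_one c
  have hc2ne : c ^ 2 ≠ 1 := by
    intro h
    have h1 := orderOf_dvd_of_pow_eq_one h
    rw [hc] at h1
    omega
  have hcne : c ≠ c⁻¹ := by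
    intro h
    apply hc2ne
    calc c ^ 2 = c * c := pow_two c
      _ = c * c⁻¹ := by rw [← h]
      _ = 1 := mul_inv_cancel c
  obtain ⟨r, hr⟩ := mem_zpowers_nat (hN _ (hNn.conj_mem a haN t))
  obtain ⟨k, hk⟩ := mem_zpowers_nat (hN c hcN)
  have hcr : c ^ r = c⁻¹ := by
    rw [← htc, ← hk, ← conj_pow, ← hr, ← pow_mul, ← pow_mul, mul_comm k r]
  have hr4 : 4 ∣ r + 1 := by
    have h1 : c ^ (r + 1) = 1 := by rw [pow_succ, hcr, inv_mul_cancel]
    have h3 := orderOf_dvd_of_pow_eq_one h1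
    rwa [hc] at h3
  obtain ⟨q, hq⟩ := hr4
  have hcomm_mem : ∀ u v : S, ⁅u, v⁆ ∈ commutator S := fun u v =>
    Subgroup.commutator_mem_commutator (Subgroup.mem_top _) (Subgroup.mem_top _)
  have ha2 : a ^ 2 ∈ commutator S := by
    have h1 : ⁅t, a⁆ = (a ^ 2) ^ (2 * q - 1) := by
      rw [commutatorElement_def, ← hr, ← pow_mul]
      have hr' : r = 2 * (2 * q - 1) + 1 := by omega
      rw [hr', pow_succ, mul_inv_cancel_right]
    have hodd : Nat.Coprime (2 * q - 1) (orderOf (a ^ 2)) := by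
      obtain ⟨e, he⟩ := (IsPGroup.iff_orderOf.mp h2) (a ^ 2)
      rw [he]
      apply Nat.Coprime.pow_right
      rw [Nat.coprime_two_right]
      exact ⟨q - 1, by omega⟩
    obtain ⟨m, hm⟩ := exists_pow_eq_self_of_coprime hodd
    rw [← hm, ← h1]
    exact Subgroup.pow_mem _ (hcomm_mem t a) m
  have ht2c : t ^ 2 ∈ commutator S := by
    obtain ⟨j, hj⟩ := mem_zpowers_nat (hN _ ht2)
    rcases Nat.even_or_odd' j with ⟨j', hj' | hj'⟩
    · rw [← hj, hj', pow_mul]
      exact Subgroup.pow_mem _ ha2 j'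
    · exfalso
      have hco : Nat.Coprime j (orderOf a) := by
        obtain ⟨e, he⟩ := (IsPGroup.iff_orderOf.mp h2) a
        rw [he]
        apply Nat.Coprime.pow_right
        rw [Nat.coprime_two_right]
        exact ⟨j', hj'⟩
      obtain ⟨m, hm⟩ := exists_pow_eq_self_of_coprime hco
      rw [hj] at hm
      have hta : t * a = a * t := by
        rw [← hm, ← pow_mul]
        exact ((Commute.refl t).pow_right _).eq
      apply hcne
      rw [← htc, ← hk]
      have e : t * a ^ k = a ^ k * t := ((show Commute t a from hta).pow_right k).eq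
      rw [e, mul_inv_cancel_right]
  have hof : ∀ s : S, s ∈ commutator S → (Abelianization.of s : Abelianization S) = 1 := by
    intro s hs
    have h1 : s ∈ (Abelianization.of : S →* Abelianization S).ker := by
      rw [Abelianization.ker_of]; exact hs
    exact MonoidHom.mem_ker.mp h1
  have hsurj : ∀ x : Abelianization S, ∃ s : S, Abelianization.of s = x :=
    fun x => QuotientGroup.mk_surjective x
  obtain ⟨A, hA⟩ : ∃ A : Abelianization S, A = Abelianization.of a := ⟨_, rfl⟩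
  obtain ⟨T, hT⟩ : ∃ T : Abelianization S, T = Abelianization.of t := ⟨_, rfl⟩
  have hA2 : A ^ 2 = 1 := by rw [hA, ← map_pow]; exact hof _ ha2
  have hT2 : T ^ 2 = 1 := by rw [hT, ← map_pow]; exact hof _ ht2c
  have hform : ∀ x : Abelianization S, x = 1 ∨ x = A ∨ x = T ∨ x = T * A := by
    intro x
    obtain ⟨s, rfl⟩ := hsurj x
    rcases hidx s with hs | hs
    · obtain ⟨i, hi⟩ := mem_zpowers_nat (hN s hs)
      rw [← hi, map_pow, ← hA]
      rcases pow_invol _ hA2 i with h | h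
      · left; exact h
      · right; left; exact h
    · obtain ⟨i, hi⟩ := mem_zpowers_nat (hN _ hs)
      have hs' : s = t * a ^ i := by rw [hi, mul_inv_cancel_left]
      rw [hs', map_mul, map_pow, ← hA, ← hT]
      rcases pow_invol _ hA2 i with h | h
      · right; right; left; rw [h, mul_one]
      · right; right; right; rw [h]
  have hexp : ∀ x : Abelianization S, x ^ 2 = 1 := by
    intro x
    rcases hform x with h | h | h | h
    · rw [h, one_pow]
    · rw [h]; exact hA2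
    · rw [h]; exact hT2
    · rw [h, mul_pow, hA2, hT2, one_mul]
  have hle : Nat.card (Abelianization S) ≤ 4 := by
    have hsub : (Set.univ : Set (Abelianization S)) ⊆ {1, A, T, T * A} := by
      intro x _
      simp only [Set.mem_insert_iff, Set.mem_singleton_iff]
      exact hform x
    have h1 := Set.ncard_le_ncard hsub (Set.toFinite _)
    rw [Set.ncard_univ] at h1
    have e1 := Set.ncard_insert_le (1 : Abelianization S) {A, T, T * A}
    have e2 := Set.ncard_insert_le A {T, T * A}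
    have e3 := Set.ncard_insert_le T {T * A}
    have e4 := Set.ncard_singleton (T * A)
    omega
  have hne : commutator S ≠ ⊥ := by
    intro h
    have h1 : ⁅t, c⁆ ∈ commutator S := hcomm_mem t c
    rw [h, Subgroup.mem_bot, commutatorElement_eq_one_iff_mul_comm] at h1
    apply hcne
    rw [← htc, h1, mul_inv_cancel_right]
  have h5 := Cfsg.Agent.Helper11.comm_card_le h2 hne
  norm_num at h5
  have h6 := Subgroup.card_mul_index (commutator S)
  have h7 : (commutator S).index = Nat.card (Abelianization S) := Subgroup.index_eq_card _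
  have hpos : 0 < Nat.card (commutator S) := Nat.card_pos
  have hge : 4 ≤ (commutator S).index :=
    Nat.le_of_mul_le_mul_left (h5.trans (le_of_eq h6.symm)) hpos
  have hS4 : Nat.card S ≠ 4 := by
    intro h
    apply hne
    apply Subgroup.eq_bot_of_card_le
    rw [h] at h5
    omega
  exact ⟨le_antisymm hle (h7 ▸ hge), hexp, hS4⟩

theorem dsq_of_sectional {S : Type u} [Group S] [Finite S] (h2 : IsPGroup 2 S)
    (hr : SectionalPRankLE 2 2 S)
    (hsub : ∃ H : Subgroup S, Nonempty (↥H ≃* DihedralGroup 4) ∨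
      Nonempty (↥H ≃* QuaternionGroup 2)) :
    ((∃ k : ℕ, Nonempty (S ≃* DihedralGroup (2 ^ (k + 2)))) ∨
      (∃ k : ℕ, Nat.card S = 2 ^ (k + 4) ∧ ∃ a b : S, orderOf a = 2 ^ (k + 3) ∧
        orderOf b = 2 ∧ b * a * b⁻¹ = a ^ (2 ^ (k + 2) - 1)) ∨
      (∃ k : ℕ, Nonempty (S ≃* QuaternionGroup (2 ^ (k + 1))))) := by
  obtain ⟨x, y, hx, hyx, hy2⟩ := exists_xy hsub
  obtain ⟨N, hNn, hNc, hQc⟩ := metacyclic_of_sectional h2 hr
  obtain ⟨a, β, haN, hN, hβ⟩ := cyc_data N hNc hQc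
  obtain ⟨c, hcN, t, hc, htc, ht2⟩ := extract N a β hN hβ x y hx hyx hy2
  obtain ⟨htN, hidx⟩ := index_two h2 N a β hN hβ c t hcN hc htc ht2
  obtain ⟨hab, hexp, hS4⟩ := ab_card h2 N a haN hN c t hcN hc htc ht2 hidx
  rcases Cfsg.Agent.Helper11.taussky_explicit h2 hab hexp with h | h
  · exact absurd h hS4
  · exact h

end Cfsg.Agent.Helper20.SecRank2
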