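import Mathlib
import Cfsg.Agent.Helper20.SecRank
import Cfsg.Agent.Helper24.PNormalCenter
import Cfsg.Agent.Lead.PGroup

set_option autoImplicit false

open Cfsg
open scoped commutatorElement

universe u

namespace Cfsg.Agent.Helper20.SecRank4

open Cfsg.Agent.Helper20.SecRank

/-- structure of a centre of order two of a normal subgroup. -/
theorem center_two {S : Type u} [Group S] (P : Subgroup S) [hPn : P.Normal]
    (hZP : Nat.card ↥(Subgroup.center ↥P) = 2) :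
    ∃ z : S, z ∈ P ∧ z ≠ 1 ∧ z ^ 2 = 1 ∧ (∀ s : S, s * z = z * s) ∧
      (∀ u ∈ P, (∀ x ∈ P, x * u = u * x) → u = 1 ∨ u = z) ∧
      (∀ w : S, w ∈ (Subgroup.center ↥P).map P.subtype ↔ (w = 1 ∨ w = z)) := by
  obtain ⟨z0, hz0, huniq⟩ := (Nat.card_eq_two_iff' (1 : ↥(Subgroup.center ↥P))).mp hZP
  obtain ⟨z, hz⟩ : ∃ z : S, z = z0.1.1 := ⟨_, rfl⟩
  have hzP : z ∈ P := by rw [hz]; exact z0.1.2
  have hz1 : z ≠ 1 := by
    intro h
    apply hz0
    apply Subtype.ext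
    apply Subtype.ext
    rw [← hz]
    exact h
  have hcP : ∀ x ∈ P, x * z = z * x := by
    intro x hx
    rw [hz]
    exact congrArg Subtype.val (Subgroup.mem_center_iff.mp z0.2 ⟨x, hx⟩)
  have hcls : ∀ u ∈ P, (∀ x ∈ P, x * u = u * x) → u = 1 ∨ u = z := by
    intro u hu hc
    have hmem : (⟨u, hu⟩ : ↥P) ∈ Subgroup.center ↥P := by
      rw [Subgroup.mem_center_iff]
      intro g
      apply Subtype.ext
      exact hc g.1 g.2
    by_cases h1 : u = 1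
    · left; exact h1
    · right
      have hne1 : (⟨⟨u, hu⟩, hmem⟩ : ↥(Subgroup.center ↥P)) ≠ 1 := by
        intro h
        apply h1
        exact congrArg (fun w : ↥(Subgroup.center ↥P) => w.1.1) h
      have h2 := huniq _ hne1
      rw [hz]
      exact congrArg (fun w : ↥(Subgroup.center ↥P) => w.1.1) h2
  have hc2 : ∀ x ∈ P, x * z ^ 2 = z ^ 2 * x := by
    intro x hx
    exact (show Commute x z from hcP x hx).pow_right 2
  refine ⟨z, hzP, hz1, ?_, ?_, hcls, ?_⟩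
  · rcases hcls (z ^ 2) (Subgroup.pow_mem _ hzP 2) hc2 with h | h
    · exact h
    · exfalso
      apply hz1
      rw [pow_two] at h
      exact mul_left_cancel (h.trans (mul_one z).symm)
  · intro s
    have hconjP : s * z * s⁻¹ ∈ P := hPn.conj_mem _ hzP s
    have hconjc : ∀ x ∈ P, x * (s * z * s⁻¹) = (s * z * s⁻¹) * x := by
      intro x hx
      have hx' : s⁻¹ * x * s ∈ P := by
        have := hPn.conj_mem x hx s⁻¹
        rwa [inv_inv] at this
      have h := hcP _ hx'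
      calc x * (s * z * s⁻¹) = s * ((s⁻¹ * x * s) * z) * s⁻¹ := by group
        _ = s * (z * (s⁻¹ * x * s)) * s⁻¹ := by rw [h]
        _ = (s * z * s⁻¹) * x := by group
    rcases hcls _ hconjP hconjc with h | h
    · exfalso
      apply hz1
      calc z = s⁻¹ * (s * z * s⁻¹) * s := by group
        _ = 1 := by rw [h]; group
    · calc s * z = (s * z * s⁻¹) * s := by group
        _ = z * s := by rw [h]
  · intro w
    constructor
    · intro hw
      obtain ⟨a, ha, rfl⟩ := Subgroup.mem_map.mp hw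
      apply hcls _ a.2
      intro x hx
      exact congrArg Subtype.val (Subgroup.mem_center_iff.mp ha ⟨x, hx⟩)
    · rintro (h | h)
      · rw [h]; exact Subgroup.one_mem _
      · rw [h, hz]; exact Subgroup.mem_map.mpr ⟨z0.1, z0.2, rfl⟩

/-- a nonabelian finite group has two elements independent modulo its Frattini subgroup. -/
theorem frat_indep {R : Type u} [Group R] [Finite R] (h : ¬ IsMulCommutative R) :
    ∃ x1 x2 : R, x1 ∉ frattini R ∧ x2 ∉ frattini R ∧ x1 * x2 ∉ frattini R := by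
  have hF : frattini R ≠ ⊤ := by
    intro hF
    have hbot : (⊥ : Subgroup R) = ⊤ := frattini_nongenerating (by rw [hF]; exact sup_top_eq _)
    apply h
    rw [isMulCommutative_iff]
    intro a b
    have ha : a ∈ (⊥ : Subgroup R) := by rw [hbot]; exact Subgroup.mem_top a
    have hb : b ∈ (⊥ : Subgroup R) := by rw [hbot]; exact Subgroup.mem_top b
    rw [Subgroup.mem_bot] at ha hb
    rw [ha, hb]
  obtain ⟨x1, hx1⟩ : ∃ x1 : R, x1 ∉ frattini R := by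
    by_contra hcon
    push_neg at hcon
    exact hF ((Subgroup.eq_top_iff' _).mpr hcon)
  have hZ : Subgroup.zpowers x1 ⊔ frattini R ≠ ⊤ := by
    intro hZ
    have htop : Subgroup.zpowers x1 = ⊤ := frattini_nongenerating hZ
    apply h
    rw [isMulCommutative_iff]
    intro a b
    have ha : a ∈ Subgroup.zpowers x1 := by rw [htop]; exact Subgroup.mem_top a
    have hb : b ∈ Subgroup.zpowers x1 := by rw [htop]; exact Subgroup.mem_top b
    obtain ⟨i, rfl⟩ := Subgroup.mem_zpowers_iff.mp ha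
    obtain ⟨j, rfl⟩ := Subgroup.mem_zpowers_iff.mp hb
    exact zpow_mul_comm x1 i j
  obtain ⟨x2, hx2⟩ : ∃ x2 : R, x2 ∉ Subgroup.zpowers x1 ⊔ frattini R := by
    by_contra hcon
    push_neg at hcon
    exact hZ ((Subgroup.eq_top_iff' _).mpr hcon)
  refine ⟨x1, x2, hx1, fun h2 => hx2 (Subgroup.mem_sup_right h2), fun h12 => hx2 ?_⟩
  have hx : x2 = x1⁻¹ * (x1 * x2) := by group
  rw [hx]
  exact Subgroup.mul_mem _ (Subgroup.mem_sup_left (Subgroup.inv_mem _ (Subgroup.mem_zpowers x1)))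
    (Subgroup.mem_sup_right h12)

/-- the Frattini subgroup of a normal nonabelian subgroup of a 2-group, as a subgroup of the
ambient group. -/
theorem frat_data {S : Type u} [Group S] [Finite S] (h2 : IsPGroup 2 S) (P : Subgroup S)
    [hPn : P.Normal] (hP : ¬ IsMulCommutative ↥P) :
    ∃ Φ : Subgroup S, Φ.Normal ∧ Φ ≤ P ∧ Φ ≠ ⊥ ∧ (∀ u ∈ P, u ^ 2 ∈ Φ) ∧
      ∃ x1 ∈ P, ∃ x2 ∈ P, x1 ∉ Φ ∧ x2 ∉ Φ ∧ x1 * x2 ∉ Φ := by
  haveI : Fact (Nat.Prime 2) := ⟨Nat.prime_two⟩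
  have hP2 : IsPGroup 2 ↥P := h2.to_subgroup P
  have hmem : ∀ a : ↥P, (a : S) ∈ (frattini ↥P).map P.subtype ↔ a ∈ frattini ↥P := by
    intro a
    constructor
    · intro ha
      obtain ⟨b, hb, hba⟩ := Subgroup.mem_map.mp ha
      have hba' : b = a := Subtype.ext hba
      rw [← hba']; exact hb
    · intro ha
      exact Subgroup.mem_map.mpr ⟨a, ha, rfl⟩
  refine ⟨(frattini ↥P).map P.subtype, inferInstance, Subgroup.map_subtype_le _, ?_, ?_, ?_⟩
  · intro hbot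
    apply hP
    rw [isMulCommutative_iff]
    intro a b
    have hc : ⁅a, b⁆ ∈ frattini ↥P :=
      Cfsg.Agent.Lead.commutator_le_frattini hP2
        (show ⁅a, b⁆ ∈ commutator ↥P from
          Subgroup.commutator_mem_commutator (Subgroup.mem_top a) (Subgroup.mem_top b))
    have hc' : ((⁅a, b⁆ : ↥P) : S) ∈ (frattini ↥P).map P.subtype := (hmem _).mpr hc
    rw [hbot, Subgroup.mem_bot] at hc'
    have hc1 : ⁅a, b⁆ = 1 := Subtype.ext hc'
    exact (commutatorElement_eq_one_iff_commute.mp hc1).eq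
  · intro u hu
    have h := Cfsg.Agent.Lead.pow_mem_frattini hP2 (⟨u, hu⟩ : ↥P)
    exact (hmem _).mpr h
  · obtain ⟨x1, x2, h1, h2', h12⟩ := frat_indep hP
    exact ⟨x1.1, x1.2, x2.1, x2.2, fun h => h1 ((hmem x1).mp h), fun h => h2' ((hmem x2).mp h),
      fun h => h12 ((hmem (x1 * x2)).mp h)⟩

theorem card_double {T : Type u} [Group T] [Finite T] (A B : Subgroup T) (hAB : A ≤ B) (e : T)
    (heB : e ∈ B) (heA : e ∉ A) : 2 * Nat.card ↥A ≤ Nat.card ↥B := by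
  obtain ⟨m, hm⟩ := Subgroup.card_dvd_of_le hAB
  have hBpos : 0 < Nat.card ↥B := Nat.card_pos
  have hApos : 0 < Nat.card ↥A := Nat.card_pos
  rcases Nat.lt_or_ge m 2 with hlt | hge
  · exfalso
    have hm1 : m = 1 := by
      rcases Nat.eq_zero_or_pos m with h0 | h0
      · rw [h0, mul_zero] at hm; omega
      · omega
    rw [hm1, mul_one] at hm
    have hAeq : A = B := Subgroup.eq_of_le_of_card_ge hAB (le_of_eq hm)
    apply heA
    rw [hAeq]; exact heB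
  · rw [hm]
    calc 2 * Nat.card ↥A = Nat.card ↥A * 2 := mul_comm _ _
      _ ≤ Nat.card ↥A * m := Nat.mul_le_mul_left _ hge

theorem split_mem {S : Type u} [Group S] (P Q ΦP ΦQ : Subgroup S) [ΦQ.Normal]
    (hPQ : P ⊓ Q = ⊥) (hΦP : ΦP ≤ P) (hΦQ : ΦQ ≤ Q) (u v : S) (hu : u ∈ P) (hv : v ∈ Q)
    (h : u * v ∈ ΦP ⊔ ΦQ) : u ∈ ΦP ∧ v ∈ ΦQ := by
  have h' : u * v ∈ ((ΦP ⊔ ΦQ : Subgroup S) : Set S) := h
  rw [Subgroup.mul_normal] at h'
  obtain ⟨a, ha, b, hb, hab⟩ := Set.mem_mul.mp h'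
  have hw : a⁻¹ * u = b * v⁻¹ := by
    calc a⁻¹ * u = a⁻¹ * (u * v) * v⁻¹ := by group
      _ = a⁻¹ * (a * b) * v⁻¹ := by rw [hab]
      _ = b * v⁻¹ := by group
  have hwP : a⁻¹ * u ∈ P := Subgroup.mul_mem _ (Subgroup.inv_mem _ (hΦP ha)) hu
  have hwQ : a⁻¹ * u ∈ Q := by
    rw [hw]; exact Subgroup.mul_mem _ (hΦQ hb) (Subgroup.inv_mem _ hv)
  have hw1 : a⁻¹ * u = 1 := by
    have hmem : a⁻¹ * u ∈ P ⊓ Q := Subgroup.mem_inf.mpr ⟨hwP, hwQ⟩
    rw [hPQ, Subgroup.mem_bot] at hmem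
    exact hmem
  have hua : u = a := by
    calc u = a * (a⁻¹ * u) := by group
      _ = a := by rw [hw1, mul_one]
  have hvb : v = b := by
    have hb1 : b * v⁻¹ = 1 := by rw [← hw]; exact hw1
    calc v = (b * v⁻¹)⁻¹ * b := by group
      _ = b := by rw [hb1, inv_one, one_mul]
  constructor
  · rw [hua]; exact ha
  · rw [hvb]; exact hb

theorem comm_of_sq {G : Type u} [Group G] (a b : G) (ha : a * a = 1) (hb : b * b = 1)
    (hab : (a * b) * (a * b) = 1) : a * b = b * a := by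
  have ha' : a⁻¹ = a := inv_eq_of_mul_eq_one_left ha
  have hb' : b⁻¹ = b := inv_eq_of_mul_eq_one_left hb
  have h : (a * b)⁻¹ = a * b := inv_eq_of_mul_eq_one_left hab
  rw [mul_inv_rev, ha', hb'] at h
  exact h.symm

theorem big_section {S : Type u} [Group S] [Finite S] (hr : SectionalPRankLE 2 4 S)
    (P Q ΦP ΦQ : Subgroup S) [P.Normal] [Q.Normal] [ΦP.Normal] [ΦQ.Normal]
    (hPQ : P ⊓ Q = ⊥) (hcomm : ∀ u ∈ P, ∀ v ∈ Q, u * v = v * u)
    (hΦP : ΦP ≤ P) (hΦQ : ΦQ ≤ Q)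
    (hsqP : ∀ u ∈ P, u ^ 2 ∈ ΦP) (hsqQ : ∀ v ∈ Q, v ^ 2 ∈ ΦQ)
    (x1 x2 y1 y2 : S) (hx1 : x1 ∈ P) (hx2 : x2 ∈ P) (hy1 : y1 ∈ Q) (hy2 : y2 ∈ Q)
    (hx1' : x1 ∉ ΦP) (hx2' : x2 ∉ ΦP) (hx12 : x1 * x2 ∉ ΦP)
    (hy1' : y1 ∉ ΦQ) (hy2' : y2 ∉ ΦQ) (hy12 : y1 * y2 ∉ ΦQ)
    (c : S) (hc : ∀ w ∈ P ⊔ Q, w * c = c * w) (hcn : c ∉ P ⊔ Q) (hc2 : c ^ 2 ∈ ΦP ⊔ ΦQ) :
    False := by
  classical
  have hK := split_mem P Q ΦP ΦQ hPQ hΦP hΦQ
  have hN0le : ΦP ⊔ ΦQ ≤ P ⊔ Q := sup_le_sup hΦP hΦQ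
  have hrT : PRankLE 2 4 (S ⧸ (ΦP ⊔ ΦQ)) := prank_self (sectional_quot hr (ΦP ⊔ ΦQ))
  obtain ⟨π, hπ⟩ : ∃ π : S →* S ⧸ (ΦP ⊔ ΦQ), π = QuotientGroup.mk' (ΦP ⊔ ΦQ) := ⟨_, rfl⟩
  have hπsurj : Function.Surjective π := by rw [hπ]; exact QuotientGroup.mk'_surjective _
  have hπ1 : ∀ s : S, π s = 1 ↔ s ∈ ΦP ⊔ ΦQ := by
    intro s; rw [hπ]; exact QuotientGroup.eq_one_iff s
  have hπeq : ∀ s t : S, π s = π t → s⁻¹ * t ∈ ΦP ⊔ ΦQ := by
    intro s t hst
    rw [← hπ1, map_mul, map_inv, hst, inv_mul_cancel]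
  have hdec : ∀ w ∈ P ⊔ Q, ∃ u ∈ P, ∃ v ∈ Q, u * v = w := by
    intro w hw
    have hw' : w ∈ ((P ⊔ Q : Subgroup S) : Set S) := hw
    rw [Subgroup.mul_normal] at hw'
    exact Set.mem_mul.mp hw'
  have hsq : ∀ w ∈ P ⊔ Q, π w ^ 2 = 1 := by
    intro w hw
    obtain ⟨u, hu, v, hv, rfl⟩ := hdec w hw
    rw [← map_pow, hπ1, (show Commute u v from hcomm u hu v hv).mul_pow]
    exact Subgroup.mul_mem _ (Subgroup.mem_sup_left (hsqP u hu))
      (Subgroup.mem_sup_right (hsqQ v hv))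
  have hcsq : π c ^ 2 = 1 := by rw [← map_pow, hπ1]; exact hc2
  obtain ⟨K, hKdef⟩ : ∃ K : Set (S ⧸ (ΦP ⊔ ΦQ)),
      K = (((P ⊔ Q).map π : Subgroup (S ⧸ (ΦP ⊔ ΦQ))) : Set (S ⧸ (ΦP ⊔ ΦQ))) ∪ {π c} :=
    ⟨_, rfl⟩
  have hgen2 : ∀ g ∈ K, g ^ 2 = 1 := by
    intro g hg
    rw [hKdef] at hg
    rcases hg with hg | hg
    · obtain ⟨w, hw, rfl⟩ := Subgroup.mem_map.mp hg
      exact hsq w hw
    · rw [Set.mem_singleton_iff] at hg
      rw [hg]; exact hcsq
  have hcommA : ∀ a ∈ (P ⊔ Q).map π, ∀ b ∈ (P ⊔ Q).map π, a * b = b * a := by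
    intro a ha b hb
    obtain ⟨w, hw, rfl⟩ := Subgroup.mem_map.mp ha
    obtain ⟨w', hw', rfl⟩ := Subgroup.mem_map.mp hb
    have h1 := hsq w hw
    have h2 := hsq w' hw'
    have h3 := hsq (w * w') (Subgroup.mul_mem _ hw hw')
    rw [map_mul] at h3
    rw [pow_two] at h1 h2 h3
    exact comm_of_sq _ _ h1 h2 h3
  have hcommc : ∀ a ∈ (P ⊔ Q).map π, a * π c = π c * a := by
    intro a ha
    obtain ⟨w, hw, rfl⟩ := Subgroup.mem_map.mp ha
    rw [← map_mul, ← map_mul, hc w hw]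
  have hcomm3 : ∀ p ∈ K, ∀ q ∈ K, p * q = q * p := by
    intro p hp q hq
    rw [hKdef] at hp hq
    rcases hp with hp | hp <;> rcases hq with hq | hq
    · exact hcommA p hp q hq
    · rw [Set.mem_singleton_iff] at hq; rw [hq]; exact hcommc p hp
    · rw [Set.mem_singleton_iff] at hp; rw [hp]; exact (hcommc q hq).symm
    · rw [Set.mem_singleton_iff] at hp hq; rw [hp, hq]
  have hEc : IsMulCommutative ↥(Subgroup.closure K) := Subgroup.isMulCommutative_closure hcomm3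
  have hEe : ∀ w ∈ Subgroup.closure K, w ^ 2 = 1 := by
    intro w hw
    induction hw using Subgroup.closure_induction with
    | mem w hw => exact hgen2 w hw
    | one => exact one_pow 2
    | mul p q hp hq ihp ihq =>
      have hpq : p * q = q * p :=
        congrArg Subtype.val ((isMulCommutative_iff.mp hEc) ⟨p, hp⟩ ⟨q, hq⟩)
      rw [(show Commute p q from hpq).mul_pow, ihp, ihq, one_mul]
    | inv p hp ihp => rw [inv_pow, ihp, inv_one]
  have h16 : Nat.card ↥(Subgroup.closure K) ≤ 2 ^ 4 := hrT _ hEc hEe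
  have hAE : (P ⊔ Q).map π ≤ Subgroup.closure K := by
    intro g hg
    exact Subgroup.subset_closure (by rw [hKdef]; exact Or.inl hg)
  have hcE : π c ∈ Subgroup.closure K :=
    Subgroup.subset_closure (by rw [hKdef]; exact Or.inr rfl)
  have hx1N : π x1 ≠ 1 := by
    intro h
    rw [hπ1] at h
    exact hx1' (hK x1 1 hx1 (Subgroup.one_mem _) (by rw [mul_one]; exact h)).1
  have hx1sq : π x1 ^ 2 = 1 := hsq x1 (Subgroup.mem_sup_left hx1)
  have hy1sq : π y1 ^ 2 = 1 := hsq y1 (Subgroup.mem_sup_right hy1)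
  have hstep1 : 2 * Nat.card ↥(⊥ : Subgroup (S ⧸ (ΦP ⊔ ΦQ))) ≤
      Nat.card ↥(Subgroup.zpowers (π x1)) :=
    card_double _ _ bot_le (π x1) (Subgroup.mem_zpowers _)
      (by rw [Subgroup.mem_bot]; exact hx1N)
  have hstep2 : 2 * Nat.card ↥(Subgroup.zpowers (π x1)) ≤ Nat.card ↥(P.map π) := by
    refine card_double _ _ ?_ (π x2) (Subgroup.mem_map_of_mem π hx2) ?_
    · rw [Subgroup.zpowers_le]; exact Subgroup.mem_map_of_mem π hx1
    · intro h
      rcases mem_zpowers_invol (π x1) hx1sq (π x2) h with h' | h'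
      · rw [hπ1] at h'
        exact hx2' (hK x2 1 hx2 (Subgroup.one_mem _) (by rw [mul_one]; exact h')).1
      · have h'' := hπeq x1 x2 h'.symm
        have h3 := (hK (x1⁻¹ * x2) 1 (Subgroup.mul_mem _ (Subgroup.inv_mem _ hx1) hx2)
          (Subgroup.one_mem _) (by rw [mul_one]; exact h'')).1
        apply hx12
        have hx : x1 * x2 = x1 ^ 2 * (x1⁻¹ * x2) := by rw [pow_two]; group
        rw [hx]
        exact Subgroup.mul_mem _ (hsqP x1 hx1) h3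
  have hstep3 : 2 * Nat.card ↥(P.map π) ≤
      Nat.card ↥(Subgroup.zpowers (π y1) ⊔ P.map π) := by
    refine card_double _ _ le_sup_right (π y1)
      (Subgroup.mem_sup_left (Subgroup.mem_zpowers _)) ?_
    intro h
    obtain ⟨u, hu, huy⟩ := Subgroup.mem_map.mp h
    have h'' := hπeq u y1 huy
    exact hy1' (hK u⁻¹ y1 (Subgroup.inv_mem _ hu) hy1 h'').2
  haveI hPmapN : (P.map π).Normal := Subgroup.Normal.map inferInstance π hπsurj
  have hstep4 : 2 * Nat.card ↥(Subgroup.zpowers (π y1) ⊔ P.map π) ≤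
      Nat.card ↥((P ⊔ Q).map π) := by
    refine card_double _ _ ?_ (π y2) (Subgroup.mem_map_of_mem π (Subgroup.mem_sup_right hy2)) ?_
    · refine sup_le ?_ (Subgroup.map_mono le_sup_left)
      rw [Subgroup.zpowers_le]; exact Subgroup.mem_map_of_mem π (Subgroup.mem_sup_right hy1)
    · intro h
      have h' : π y2 ∈ ((Subgroup.zpowers (π y1) ⊔ P.map π : Subgroup (S ⧸ (ΦP ⊔ ΦQ))) :
          Set (S ⧸ (ΦP ⊔ ΦQ))) := h
      rw [Subgroup.mul_normal] at h'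
      obtain ⟨w, hw, g, hg, hwg⟩ := Set.mem_mul.mp h'
      obtain ⟨u, hu, rfl⟩ := Subgroup.mem_map.mp hg
      rcases mem_zpowers_invol (π y1) hy1sq w hw with hw1 | hw1
      · rw [hw1, one_mul] at hwg
        have h'' := hπeq u y2 hwg
        exact hy2' (hK u⁻¹ y2 (Subgroup.inv_mem _ hu) hy2 h'').2
      · rw [hw1, ← map_mul] at hwg
        have h'' := hπeq (y1 * u) y2 hwg
        have h3 : u⁻¹ * (y1⁻¹ * y2) ∈ ΦP ⊔ ΦQ := by
          have he : u⁻¹ * (y1⁻¹ * y2) = (y1 * u)⁻¹ * y2 := by group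
          rw [he]; exact h''
        have h4 := (hK u⁻¹ (y1⁻¹ * y2) (Subgroup.inv_mem _ hu)
          (Subgroup.mul_mem _ (Subgroup.inv_mem _ hy1) hy2) h3).2
        apply hy12
        have hy : y1 * y2 = y1 ^ 2 * (y1⁻¹ * y2) := by rw [pow_two]; group
        rw [hy]
        exact Subgroup.mul_mem _ (hsqQ y1 hy1) h4
  have hstep5 : 2 * Nat.card ↥((P ⊔ Q).map π) ≤ Nat.card ↥(Subgroup.closure K) := by
    refine card_double _ _ hAE (π c) hcE ?_
    intro h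
    obtain ⟨w, hw, hwc⟩ := Subgroup.mem_map.mp h
    have h'' := hπeq w c hwc
    apply hcn
    have he : c = w * (w⁻¹ * c) := by group
    rw [he]
    exact Subgroup.mul_mem _ hw (hN0le h'')
  rw [Subgroup.card_bot] at hstep1
  norm_num at h16
  omega

theorem exists_sq_mem {S : Type u} [Group S] (H : Subgroup S) :
    ∀ (k : ℕ) (c0 : S), c0 ^ (2 ^ k) = 1 → c0 ∉ H →
      ∃ m : ℕ, c0 ^ m ∉ H ∧ (c0 ^ m) ^ 2 ∈ H := by
  intro k
  induction k with
  | zero =>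
    intro c0 h0 hc0
    exfalso
    apply hc0
    rw [pow_zero, pow_one] at h0
    rw [h0]; exact Subgroup.one_mem _
  | succ k ih =>
    intro c0 h0 hc0
    by_cases h : c0 ^ 2 ∈ H
    · exact ⟨1, by rw [pow_one]; exact hc0, by rw [pow_one]; exact h⟩
    · have h0' : (c0 ^ 2) ^ (2 ^ k) = 1 := by rw [← pow_mul, ← pow_succ']; exact h0
      obtain ⟨m, hm1, hm2⟩ := ih (c0 ^ 2) h0' h
      refine ⟨2 * m, ?_, ?_⟩
      · rw [pow_mul]; exact hm1
      · rw [pow_mul]; exact hm2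

theorem main {S : Type u} [Group S] [Finite S] (h2 : IsPGroup 2 S)
    (hr : SectionalPRankLE 2 4 S) (P Q : Subgroup S) [hPn : P.Normal] [hQn : Q.Normal]
    (hP : ¬ IsMulCommutative ↥P) (hQ : ¬ IsMulCommutative ↥Q)
    (hZP : Nat.card ↥(Subgroup.center ↥P) = 2) (hZQ : Nat.card ↥(Subgroup.center ↥Q) = 2)
    (hne : (Subgroup.center ↥P).map P.subtype ≠ (Subgroup.center ↥Q).map Q.subtype) :
    ⁅P, Q⁆ = ⊥ ∧ P ⊓ Q = ⊥ ∧ Subgroup.centralizer ((P ⊔ Q : Subgroup S) : Set S) ≤ P ⊔ Q := by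
  haveI : Fact (Nat.Prime 2) := ⟨Nat.prime_two⟩
  obtain ⟨z1, hz1P, hz1ne, hz1sq, hz1c, hz1cls, hz1map⟩ := center_two P hZP
  obtain ⟨z2, hz2Q, hz2ne, hz2sq, hz2c, hz2cls, hz2map⟩ := center_two Q hZQ
  have hz12 : z1 ≠ z2 := by
    intro h
    apply hne
    ext w
    rw [hz1map w, hz2map w, h]
  have hPQ : P ⊓ Q = ⊥ := by
    by_contra hcon
    obtain ⟨v, hv, hvc, hv1⟩ := Cfsg.Agent.Helper24.pgroup_normal_inf_center h2 (P ⊓ Q) hcon
    have hvS : ∀ s : S, s * v = v * s := fun s => Subgroup.mem_center_iff.mp hvc s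
    rcases hz1cls v (Subgroup.mem_inf.mp hv).1 (fun x _ => hvS x) with h | h
    · exact hv1 h
    · rcases hz2cls v (Subgroup.mem_inf.mp hv).2 (fun x _ => hvS x) with h' | h'
      · exact hv1 h'
      · exact hz12 (h.symm.trans h')
  have hcomm0 : ⁅P, Q⁆ = ⊥ := by
    rw [eq_bot_iff, ← hPQ]
    exact Subgroup.commutator_le_inf P Q
  have hcomm : ∀ u ∈ P, ∀ v ∈ Q, u * v = v * u := by
    intro u hu v hv
    have hm : ⁅u, v⁆ ∈ ⁅P, Q⁆ := Subgroup.commutator_mem_commutator hu hv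
    rw [hcomm0, Subgroup.mem_bot] at hm
    exact (commutatorElement_eq_one_iff_commute.mp hm).eq
  refine ⟨hcomm0, hPQ, ?_⟩
  obtain ⟨ΦP, hΦPn, hΦP, hΦPne, hsqP, x1, hx1, x2, hx2, hx1', hx2', hx12⟩ := frat_data h2 P hP
  obtain ⟨ΦQ, hΦQn, hΦQ, hΦQne, hsqQ, y1, hy1, y2, hy2, hy1', hy2', hy12⟩ := frat_data h2 Q hQ
  haveI := hΦPn
  haveI := hΦQn
  have hz1Φ : z1 ∈ ΦP := by
    obtain ⟨v, hv, hvc, hv1⟩ := Cfsg.Agent.Helper24.pgroup_normal_inf_center h2 ΦP hΦPne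
    have hvS : ∀ s : S, s * v = v * s := fun s => Subgroup.mem_center_iff.mp hvc s
    rcases hz1cls v (hΦP hv) (fun x _ => hvS x) with h | h
    · exact absurd h hv1
    · rw [← h]; exact hv
  have hz2Φ : z2 ∈ ΦQ := by
    obtain ⟨v, hv, hvc, hv1⟩ := Cfsg.Agent.Helper24.pgroup_normal_inf_center h2 ΦQ hΦQne
    have hvS : ∀ s : S, s * v = v * s := fun s => Subgroup.mem_center_iff.mp hvc s
    rcases hz2cls v (hΦQ hv) (fun x _ => hvS x) with h | h
    · exact absurd h hv1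
    · rw [← h]; exact hv
  intro c0 hc0
  by_contra hc0n
  obtain ⟨k, hk⟩ := h2 c0
  obtain ⟨m, hm1, hm2⟩ := exists_sq_mem (P ⊔ Q) k c0 hk hc0n
  have hcm : c0 ^ m ∈ Subgroup.centralizer ((P ⊔ Q : Subgroup S) : Set S) :=
    Subgroup.pow_mem _ hc0 m
  have hc : ∀ w ∈ P ⊔ Q, w * c0 ^ m = c0 ^ m * w := fun w hw =>
    Subgroup.mem_centralizer_iff.mp hcm w hw
  have hm2' : (c0 ^ m) ^ 2 ∈ ((P ⊔ Q : Subgroup S) : Set S) := hm2
  rw [Subgroup.mul_normal] at hm2'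
  obtain ⟨x, hx, y, hy, hxy⟩ := Set.mem_mul.mp hm2'
  have hc2 : ∀ w ∈ P ⊔ Q, w * (c0 ^ m) ^ 2 = (c0 ^ m) ^ 2 * w := fun w hw =>
    (show Commute w (c0 ^ m) from hc w hw).pow_right 2
  have hxc : ∀ u ∈ P, u * x = x * u := by
    intro u hu
    have h1 := hc2 u (Subgroup.mem_sup_left hu)
    rw [← hxy] at h1
    have h3 := hcomm u hu y hy
    calc u * x = u * (x * y) * y⁻¹ := by group
      _ = x * y * u * y⁻¹ := by rw [h1]
      _ = x * (y * u) * y⁻¹ := by group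
      _ = x * (u * y) * y⁻¹ := by rw [h3]
      _ = x * u := by group
  have hyc : ∀ v ∈ Q, v * y = y * v := by
    intro v hv
    have h1 := hc2 v (Subgroup.mem_sup_right hv)
    rw [← hxy] at h1
    have h3 := hcomm x hx v hv
    calc v * y = x⁻¹ * (x * v) * y := by group
      _ = x⁻¹ * (v * x) * y := by rw [h3]
      _ = x⁻¹ * (v * (x * y)) := by group
      _ = x⁻¹ * (x * y * v) := by rw [h1]
      _ = y * v := by group
  have hxΦ : x ∈ ΦP := by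
    rcases hz1cls x hx hxc with h | h
    · rw [h]; exact Subgroup.one_mem _
    · rw [h]; exact hz1Φ
  have hyΦ : y ∈ ΦQ := by
    rcases hz2cls y hy hyc with h | h
    · rw [h]; exact Subgroup.one_mem _
    · rw [h]; exact hz2Φ
  have hc2Φ : (c0 ^ m) ^ 2 ∈ ΦP ⊔ ΦQ := by
    rw [← hxy]
    exact Subgroup.mul_mem _ (Subgroup.mem_sup_left hxΦ) (Subgroup.mem_sup_right hyΦ)
  exact big_section hr P Q ΦP ΦQ hPQ hcomm hΦP hΦQ hsqP hsqQ x1 x2 y1 y2 hx1 hx2 hy1 hy2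
    hx1' hx2' hx12 hy1' hy2' hy12 (c0 ^ m) hc hm1 hc2Φ

end Cfsg.Agent.Helper20.SecRank4
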