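import Mathlib
import Cfsg.Agent.Helper20.SecRank
import Cfsg.Agent.Helper20.SecRank4
import Cfsg.Agent.Helper24.PNormalCenter

set_option autoImplicit false

open Cfsg
open scoped commutatorElement

universe u

namespace Cfsg.Agent.Helper20.SecRank5

open Cfsg.Agent.Helper20.SecRank Cfsg.Agent.Helper20.SecRank4

/-- structure of a centre of order two (no normality assumption). -/
theorem center_two' {S : Type u} [Group S] (P : Subgroup S)
    (hZP : Nat.card ↥(Subgroup.center ↥P) = 2) :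
    ∃ z : S, z ∈ P ∧ z ≠ 1 ∧ (∀ x ∈ P, x * z = z * x) ∧
      (∀ u ∈ P, (∀ x ∈ P, x * u = u * x) → u = 1 ∨ u = z) ∧
      (∀ w : S, w ∈ (Subgroup.center ↥P).map P.subtype ↔ (w = 1 ∨ w = z)) := by
  obtain ⟨z0, hz0, huniq⟩ := (Nat.card_eq_two_iff' (1 : ↥(Subgroup.center ↥P))).mp hZP
  obtain ⟨z, hz⟩ : ∃ z : S, z = z0.1.1 := ⟨_, rfl⟩
  have hzP : z ∈ P := by rw [hz]; exact z0.1.2
  have hz1 : z ≠ 1 := by
    intro h
    apply hz0
    apply Subtype.ext
    apply Subtype.ext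
    rw [← hz]
    exact h
  have hcP : ∀ x ∈ P, x * z = z * x := by
    intro x hx
    rw [hz]
    exact congrArg Subtype.val (Subgroup.mem_center_iff.mp z0.2 ⟨x, hx⟩)
  have hcls : ∀ u ∈ P, (∀ x ∈ P, x * u = u * x) → u = 1 ∨ u = z := by
    intro u hu hc
    have hmem : (⟨u, hu⟩ : ↥P) ∈ Subgroup.center ↥P := by
      rw [Subgroup.mem_center_iff]
      intro g
      apply Subtype.ext
      exact hc g.1 g.2
    by_cases h1 : u = 1
    · left; exact h1
    · right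
      have hne1 : (⟨⟨u, hu⟩, hmem⟩ : ↥(Subgroup.center ↥P)) ≠ 1 := by
        intro h
        apply h1
        exact congrArg (fun w : ↥(Subgroup.center ↥P) => w.1.1) h
      have h2 := huniq _ hne1
      rw [hz]
      exact congrArg (fun w : ↥(Subgroup.center ↥P) => w.1.1) h2
  refine ⟨z, hzP, hz1, hcP, hcls, ?_⟩
  intro w
  constructor
  · intro hw
    obtain ⟨a, ha, rfl⟩ := Subgroup.mem_map.mp hw
    apply hcls _ a.2
    intro x hx
    exact congrArg Subtype.val (Subgroup.mem_center_iff.mp ha ⟨x, hx⟩)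
  · rintro (h | h)
    · rw [h]; exact Subgroup.one_mem _
    · rw [h, hz]; exact Subgroup.mem_map.mpr ⟨z0.1, z0.2, rfl⟩

theorem sectional_sub {p k : ℕ} {S : Type u} [Group S] (hS : SectionalPRankLE p k S)
    (H : Subgroup S) : SectionalPRankLE p k ↥H := by
  intro H' N' hN'
  obtain ⟨e⟩ : Nonempty (↥H' ≃* ↥(H'.map H.subtype)) :=
    ⟨Subgroup.equivMapOfInjective H' H.subtype H.subtype_injective⟩
  refine prank_of_surj hS (H'.map H.subtype)
    ((QuotientGroup.mk' N').comp e.symm.toMonoidHom) ?_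
  rw [MonoidHom.coe_comp]
  exact (QuotientGroup.mk'_surjective N').comp e.symm.surjective

/-- version of `SecRank4.main` with the centre data given explicitly. -/
theorem main' {S : Type u} [Group S] [Finite S] (h2 : IsPGroup 2 S)
    (hr : SectionalPRankLE 2 4 S) (P Q : Subgroup S) [hPn : P.Normal] [hQn : Q.Normal]
    (hP : ¬ IsMulCommutative ↥P) (hQ : ¬ IsMulCommutative ↥Q) (z1 z2 : S)
    (hz1cls : ∀ u ∈ P, (∀ x ∈ P, x * u = u * x) → u = 1 ∨ u = z1)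
    (hz2cls : ∀ u ∈ Q, (∀ x ∈ Q, x * u = u * x) → u = 1 ∨ u = z2) (hz12 : z1 ≠ z2) :
    ⁅P, Q⁆ = ⊥ ∧ P ⊓ Q = ⊥ ∧ Subgroup.centralizer ((P ⊔ Q : Subgroup S) : Set S) ≤ P ⊔ Q := by
  haveI : Fact (Nat.Prime 2) := ⟨Nat.prime_two⟩
  have hPQ : P ⊓ Q = ⊥ := by
    by_contra hcon
    obtain ⟨v, hv, hvc, hv1⟩ := Cfsg.Agent.Helper24.pgroup_normal_inf_center h2 (P ⊓ Q) hcon
    have hvS : ∀ s : S, s * v = v * s := fun s => Subgroup.mem_center_iff.mp hvc s
    rcases hz1cls v (Subgroup.mem_inf.mp hv).1 (fun x _ => hvS x) with h | h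
    · exact hv1 h
    · rcases hz2cls v (Subgroup.mem_inf.mp hv).2 (fun x _ => hvS x) with h' | h'
      · exact hv1 h'
      · exact hz12 (h.symm.trans h')
  have hcomm0 : ⁅P, Q⁆ = ⊥ := by
    rw [eq_bot_iff, ← hPQ]
    exact Subgroup.commutator_le_inf P Q
  have hcomm : ∀ u ∈ P, ∀ v ∈ Q, u * v = v * u := by
    intro u hu v hv
    have hm : ⁅u, v⁆ ∈ ⁅P, Q⁆ := Subgroup.commutator_mem_commutator hu hv
    rw [hcomm0, Subgroup.mem_bot] at hm
    exact (commutatorElement_eq_one_iff_commute.mp hm).eq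
  refine ⟨hcomm0, hPQ, ?_⟩
  obtain ⟨ΦP, hΦPn, hΦP, hΦPne, hsqP, x1, hx1, x2, hx2, hx1', hx2', hx12⟩ := frat_data h2 P hP
  obtain ⟨ΦQ, hΦQn, hΦQ, hΦQne, hsqQ, y1, hy1, y2, hy2, hy1', hy2', hy12⟩ := frat_data h2 Q hQ
  haveI := hΦPn
  haveI := hΦQn
  have hz1Φ : z1 ∈ ΦP := by
    obtain ⟨v, hv, hvc, hv1⟩ := Cfsg.Agent.Helper24.pgroup_normal_inf_center h2 ΦP hΦPne
    have hvS : ∀ s : S, s * v = v * s := fun s => Subgroup.mem_center_iff.mp hvc s
    rcases hz1cls v (hΦP hv) (fun x _ => hvS x) with h | h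
    · exact absurd h hv1
    · rw [← h]; exact hv
  have hz2Φ : z2 ∈ ΦQ := by
    obtain ⟨v, hv, hvc, hv1⟩ := Cfsg.Agent.Helper24.pgroup_normal_inf_center h2 ΦQ hΦQne
    have hvS : ∀ s : S, s * v = v * s := fun s => Subgroup.mem_center_iff.mp hvc s
    rcases hz2cls v (hΦQ hv) (fun x _ => hvS x) with h | h
    · exact absurd h hv1
    · rw [← h]; exact hv
  intro c0 hc0
  by_contra hc0n
  obtain ⟨k, hk⟩ := h2 c0
  obtain ⟨m, hm1, hm2⟩ := exists_sq_mem (P ⊔ Q) k c0 hk hc0n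
  have hcm : c0 ^ m ∈ Subgroup.centralizer ((P ⊔ Q : Subgroup S) : Set S) :=
    Subgroup.pow_mem _ hc0 m
  have hc : ∀ w ∈ P ⊔ Q, w * c0 ^ m = c0 ^ m * w := fun w hw =>
    Subgroup.mem_centralizer_iff.mp hcm w hw
  have hm2' : (c0 ^ m) ^ 2 ∈ ((P ⊔ Q : Subgroup S) : Set S) := hm2
  rw [Subgroup.mul_normal] at hm2'
  obtain ⟨x, hx, y, hy, hxy⟩ := Set.mem_mul.mp hm2'
  have hc2 : ∀ w ∈ P ⊔ Q, w * (c0 ^ m) ^ 2 = (c0 ^ m) ^ 2 * w := fun w hw =>
    (show Commute w (c0 ^ m) from hc w hw).pow_right 2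
  have hxc : ∀ u ∈ P, u * x = x * u := by
    intro u hu
    have h1 := hc2 u (Subgroup.mem_sup_left hu)
    rw [← hxy] at h1
    have h3 := hcomm u hu y hy
    calc u * x = u * (x * y) * y⁻¹ := by group
      _ = x * y * u * y⁻¹ := by rw [h1]
      _ = x * (y * u) * y⁻¹ := by group
      _ = x * (u * y) * y⁻¹ := by rw [h3]
      _ = x * u := by group
  have hyc : ∀ v ∈ Q, v * y = y * v := by
    intro v hv
    have h1 := hc2 v (Subgroup.mem_sup_right hv)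
    rw [← hxy] at h1
    have h3 := hcomm x hx v hv
    calc v * y = x⁻¹ * (x * v) * y := by group
      _ = x⁻¹ * (v * x) * y := by rw [h3]
      _ = x⁻¹ * (v * (x * y)) := by group
      _ = x⁻¹ * (x * y * v) := by rw [h1]
      _ = y * v := by group
  have hxΦ : x ∈ ΦP := by
    rcases hz1cls x hx hxc with h | h
    · rw [h]; exact Subgroup.one_mem _
    · rw [h]; exact hz1Φ
  have hyΦ : y ∈ ΦQ := by
    rcases hz2cls y hy hyc with h | h
    · rw [h]; exact Subgroup.one_mem _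
    · rw [h]; exact hz2Φ
  have hc2Φ : (c0 ^ m) ^ 2 ∈ ΦP ⊔ ΦQ := by
    rw [← hxy]
    exact Subgroup.mul_mem _ (Subgroup.mem_sup_left hxΦ) (Subgroup.mem_sup_right hyΦ)
  exact big_section hr P Q ΦP ΦQ hPQ hcomm hΦP hΦQ hsqP hsqQ x1 x2 y1 y2 hx1 hx2 hy1 hy2
    hx1' hx2' hx12 hy1' hy2' hy12 (c0 ^ m) hc hm1 hc2Φ

/-- relative version: `P`, `Q` normalised by a subgroup `S₀` containing them. -/
theorem rel_main {S : Type u} [Group S] [Finite S] (h2 : IsPGroup 2 S)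
    (hr : SectionalPRankLE 2 4 S) (S₀ P Q : Subgroup S) (hPS : P ≤ S₀) (hQS : Q ≤ S₀)
    (hPn : ∀ s ∈ S₀, ∀ x ∈ P, s * x * s⁻¹ ∈ P) (hQn : ∀ s ∈ S₀, ∀ x ∈ Q, s * x * s⁻¹ ∈ Q)
    (hP : ¬ IsMulCommutative ↥P) (hQ : ¬ IsMulCommutative ↥Q) (z1 z2 : S)
    (hz1S : z1 ∈ S₀) (hz2S : z2 ∈ S₀)
    (hz1cls : ∀ u ∈ P, (∀ x ∈ P, x * u = u * x) → u = 1 ∨ u = z1)
    (hz2cls : ∀ u ∈ Q, (∀ x ∈ Q, x * u = u * x) → u = 1 ∨ u = z2) (hz12 : z1 ≠ z2) :
    P ⊓ Q = ⊥ ∧ (∀ u ∈ P, ∀ v ∈ Q, u * v = v * u) ∧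
      (∀ x ∈ S₀, (∀ u ∈ P, u * x = x * u) → (∀ v ∈ Q, v * x = x * v) →
        ∃ a ∈ P, ∃ b ∈ Q, x = a * b) := by
  haveI hP₀n : (P.subgroupOf S₀).Normal := by
    constructor
    intro n hn g
    rw [Subgroup.mem_subgroupOf] at hn ⊢
    exact hPn g.1 g.2 n.1 hn
  haveI hQ₀n : (Q.subgroupOf S₀).Normal := by
    constructor
    intro n hn g
    rw [Subgroup.mem_subgroupOf] at hn ⊢
    exact hQn g.1 g.2 n.1 hn
  have hP₀ : ¬ IsMulCommutative ↥(P.subgroupOf S₀) := by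
    intro hc
    apply hP
    rw [isMulCommutative_iff]
    intro a b
    have ha : (⟨a.1, hPS a.2⟩ : ↥S₀) ∈ P.subgroupOf S₀ := Subgroup.mem_subgroupOf.mpr a.2
    have hb : (⟨b.1, hPS b.2⟩ : ↥S₀) ∈ P.subgroupOf S₀ := Subgroup.mem_subgroupOf.mpr b.2
    have h := isMulCommutative_iff.mp hc ⟨_, ha⟩ ⟨_, hb⟩
    apply Subtype.ext
    exact congrArg (fun w : ↥(P.subgroupOf S₀) => w.1.1) h
  have hQ₀ : ¬ IsMulCommutative ↥(Q.subgroupOf S₀) := by
    intro hc
    apply hQ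
    rw [isMulCommutative_iff]
    intro a b
    have ha : (⟨a.1, hQS a.2⟩ : ↥S₀) ∈ Q.subgroupOf S₀ := Subgroup.mem_subgroupOf.mpr a.2
    have hb : (⟨b.1, hQS b.2⟩ : ↥S₀) ∈ Q.subgroupOf S₀ := Subgroup.mem_subgroupOf.mpr b.2
    have h := isMulCommutative_iff.mp hc ⟨_, ha⟩ ⟨_, hb⟩
    apply Subtype.ext
    exact congrArg (fun w : ↥(Q.subgroupOf S₀) => w.1.1) h
  have hcls1 : ∀ u ∈ P.subgroupOf S₀, (∀ x ∈ P.subgroupOf S₀, x * u = u * x) →
      u = 1 ∨ u = (⟨z1, hz1S⟩ : ↥S₀) := by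
    intro u hu hc
    rcases hz1cls u.1 (Subgroup.mem_subgroupOf.mp hu)
      (fun x hx => congrArg Subtype.val
        (hc ⟨x, hPS hx⟩ (Subgroup.mem_subgroupOf.mpr hx))) with h | h
    · left; exact Subtype.ext h
    · right; exact Subtype.ext h
  have hcls2 : ∀ u ∈ Q.subgroupOf S₀, (∀ x ∈ Q.subgroupOf S₀, x * u = u * x) →
      u = 1 ∨ u = (⟨z2, hz2S⟩ : ↥S₀) := by
    intro u hu hc
    rcases hz2cls u.1 (Subgroup.mem_subgroupOf.mp hu)
      (fun x hx => congrArg Subtype.val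
        (hc ⟨x, hQS hx⟩ (Subgroup.mem_subgroupOf.mpr hx))) with h | h
    · left; exact Subtype.ext h
    · right; exact Subtype.ext h
  have hz12' : (⟨z1, hz1S⟩ : ↥S₀) ≠ ⟨z2, hz2S⟩ := fun h => hz12 (congrArg Subtype.val h)
  obtain ⟨-, h0PQ, h0C⟩ := main' (h2.to_subgroup S₀) (sectional_sub hr S₀) (P.subgroupOf S₀)
    (Q.subgroupOf S₀) hP₀ hQ₀ _ _ hcls1 hcls2 hz12'
  have hPQ : P ⊓ Q = ⊥ := by
    rw [eq_bot_iff]
    intro w hw
    have hw' := Subgroup.mem_inf.mp hw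
    have hm : (⟨w, hPS hw'.1⟩ : ↥S₀) ∈ P.subgroupOf S₀ ⊓ Q.subgroupOf S₀ :=
      Subgroup.mem_inf.mpr
        ⟨Subgroup.mem_subgroupOf.mpr hw'.1, Subgroup.mem_subgroupOf.mpr hw'.2⟩
    rw [h0PQ, Subgroup.mem_bot] at hm
    rw [Subgroup.mem_bot]
    exact congrArg Subtype.val hm
  refine ⟨hPQ, ?_, ?_⟩
  · intro u hu v hv
    have hwP : u * v * u⁻¹ * v⁻¹ ∈ P := by
      have h1 := hPn v (hQS hv) u⁻¹ (Subgroup.inv_mem _ hu)
      have h2' := Subgroup.mul_mem _ hu h1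
      have e : u * (v * u⁻¹ * v⁻¹) = u * v * u⁻¹ * v⁻¹ := by group
      rw [e] at h2'; exact h2'
    have hwQ : u * v * u⁻¹ * v⁻¹ ∈ Q :=
      Subgroup.mul_mem _ (hQn u (hPS hu) v hv) (Subgroup.inv_mem _ hv)
    have hw : u * v * u⁻¹ * v⁻¹ ∈ P ⊓ Q := Subgroup.mem_inf.mpr ⟨hwP, hwQ⟩
    rw [hPQ, Subgroup.mem_bot] at hw
    have h3 : u * v * u⁻¹ = v := mul_inv_eq_one.mp hw
    exact mul_inv_eq_iff_eq_mul.mp h3
  · intro x hx hxP hxQ
    have hle : P.subgroupOf S₀ ⊔ Q.subgroupOf S₀ ≤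
        Subgroup.centralizer ({(⟨x, hx⟩ : ↥S₀)} : Set ↥S₀) := by
      refine sup_le ?_ ?_
      · intro a ha
        rw [Subgroup.mem_centralizer_iff]
        intro y hy
        rw [Set.mem_singleton_iff] at hy
        rw [hy]
        apply Subtype.ext
        exact (hxP a.1 (Subgroup.mem_subgroupOf.mp ha)).symm
      · intro a ha
        rw [Subgroup.mem_centralizer_iff]
        intro y hy
        rw [Set.mem_singleton_iff] at hy
        rw [hy]
        apply Subtype.ext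
        exact (hxQ a.1 (Subgroup.mem_subgroupOf.mp ha)).symm
    have hx0 : (⟨x, hx⟩ : ↥S₀) ∈ Subgroup.centralizer
        ((P.subgroupOf S₀ ⊔ Q.subgroupOf S₀ : Subgroup ↥S₀) : Set ↥S₀) := by
      rw [Subgroup.mem_centralizer_iff]
      intro h hh
      exact (Subgroup.mem_centralizer_iff.mp (hle hh) _ (Set.mem_singleton _)).symm
    have hx1 : (⟨x, hx⟩ : ↥S₀) ∈
        ((P.subgroupOf S₀ ⊔ Q.subgroupOf S₀ : Subgroup ↥S₀) : Set ↥S₀) := h0C hx0
    rw [Subgroup.mul_normal] at hx1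
    obtain ⟨a, ha, b, hb, hab⟩ := Set.mem_mul.mp hx1
    exact ⟨a.1, Subgroup.mem_subgroupOf.mp ha, b.1, Subgroup.mem_subgroupOf.mp hb,
      (congrArg Subtype.val hab).symm⟩

/-- two commuting, trivially intersecting copies of `P` force sectional rank at most 2. -/
theorem sec_rank_two {S : Type u} [Group S] (hr : SectionalPRankLE 2 4 S) (P P' : Subgroup S)
    (hPP' : P ⊓ P' = ⊥) (hcomm : ∀ u ∈ P, ∀ v ∈ P', u * v = v * u) (s : S)
    (hs : ∀ g ∈ P, s * g * s⁻¹ ∈ P') : SectionalPRankLE 2 2 ↥P := by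
  intro H N hN A hAc hAe
  obtain ⟨f1, hf1⟩ : ∃ f1 : ↥H →* S, ∀ h : ↥H, f1 h = h.1.1 :=
    ⟨P.subtype.comp H.subtype, fun h => rfl⟩
  obtain ⟨f2, hf2⟩ : ∃ f2 : ↥H →* S, ∀ h : ↥H, f2 h = s * h.1.1 * s⁻¹ :=
    ⟨(MulAut.conj s).toMonoidHom.comp (P.subtype.comp H.subtype), fun h => rfl⟩
  have hf1P : ∀ h : ↥H, f1 h ∈ P := fun h => by rw [hf1]; exact h.1.2
  have hf2P : ∀ h : ↥H, f2 h ∈ P' := fun h => by rw [hf2]; exact hs _ h.1.2
  have hc : ∀ m n : ↥H, Commute (f1 m) (f2 n) := fun m n => hcomm _ (hf1P m) _ (hf2P n)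
  have hφ : Function.Injective (MonoidHom.noncommCoprod f1 f2 hc) := by
    rw [injective_iff_map_eq_one]
    intro ab hab
    have hab' : f1 ab.1 * f2 ab.2 = 1 := hab
    have h1 : f1 ab.1 = (f2 ab.2)⁻¹ := eq_inv_of_mul_eq_one_left hab'
    have hm : f1 ab.1 ∈ P ⊓ P' :=
      Subgroup.mem_inf.mpr ⟨hf1P _, by rw [h1]; exact Subgroup.inv_mem _ (hf2P _)⟩
    rw [hPP', Subgroup.mem_bot] at hm
    have hm2 : f2 ab.2 = 1 := by rw [hm, one_mul] at hab'; exact hab'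
    rw [hf1] at hm
    rw [hf2] at hm2
    have hb1 : ab.2.1.1 = 1 := by
      calc ab.2.1.1 = s⁻¹ * (s * ab.2.1.1 * s⁻¹) * s := by group
        _ = 1 := by rw [hm2]; group
    apply Prod.ext
    · apply Subtype.ext; apply Subtype.ext; exact hm
    · apply Subtype.ext; apply Subtype.ext; exact hb1
  obtain ⟨e⟩ : Nonempty (↥H × ↥H ≃* ↥(MonoidHom.noncommCoprod f1 f2 hc).range) :=
    ⟨MonoidHom.ofInjective hφ⟩
  have hF : Function.Surjective (((QuotientGroup.mk' N).prodMap (QuotientGroup.mk' N)).comp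
      e.symm.toMonoidHom) := by
    rw [MonoidHom.coe_comp]
    refine Function.Surjective.comp ?_ e.symm.surjective
    rw [MonoidHom.coe_prodMap]
    exact (QuotientGroup.mk'_surjective N).prodMap (QuotientGroup.mk'_surjective N)
  have hpr : PRankLE 2 4 ((↥H ⧸ N) × (↥H ⧸ N)) :=
    prank_of_surj hr (MonoidHom.noncommCoprod f1 f2 hc).range _ hF
  have hBc : IsMulCommutative ↥(A.prod A) := by
    rw [isMulCommutative_iff]
    intro x y
    have hx := Subgroup.mem_prod.mp x.2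
    have hy := Subgroup.mem_prod.mp y.2
    apply Subtype.ext
    apply Prod.ext
    · exact congrArg Subtype.val (isMulCommutative_iff.mp hAc ⟨_, hx.1⟩ ⟨_, hy.1⟩)
    · exact congrArg Subtype.val (isMulCommutative_iff.mp hAc ⟨_, hx.2⟩ ⟨_, hy.2⟩)
  have hBe : ∀ w ∈ A.prod A, w ^ 2 = 1 := by
    intro w hw
    have hw' := Subgroup.mem_prod.mp hw
    apply Prod.ext
    · exact hAe _ hw'.1
    · exact hAe _ hw'.2
  have h16 := hpr (A.prod A) hBc hBe
  have hcard : Nat.card ↥(A.prod A) = Nat.card ↥A * Nat.card ↥A := by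
    rw [Nat.card_congr (Subgroup.prodEquiv A A).toEquiv, Nat.card_prod]
  rw [hcard] at h16
  norm_num at h16 ⊢
  nlinarith

theorem s4401 {S : Type u} [Group S] [Finite S] (h2 : IsPGroup 2 S)
    (hr : SectionalPRankLE 2 4 S) (P : Subgroup S) (hP : ¬ IsMulCommutative ↥P)
    (hZP : Nat.card ↥(Subgroup.center ↥P) = 2) (S₀ : Subgroup S)
    (hS₀ : S₀ = Subgroup.centralizer
      (((Subgroup.center ↥P).map P.subtype : Subgroup S) : Set S))
    (hPn : ∀ s ∈ S₀, ∀ x ∈ P, s * x * s⁻¹ ∈ P) :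
    S₀ = ⊤ ∨ (SectionalPRankLE 2 2 ↥P ∧ S₀.index = 2) := by
  haveI : Fact (Nat.Prime 2) := ⟨Nat.prime_two⟩
  obtain ⟨z, hzP, hz1, hzc, hzcls, hzmap⟩ := center_two' P hZP
  have hmemS₀ : ∀ a : S, a ∈ S₀ ↔ z * a = a * z := by
    intro a
    rw [hS₀, Subgroup.mem_centralizer_iff]
    constructor
    · intro h
      exact h z ((hzmap z).mpr (Or.inr rfl))
    · intro h w hw
      rcases (hzmap w).mp hw with h1 | h1
      · rw [h1, one_mul, mul_one]
      · rw [h1]; exact h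
  by_cases hS₀top : S₀ = ⊤
  · left; exact hS₀top
  right
  have hPS₀ : P ≤ S₀ := by
    intro g hg
    rw [hmemS₀]
    exact (hzc g hg).symm
  have hzS₀ : z ∈ S₀ := hPS₀ hzP
  have hzZ : ∀ a ∈ S₀, z * a = a * z := fun a ha => (hmemS₀ a).mp ha
  haveI hnil : Group.IsNilpotent S := h2.isNilpotent
  have hNC : NormalizerCondition S := Group.normalizerCondition_of_isNilpotent
  have hlt : S₀ < Subgroup.normalizer (S₀ : Set S) := hNC S₀ (lt_top_iff_ne_top.mpr hS₀top)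
  obtain ⟨s0, hs0T, hs0S⟩ := SetLike.exists_of_lt hlt
  obtain ⟨T, hTdef⟩ : ∃ T : Subgroup S, T = Subgroup.normalizer (S₀ : Set S) := ⟨_, rfl⟩
  rw [← hTdef] at hs0T hlt
  have hS₀T : S₀ ≤ T := le_of_lt hlt
  have hN1 : ∀ t ∈ T, ∀ a ∈ S₀, t * a * t⁻¹ ∈ S₀ := by
    intro t ht a ha
    rw [hTdef] at ht
    exact (Subgroup.mem_normalizer_iff.mp ht a).mp ha
  have hN2 : ∀ t ∈ T, ∀ a ∈ S₀, t⁻¹ * a * t ∈ S₀ := by
    intro t ht a ha
    rw [hTdef] at ht
    apply (Subgroup.mem_normalizer_iff.mp ht (t⁻¹ * a * t)).mpr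
    have e : t * (t⁻¹ * a * t) * t⁻¹ = a := by group
    rw [e]; exact ha
  obtain ⟨k, hk⟩ := h2 s0
  obtain ⟨m, hm1, hm2⟩ := exists_sq_mem S₀ k s0 hk hs0S
  obtain ⟨s, hsdef⟩ : ∃ s : S, s = s0 ^ m := ⟨_, rfl⟩
  rw [← hsdef] at hm1 hm2
  have hsT : s ∈ T := by rw [hsdef]; exact Subgroup.pow_mem _ hs0T m
  have hsinv : s⁻¹ ∉ S₀ := fun h => hm1 (by have h' := S₀.inv_mem h; rwa [inv_inv] at h')
  obtain ⟨P', hP'mem⟩ : ∃ P' : Subgroup S, ∀ y, y ∈ P' ↔ ∃ g ∈ P, s * g * s⁻¹ = y :=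
    ⟨P.map (MulAut.conj s).toMonoidHom, fun y => by rw [Subgroup.mem_map]; rfl⟩
  obtain ⟨z', hz'def⟩ : ∃ z' : S, z' = s * z * s⁻¹ := ⟨_, rfl⟩
  have hP'S₀ : P' ≤ S₀ := by
    intro y hy
    obtain ⟨g, hg, rfl⟩ := (hP'mem y).mp hy
    exact hN1 s hsT g (hPS₀ hg)
  have hP'n : ∀ t ∈ S₀, ∀ y ∈ P', t * y * t⁻¹ ∈ P' := by
    intro t ht y hy
    obtain ⟨g, hg, rfl⟩ := (hP'mem y).mp hy
    exact (hP'mem _).mpr ⟨(s⁻¹ * t * s) * g * (s⁻¹ * t * s)⁻¹,
      hPn _ (hN2 s hsT t ht) g hg, by group⟩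
  have hP'nc : ¬ IsMulCommutative ↥P' := by
    intro hc
    apply hP
    rw [isMulCommutative_iff]
    intro a b
    have ha' : s * a.1 * s⁻¹ ∈ P' := (hP'mem _).mpr ⟨a.1, a.2, rfl⟩
    have hb' : s * b.1 * s⁻¹ ∈ P' := (hP'mem _).mpr ⟨b.1, b.2, rfl⟩
    have h : (s * a.1 * s⁻¹) * (s * b.1 * s⁻¹) = (s * b.1 * s⁻¹) * (s * a.1 * s⁻¹) :=
      congrArg Subtype.val (isMulCommutative_iff.mp hc ⟨_, ha'⟩ ⟨_, hb'⟩)
    apply Subtype.ext
    show a.1 * b.1 = b.1 * a.1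
    calc a.1 * b.1 = s⁻¹ * ((s * a.1 * s⁻¹) * (s * b.1 * s⁻¹)) * s := by group
      _ = s⁻¹ * ((s * b.1 * s⁻¹) * (s * a.1 * s⁻¹)) * s := by rw [h]
      _ = b.1 * a.1 := by group
  have hz'cls : ∀ u ∈ P', (∀ x ∈ P', x * u = u * x) → u = 1 ∨ u = z' := by
    intro u hu hc
    obtain ⟨g, hg, rfl⟩ := (hP'mem u).mp hu
    have hgc : ∀ x ∈ P, x * g = g * x := by
      intro x hx
      have h := hc (s * x * s⁻¹) ((hP'mem _).mpr ⟨x, hx, rfl⟩)
      calc x * g = s⁻¹ * ((s * x * s⁻¹) * (s * g * s⁻¹)) * s := by group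
        _ = s⁻¹ * ((s * g * s⁻¹) * (s * x * s⁻¹)) * s := by rw [h]
        _ = g * x := by group
    rcases hzcls g hg hgc with h | h
    · left; rw [h]; group
    · right; rw [h, hz'def]
  have hzz' : z ≠ z' := by
    intro h
    apply hm1
    rw [hmemS₀]
    rw [hz'def] at h
    exact eq_mul_inv_iff_mul_eq.mp h
  have hz'S₀ : z' ∈ S₀ := by rw [hz'def]; exact hN1 s hsT z hzS₀
  obtain ⟨hPP', hcomm, hcent⟩ := rel_main h2 hr S₀ P P' hPS₀ hP'S₀ hPn hP'n hP hP'nc z z'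
    hzS₀ hz'S₀ hzcls hz'cls hzz'
  refine ⟨sec_rank_two hr P P' hPP' hcomm s (fun g hg => (hP'mem _).mpr ⟨g, hg, rfl⟩), ?_⟩
  have hconjZ : ∀ t ∈ T, ∀ a ∈ S₀, (t * z * t⁻¹) * a = a * (t * z * t⁻¹) := by
    intro t ht a ha
    have h := hzZ _ (hN2 t ht a ha)
    calc (t * z * t⁻¹) * a = t * (z * (t⁻¹ * a * t)) * t⁻¹ := by group
      _ = t * ((t⁻¹ * a * t) * z) * t⁻¹ := by rw [h]
      _ = a * (t * z * t⁻¹) := by group
  have hz'Z : ∀ a ∈ S₀, z' * a = a * z' := by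
    intro a ha
    rw [hz'def]; exact hconjZ s hsT a ha
  have hsz' : s * z' * s⁻¹ = z := by
    rw [hz'def]
    have h := hzZ (s ^ 2) hm2
    calc s * (s * z * s⁻¹) * s⁻¹ = (s ^ 2 * z) * (s ^ 2)⁻¹ := by rw [pow_two]; group
      _ = (z * s ^ 2) * (s ^ 2)⁻¹ := by rw [h]
      _ = z := mul_inv_cancel_right z (s ^ 2)
  have hZd : ∀ y ∈ S₀, (∀ g ∈ P, g * y = y * g) → (∀ v ∈ P', v * y = y * v) →
      y = 1 ∨ y = z ∨ y = z' ∨ y = z * z' := by
    intro y hy hyP hyP'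
    obtain ⟨a, ha, b, hb, hab⟩ := hcent y hy hyP hyP'
    have hac : ∀ g ∈ P, g * a = a * g := by
      intro g hg
      have h1 : g * (a * b) = (a * b) * g := by rw [← hab]; exact hyP g hg
      have h2' : g * b = b * g := hcomm g hg b hb
      calc g * a = g * (a * b) * b⁻¹ := by group
        _ = a * b * g * b⁻¹ := by rw [h1]
        _ = a * (b * g) * b⁻¹ := by group
        _ = a * (g * b) * b⁻¹ := by rw [h2']
        _ = a * g := by group
    have hbc : ∀ v ∈ P', v * b = b * v := by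
      intro v hv
      have h1 : v * (a * b) = (a * b) * v := by rw [← hab]; exact hyP' v hv
      have h2' : a * v = v * a := hcomm a ha v hv
      calc v * b = a⁻¹ * (a * v) * b := by group
        _ = a⁻¹ * (v * a) * b := by rw [h2']
        _ = a⁻¹ * (v * (a * b)) := by group
        _ = a⁻¹ * (a * b * v) := by rw [h1]
        _ = b * v := by group
    rcases hzcls a ha hac with h | h <;> rcases hz'cls b hb hbc with h' | h'
    · left; rw [hab, h, h', one_mul]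
    · right; right; left; rw [hab, h, h', one_mul]
    · right; left; rw [hab, h, h', mul_one]
    · right; right; right; rw [hab, h, h']
  have hF0 : ∀ t ∈ T, t ∉ S₀ → t * z * t⁻¹ = z' := by
    intro t ht htS
    have hzt : t * z * t⁻¹ ∈ S₀ := hN1 t ht z hzS₀
    rcases hZd _ hzt (fun g hg => (hconjZ t ht g (hPS₀ hg)).symm)
      (fun v hv => (hconjZ t ht v (hP'S₀ hv)).symm) with h | h | h | h
    · exfalso
      apply hz1
      calc z = t⁻¹ * (t * z * t⁻¹) * t := by group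
        _ = 1 := by rw [h]; group
    · exfalso
      apply htS
      rw [hmemS₀]
      exact (mul_inv_eq_iff_eq_mul.mp h).symm
    · exact h
    · exfalso
      have h1 : s * (t * z * t⁻¹) * s⁻¹ = t * z * t⁻¹ := by
        rw [h]
        calc s * (z * z') * s⁻¹ = (s * z * s⁻¹) * (s * z' * s⁻¹) := by group
          _ = z' * z := by rw [hsz', ← hz'def]
          _ = z * z' := (hzZ z' hz'S₀).symm
      have h1' : (t * z * t⁻¹) * s = s * (t * z * t⁻¹) := (mul_inv_eq_iff_eq_mul.mp h1).symm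
      have h2' : z * (t⁻¹ * s * t) = (t⁻¹ * s * t) * z := by
        calc z * (t⁻¹ * s * t) = t⁻¹ * ((t * z * t⁻¹) * s) * t := by group
          _ = t⁻¹ * (s * (t * z * t⁻¹)) * t := by rw [h1']
          _ = (t⁻¹ * s * t) * z := by group
      have h3 := hN1 t ht _ ((hmemS₀ _).mpr h2')
      have e : t * (t⁻¹ * s * t) * t⁻¹ = s := by group
      rw [e] at h3
      exact hm1 h3
  have hF1 : ∀ a ∈ T, ∀ b ∈ T, a ∉ S₀ → b ∉ S₀ → a⁻¹ * b ∈ S₀ := by
    intro a ha b hb haS hbS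
    rw [hmemS₀]
    have h1 := hF0 a ha haS
    have h2' := hF0 b hb hbS
    calc z * (a⁻¹ * b) = a⁻¹ * (a * z * a⁻¹) * b := by group
      _ = a⁻¹ * (b * z * b⁻¹) * b := by rw [h1, h2']
      _ = (a⁻¹ * b) * z := by group
  have hTtop : T = ⊤ := by
    by_contra hTne
    have hlt2 : T < Subgroup.normalizer (T : Set S) := hNC T (lt_top_iff_ne_top.mpr hTne)
    obtain ⟨u, huN, huT⟩ := SetLike.exists_of_lt hlt2
    have hU1 : ∀ a ∈ T, u * a * u⁻¹ ∈ T := fun a ha =>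
      (Subgroup.mem_normalizer_iff.mp huN a).mp ha
    have hU2 : ∀ a ∈ T, u⁻¹ * a * u ∈ T := by
      intro a ha
      apply (Subgroup.mem_normalizer_iff.mp huN (u⁻¹ * a * u)).mpr
      have e : u * (u⁻¹ * a * u) * u⁻¹ = a := by group
      rw [e]; exact ha
    obtain ⟨x, hxdef⟩ : ∃ x : S, x = u * z * u⁻¹ := ⟨_, rfl⟩
    have hxT : x ∈ T := by rw [hxdef]; exact hU1 z (hS₀T hzS₀)
    have htr : ∀ a : S, u⁻¹ * a * u ∈ S₀ ↔ a * x = x * a := by
      intro a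
      rw [hmemS₀, hxdef]
      constructor
      · intro h
        calc a * (u * z * u⁻¹) = u * ((u⁻¹ * a * u) * z) * u⁻¹ := by group
          _ = u * (z * (u⁻¹ * a * u)) * u⁻¹ := by rw [h]
          _ = (u * z * u⁻¹) * a := by group
      · intro h
        calc z * (u⁻¹ * a * u) = u⁻¹ * ((u * z * u⁻¹) * a) * u := by group
          _ = u⁻¹ * (a * (u * z * u⁻¹)) * u := by rw [h]
          _ = (u⁻¹ * a * u) * z := by group
    have hcos : ∀ a ∈ T, ∀ b ∈ T, ¬ a * x = x * a → ¬ b * x = x * b →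
        (a⁻¹ * b) * x = x * (a⁻¹ * b) := by
      intro a ha b hb hax hbx
      have ha' : u⁻¹ * a * u ∉ S₀ := fun h => hax ((htr a).mp h)
      have hb' : u⁻¹ * b * u ∉ S₀ := fun h => hbx ((htr b).mp h)
      have h := hF1 _ (hU2 a ha) _ (hU2 b hb) ha' hb'
      have e : (u⁻¹ * a * u)⁻¹ * (u⁻¹ * b * u) = u⁻¹ * (a⁻¹ * b) * u := by group
      rw [e] at h
      exact (htr _).mp h
    have hxS₀ : x ∈ S₀ := by
      by_contra hx
      have hc0 : s⁻¹ * x ∈ S₀ := hF1 s hsT x hxT hm1 hx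
      have hxP' : ∀ g ∈ P, x * g * x⁻¹ ∈ P' := by
        intro g hg
        exact (hP'mem _).mpr ⟨(s⁻¹ * x) * g * (s⁻¹ * x)⁻¹, hPn _ hc0 g hg, by group⟩
      have hnc : ∀ g ∈ P, g * x = x * g → g = 1 := by
        intro g hg hgx
        have h1 : x * g * x⁻¹ = g := by rw [← hgx]; group
        have hm : g ∈ P ⊓ P' := Subgroup.mem_inf.mpr ⟨hg, by rw [← h1]; exact hxP' g hg⟩
        rw [hPP', Subgroup.mem_bot] at hm
        exact hm
      obtain ⟨a, b, hab⟩ : ∃ a b : ↥P, a * b ≠ b * a := by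
        by_contra hcon
        push_neg at hcon
        exact hP (isMulCommutative_iff.mpr hcon)
      have ha1 : a.1 ≠ z := by
        intro h
        apply hab
        apply Subtype.ext
        show a.1 * b.1 = b.1 * a.1
        rw [h]; exact (hzc b.1 b.2).symm
      have hzx : ¬ z * x = x * z := fun h => hz1 (hnc z hzP h)
      have hax : ¬ a.1 * x = x * a.1 := by
        intro h
        apply hab
        apply Subtype.ext
        show a.1 * b.1 = b.1 * a.1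
        rw [hnc a.1 a.2 h, one_mul, mul_one]
      have h := hcos z (hS₀T hzS₀) a.1 (hS₀T (hPS₀ a.2)) hzx hax
      have h' := hnc _ (Subgroup.mul_mem _ (Subgroup.inv_mem _ hzP) a.2) h
      exact ha1 (inv_mul_eq_one.mp h').symm
    have hx1 : x ≠ 1 := by
      intro h
      apply hz1
      rw [hxdef] at h
      calc z = u⁻¹ * (u * z * u⁻¹) * u := by group
        _ = 1 := by rw [h]; group
    have hxz : x ≠ z := by
      intro h
      apply huT
      apply hS₀T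
      rw [hmemS₀]
      rw [hxdef] at h
      exact (mul_inv_eq_iff_eq_mul.mp h).symm
    have hxz' : x ≠ z' := by
      intro h
      rw [hxdef, hz'def] at h
      have h1 : z * (s⁻¹ * u) = (s⁻¹ * u) * z := by
        calc z * (s⁻¹ * u) = s⁻¹ * (s * z * s⁻¹) * u := by group
          _ = s⁻¹ * (u * z * u⁻¹) * u := by rw [h]
          _ = (s⁻¹ * u) * z := by group
      apply huT
      have e : u = s * (s⁻¹ * u) := by group
      rw [e]
      exact Subgroup.mul_mem _ hsT (hS₀T ((hmemS₀ _).mpr h1))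
    have hxzz' : x ≠ z * z' := by
      intro h
      have hall : ∀ a ∈ T, a * (z * z') = (z * z') * a := by
        intro a ha
        by_cases haS : a ∈ S₀
        · have e1 := hzZ a haS
          have e2 := hz'Z a haS
          calc a * (z * z') = (a * z) * z' := by group
            _ = (z * a) * z' := by rw [e1]
            _ = z * (a * z') := by group
            _ = z * (z' * a) := by rw [e2]
            _ = z * z' * a := by group
        · have e1 : a * z * a⁻¹ = z' := hF0 a ha haS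
          have haS' : a⁻¹ ∉ S₀ := fun h' =>
            haS (by have h'' := S₀.inv_mem h'; rwa [inv_inv] at h'')
          have e2 : a⁻¹ * z * a⁻¹⁻¹ = z' := hF0 a⁻¹ (Subgroup.inv_mem _ ha) haS'
          rw [inv_inv] at e2
          have e3 : z * z' = z' * z := hzZ z' hz'S₀
          calc a * (z * z') = (a * z * a⁻¹) * a * z' := by group
            _ = z' * a * (a⁻¹ * z * a) := by rw [e1, e2]
            _ = z' * z * a := by group
            _ = z * z' * a := by rw [e3]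
      have hs' : u⁻¹ * (u * s * u⁻¹) * u ∈ S₀ := by
        apply (htr _).mpr
        rw [h]
        exact hall _ (hU1 s hsT)
      have e : u⁻¹ * (u * s * u⁻¹) * u = s := by group
      rw [e] at hs'
      exact hm1 hs'
    have hsinvar : ∀ a ∈ T, a * x = x * a → (s * a * s⁻¹) * x = x * (s * a * s⁻¹) := by
      intro a ha hax
      have hax' : Commute a x := hax
      by_cases hsx : s * x = x * s
      · have hsx' : Commute s x := hsx
        exact ((hsx'.mul_left hax').mul_left hsx'.inv_left).eq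
      · by_contra hcon
        have h := hcos s hsT (s * a * s⁻¹)
          (Subgroup.mul_mem _ (Subgroup.mul_mem _ hsT ha) (Subgroup.inv_mem _ hsT)) hsx hcon
        have e : s⁻¹ * (s * a * s⁻¹) = a * s⁻¹ := by group
        rw [e] at h
        have h' : Commute (a * s⁻¹) x := h
        have h3 : Commute (a⁻¹ * (a * s⁻¹)) x := hax'.inv_left.mul_left h'
        rw [inv_mul_cancel_left] at h3
        have h4 : Commute s x := by
          have h5 := h3.inv_left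
          rwa [inv_inv] at h5
        exact hsx h4.eq
    have hPP'x : (∀ g ∈ P, g * x = x * g) → ∀ v ∈ P', v * x = x * v := by
      intro h v hv
      obtain ⟨g, hg, rfl⟩ := (hP'mem v).mp hv
      exact hsinvar g (hS₀T (hPS₀ hg)) (h g hg)
    have hP'Px : (∀ v ∈ P', v * x = x * v) → ∀ g ∈ P, g * x = x * g := by
      intro h g hg
      have hy : s * g * s⁻¹ ∈ P' := (hP'mem _).mpr ⟨g, hg, rfl⟩
      have hc : (s ^ 2)⁻¹ ∈ S₀ := Subgroup.inv_mem _ hm2
      have hg' : s⁻¹ * g * s ∈ P' := by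
        have h1 := hP'n _ hc _ hy
        have e : (s ^ 2)⁻¹ * (s * g * s⁻¹) * ((s ^ 2)⁻¹)⁻¹ = s⁻¹ * g * s := by
          rw [pow_two]; group
        rw [e] at h1
        exact h1
      have h2' := hsinvar (s⁻¹ * g * s) (hS₀T (hP'S₀ hg')) (h _ hg')
      have e : s * (s⁻¹ * g * s) * s⁻¹ = g := by group
      rw [e] at h2'
      exact h2'
    by_cases hcP : ∀ g ∈ P, g * x = x * g
    · rcases hZd x hxS₀ hcP (hPP'x hcP) with h | h | h | h
      · exact hx1 h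
      · exact hxz h
      · exact hxz' h
      · exact hxzz' h
    · have hnP' : ¬ ∀ v ∈ P', v * x = x * v := fun h => hcP (hP'Px h)
      push_neg at hcP hnP'
      obtain ⟨a, ha, hax⟩ := hcP
      obtain ⟨b, hb, hbx⟩ := hnP'
      have hab := hcos a (hS₀T (hPS₀ ha)) b (hS₀T (hP'S₀ hb)) hax hbx
      have hwP : a * (x * a⁻¹ * x⁻¹) ∈ P :=
        Subgroup.mul_mem _ ha (hPn x hxS₀ a⁻¹ (Subgroup.inv_mem _ ha))
      have hwe : a * (x * a⁻¹ * x⁻¹) = b * (x * b * x⁻¹)⁻¹ := by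
        calc a * (x * a⁻¹ * x⁻¹) = a * (x * (a⁻¹ * b) * x⁻¹) * (x * b * x⁻¹)⁻¹ := by group
          _ = a * ((a⁻¹ * b) * x * x⁻¹) * (x * b * x⁻¹)⁻¹ := by rw [← hab]
          _ = b * (x * b * x⁻¹)⁻¹ := by group
      have hwP' : a * (x * a⁻¹ * x⁻¹) ∈ P' := by
        rw [hwe]
        exact Subgroup.mul_mem _ hb (Subgroup.inv_mem _ (hP'n x hxS₀ b hb))
      have hw : a * (x * a⁻¹ * x⁻¹) ∈ P ⊓ P' := Subgroup.mem_inf.mpr ⟨hwP, hwP'⟩
      rw [hPP', Subgroup.mem_bot] at hw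
      apply hax
      calc a * x = a * (x * a⁻¹ * x⁻¹) * (x * a) := by group
        _ = x * a := by rw [hw, one_mul]
  rw [Subgroup.index_eq_two_iff]
  refine ⟨s⁻¹, fun b => ?_⟩
  by_cases hb : b ∈ S₀
  · refine Or.inr ⟨hb, fun h => hsinv ?_⟩
    have h' := S₀.mul_mem (S₀.inv_mem hb) h
    rwa [inv_mul_cancel_left] at h'
  · refine Or.inl ⟨?_, hb⟩
    have hbT : b⁻¹ ∈ T := by rw [hTtop]; exact Subgroup.mem_top _
    have hsT' : s⁻¹ ∈ T := Subgroup.inv_mem _ hsT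
    have hb' : b⁻¹ ∉ S₀ := fun h' => hb (by have h'' := S₀.inv_mem h'; rwa [inv_inv] at h'')
    have h := hF1 b⁻¹ hbT s⁻¹ hsT' hb' hsinv
    rwa [inv_inv] at h

end Cfsg.Agent.Helper20.SecRank5
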