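import Mathlib
import Cfsg.Prelude.Def_Transfer
import Cfsg.Agent.Helper20.FrobMod
import Cfsg.Agent.Helper20.SolvPG
import Cfsg.Agent.S0144
import Cfsg.Agent.Helper12.Syl

/-!
# Groups whose automorphism group has three orbits: the two cores

`ext_aut` extends an automorphism of a normal subgroup `P` across a cyclic complement of
prime order; `aut_trans` and `forward_core` are the two directions for
`G = P ⋊ ⟨x⟩` with `P` elementary abelian, `x` of prime order acting fixed point freely.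
-/

set_option autoImplicit false
set_option maxHeartbeats 1000000

namespace Cfsg.Agent.Helper20.ThreeOrb

theorem conj_pow_compat {G : Type*} [Group G] (P : Subgroup G) [P.Normal] (x : G)
    (α : ↥P ≃* ↥P) (i : ℕ)
    (hα : ∀ u : ↥P, α (MulAut.conjNormal x u) = MulAut.conjNormal (x ^ i) (α u)) (m : ℕ) :
    ∀ u : ↥P, α (MulAut.conjNormal (x ^ m) u) = MulAut.conjNormal ((x ^ i) ^ m) (α u) := by
  induction m with
  | zero =>
    intro u
    rw [pow_zero, pow_zero, map_one, MulAut.one_apply, MulAut.one_apply]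
  | succ m ih =>
    intro u
    rw [pow_succ, pow_succ, map_mul, map_mul, MulAut.mul_apply, MulAut.mul_apply, ih, hα]

theorem ext_aut {G : Type*} [Group G] [Finite G] (P : Subgroup G) [P.Normal] (x : G) (q : ℕ)
    [Fact q.Prime] (hx : orderOf x = q) (hc : P.IsComplement' (Subgroup.zpowers x))
    (α : ↥P ≃* ↥P) (i : ℕ) (hi : ¬ q ∣ i)
    (hα : ∀ u : ↥P, α (MulAut.conjNormal x u) = MulAut.conjNormal (x ^ i) (α u)) :
    ∃ φ : MulAut G, (∀ u : ↥P, φ (u : G) = α u) ∧ φ x = x ^ i := by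
  classical
  have hxq : x ^ q = 1 := by rw [← hx]; exact pow_orderOf_eq_one x
  have hKcomm : ∀ a b : ↥(Subgroup.zpowers x), Commute (a : G) (b : G) := by
    intro a b
    obtain ⟨m, hm⟩ := Subgroup.mem_zpowers_iff.mp a.2
    obtain ⟨n, hn⟩ := Subgroup.mem_zpowers_iff.mp b.2
    rw [← hm, ← hn]
    exact (Commute.refl x).zpow_zpow m n
  have hKpow : ∀ a : ↥(Subgroup.zpowers x), ∃ m : ℕ, (a : G) = x ^ m := by
    intro a
    have h1 : (a : G) ∈ Submonoid.powers x := mem_powers_iff_mem_zpowers.mpr a.2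
    obtain ⟨m, hm⟩ := (Submonoid.mem_powers_iff _ _).mp h1
    exact ⟨m, hm.symm⟩
  let f₁ : ↥P →* G := P.subtype.comp α.toMonoidHom
  let f₂ : ↥(Subgroup.zpowers x) →* G :=
    { toFun := fun k => (k : G) ^ i
      map_one' := by simp
      map_mul' := fun a b => by
        show ((a * b : ↥(Subgroup.zpowers x)) : G) ^ i = (a : G) ^ i * (b : G) ^ i
        rw [Subgroup.coe_mul, (hKcomm a b).mul_pow] }
  let e := SemidirectProduct.mulEquivSubgroup hc
  have hcompat : ∀ k : ↥(Subgroup.zpowers x),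
      f₁.comp ((((P.normalizerMonoidHom).comp
        (Subgroup.inclusion (P.normalizer_eq_top ▸ le_top))) k)).toMonoidHom =
      (MulAut.conj (f₂ k)).toMonoidHom.comp f₁ := by
    intro k
    obtain ⟨m, hm⟩ := hKpow k
    apply MonoidHom.ext
    intro u
    have h1 := conj_pow_compat P x α i hα m u
    have h2 : ((((P.normalizerMonoidHom).comp
        (Subgroup.inclusion (P.normalizer_eq_top ▸ le_top))) k)) u = MulAut.conjNormal (x ^ m) u := by
      apply Subtype.ext
      rw [MulAut.conjNormal_apply, ← hm]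
      rfl
    show ((α ((((P.normalizerMonoidHom).comp
        (Subgroup.inclusion (P.normalizer_eq_top ▸ le_top))) k) u) : ↥P) : G) =
      (k : G) ^ i * ((α u : ↥P) : G) * ((k : G) ^ i)⁻¹
    rw [h2, h1, MulAut.conjNormal_apply, hm, ← pow_mul, ← pow_mul, mul_comm]
  let ψ := SemidirectProduct.lift f₁ f₂ hcompat
  let φ' : G →* G := ψ.comp e.symm.toMonoidHom
  have hdisj : ∀ g : G, g ∈ P → g ∈ Subgroup.zpowers x → g = 1 := by
    intro g h1 h2
    have := hc.disjoint
    exact Subgroup.disjoint_def.mp this h1 h2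
  have hinj : Function.Injective φ' := by
    rw [injective_iff_map_eq_one]
    intro g hg
    obtain ⟨y, rfl⟩ := e.surjective g
    have h1 : ψ y = 1 := by
      have : φ' (e y) = ψ y := by
        show ψ (e.symm (e y)) = ψ y
        rw [MulEquiv.symm_apply_apply]
      rw [← this]; exact hg
    have h2 : ψ y = ((α y.left : ↥P) : G) * ((y.right : ↥(Subgroup.zpowers x)) : G) ^ i := rfl
    rw [h2] at h1
    have h3 : ((y.right : ↥(Subgroup.zpowers x)) : G) ^ i = (((α y.left)⁻¹ : ↥P) : G) := by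
      rw [Subgroup.coe_inv]
      exact eq_inv_of_mul_eq_one_right h1
    have h4 : ((y.right : ↥(Subgroup.zpowers x)) : G) ^ i = 1 :=
      hdisj _ (by rw [h3]; exact ((α y.left)⁻¹).2) (Subgroup.pow_mem _ y.right.2 i)
    have h5 : ((y.right : ↥(Subgroup.zpowers x)) : G) = 1 := by
      obtain ⟨m, hm⟩ := hKpow y.right
      have h6 : ((y.right : ↥(Subgroup.zpowers x)) : G) ^ q = 1 := by
        rw [hm, ← pow_mul, mul_comm, pow_mul, hxq, one_pow]
      have h7 : orderOf ((y.right : ↥(Subgroup.zpowers x)) : G) ∣ q := orderOf_dvd_of_pow_eq_one h6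
      have h8 : orderOf ((y.right : ↥(Subgroup.zpowers x)) : G) ∣ i := orderOf_dvd_of_pow_eq_one h4
      rcases (Nat.dvd_prime (Fact.out : q.Prime)).mp h7 with h9 | h9
      · exact orderOf_eq_one_iff.mp h9
      · exact absurd (h9 ▸ h8) hi
    rw [h5, one_pow, mul_one] at h1
    have h10 : α y.left = 1 := Subtype.ext h1
    have h11 : y.left = 1 := by
      have := α.injective (h10.trans (map_one α).symm)
      exact this
    have h12 : y = 1 := by
      apply SemidirectProduct.ext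
      · exact h11
      · exact Subtype.ext h5
    rw [h12, map_one]
  have hbij : Function.Bijective φ' := Finite.injective_iff_bijective.mp hinj
  refine ⟨MulEquiv.ofBijective φ' hbij, ?_, ?_⟩
  · intro u
    show ψ (e.symm (u : G)) = _
    have h1 : e.symm (u : G) = SemidirectProduct.inl u := by
      rw [MulEquiv.symm_apply_eq]
      show (u : G) = (SemidirectProduct.monoidHomSubgroup _) (SemidirectProduct.inl u)
      simp
    rw [h1, SemidirectProduct.lift_inl]
    rfl
  · show ψ (e.symm x) = _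
    have h1 : e.symm x = SemidirectProduct.inr ⟨x, Subgroup.mem_zpowers x⟩ := by
      rw [MulEquiv.symm_apply_eq]
      show x = (SemidirectProduct.monoidHomSubgroup _) (SemidirectProduct.inr ⟨x, Subgroup.mem_zpowers x⟩)
      simp
    rw [h1, SemidirectProduct.lift_inr]
    rfl


section comm

variable {V : Type*} [CommGroup V]

/-- The additive endomorphism attached to an automorphism of a commutative group. -/
def addEnd (τ : MulAut V) : AddMonoid.End (Additive V) := MonoidHom.toAdditive τ.toMonoidHom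

theorem addEnd_apply (τ : MulAut V) (w : Additive V) :
    addEnd τ w = Additive.ofMul (τ (Additive.toMul w)) := rfl

theorem addEnd_pow (τ : MulAut V) (k : ℕ) (w : Additive V) :
    (addEnd τ ^ k) w = Additive.ofMul ((τ ^ k) (Additive.toMul w)) := by
  induction k generalizing w with
  | zero =>
    rw [pow_zero, pow_zero]
    rfl
  | succ k ih =>
    have h1 : (addEnd τ ^ (k + 1)) w = (addEnd τ ^ k) (addEnd τ w) := by
      rw [pow_succ]; rfl
    rw [h1, ih, pow_succ, MulAut.mul_apply]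
    rfl

theorem add_hpW {p : ℕ} (hVp : ∀ v : V, v ^ p = 1) : ∀ w : Additive V, p • w = 0 := by
  intro w
  have h := hVp (Additive.toMul w)
  have h2 : p • w = Additive.ofMul (Additive.toMul w ^ p) := by
    rw [ofMul_pow, ofMul_toMul]
  rw [h2, h, ofMul_one]

theorem add_hTq {q : ℕ} (τ : MulAut V) (hτq : τ ^ q = 1) : addEnd τ ^ q = 1 := by
  apply DFunLike.ext
  intro w
  rw [addEnd_pow, hτq]
  rfl

theorem add_hfix (τ : MulAut V) (hfix : ∀ v : V, τ v = v → v = 1) :
    ∀ w : Additive V, addEnd τ w = w → w = 0 := by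
  intro w hw
  have h1 : τ (Additive.toMul w) = Additive.toMul w := congrArg Additive.toMul hw
  have h2 := hfix _ h1
  calc w = Additive.ofMul (Additive.toMul w) := (ofMul_toMul w).symm
    _ = Additive.ofMul 1 := by rw [h2]
    _ = 0 := ofMul_one

theorem comm_exists [Finite V] [Nontrivial V] {p q : ℕ} [Fact p.Prime] [Fact q.Prime]
    (hVp : ∀ v : V, v ^ p = 1) (τ : MulAut V) (hτq : τ ^ q = 1)
    (hfix : ∀ v : V, τ v = v → v = 1) (hprim : orderOf (p : ZMod q) = q - 1) :
    (∀ u v : V, u ≠ 1 → v ≠ 1 → ∃ α : V ≃* V, α u = v ∧ ∀ w, α (τ w) = τ (α w)) ∧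
    (∃ α : V ≃* V, ∀ w, α (τ w) = (τ ^ p) (α w)) := by
  haveI : Finite (Additive V) := Finite.of_equiv V Additive.ofMul
  haveI : Nontrivial (Additive V) := Additive.toMul.nontrivial
  obtain ⟨hA1, hA2⟩ := FrobMod.exists_equiv_of_primitive (add_hpW hVp) (addEnd τ)
    (add_hTq τ hτq) (add_hfix τ hfix) hprim
  constructor
  · intro u v hu hv
    have hu' : Additive.ofMul u ≠ 0 := fun h => hu (ofMul_eq_zero.mp h)
    have hv' : Additive.ofMul v ≠ 0 := fun h => hv (ofMul_eq_zero.mp h)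
    obtain ⟨A, hAu, hAT⟩ := hA1 (Additive.ofMul u) (Additive.ofMul v) hu' hv'
    refine ⟨MulEquiv.toAdditive.symm A, ?_, ?_⟩
    · exact congrArg Additive.toMul hAu
    · intro w
      exact congrArg Additive.toMul (hAT (Additive.ofMul w))
  · obtain ⟨A, hAT⟩ := hA2
    refine ⟨MulEquiv.toAdditive.symm A, ?_⟩
    intro w
    have h := hAT (Additive.ofMul w)
    rw [addEnd_pow] at h
    exact congrArg Additive.toMul h

theorem comm_primitive [Finite V] [Nontrivial V] {p q : ℕ} [Fact p.Prime] [Fact q.Prime]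
    (hpq : p ≠ q) (hVp : ∀ v : V, v ^ p = 1) (τ : MulAut V) (hτq : τ ^ q = 1)
    (hfix : ∀ v : V, τ v = v → v = 1)
    (h1 : ∀ u v : V, u ≠ 1 → v ≠ 1 →
      ∃ (α : V ≃* V) (i : ℕ), α u = v ∧ ∀ w, α (τ w) = (τ ^ i) (α w))
    (h2 : ∀ i : ℕ, ¬ q ∣ i → ∃ α : V ≃* V, ∀ w, α (τ w) = (τ ^ i) (α w)) :
    orderOf (p : ZMod q) = q - 1 := by
  haveI : Finite (Additive V) := Finite.of_equiv V Additive.ofMul
  haveI : Nontrivial (Additive V) := Additive.toMul.nontrivial
  refine FrobMod.primitive_of_equiv hpq (add_hpW hVp) (addEnd τ) (add_hTq τ hτq)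
    (add_hfix τ hfix) ?_ ?_
  · intro u v hu hv
    obtain ⟨α, i, hαu, hατ⟩ := h1 (Additive.toMul u) (Additive.toMul v)
      (fun h => hu (toMul_eq_one.mp h)) (fun h => hv (toMul_eq_one.mp h))
    refine ⟨MulEquiv.toAdditive α, i, ?_, ?_⟩
    · exact congrArg Additive.ofMul hαu
    · intro w
      rw [addEnd_pow]
      exact congrArg Additive.ofMul (hατ (Additive.toMul w))
  · intro i hi
    obtain ⟨α, hατ⟩ := h2 i hi
    refine ⟨MulEquiv.toAdditive α, ?_⟩
    intro w
    rw [addEnd_pow]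
    exact congrArg Additive.ofMul (hατ (Additive.toMul w))

end comm

theorem comm_exists' {V : Type*} [Group V] [Finite V] [Nontrivial V]
    (hcomm : ∀ a b : V, a * b = b * a) {p q : ℕ} [Fact p.Prime] [Fact q.Prime]
    (hVp : ∀ v : V, v ^ p = 1) (τ : MulAut V) (hτq : τ ^ q = 1)
    (hfix : ∀ v : V, τ v = v → v = 1) (hprim : orderOf (p : ZMod q) = q - 1) :
    (∀ u v : V, u ≠ 1 → v ≠ 1 → ∃ α : V ≃* V, α u = v ∧ ∀ w, α (τ w) = τ (α w)) ∧
    (∃ α : V ≃* V, ∀ w, α (τ w) = (τ ^ p) (α w)) := by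
  letI : CommGroup V := { (inferInstance : Group V) with mul_comm := hcomm }
  exact comm_exists hVp τ hτq hfix hprim

theorem comm_primitive' {V : Type*} [Group V] [Finite V] [Nontrivial V]
    (hcomm : ∀ a b : V, a * b = b * a) {p q : ℕ} [Fact p.Prime] [Fact q.Prime]
    (hpq : p ≠ q) (hVp : ∀ v : V, v ^ p = 1) (τ : MulAut V) (hτq : τ ^ q = 1)
    (hfix : ∀ v : V, τ v = v → v = 1)
    (h1 : ∀ u v : V, u ≠ 1 → v ≠ 1 →
      ∃ (α : V ≃* V) (i : ℕ), α u = v ∧ ∀ w, α (τ w) = (τ ^ i) (α w))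
    (h2 : ∀ i : ℕ, ¬ q ∣ i → ∃ α : V ≃* V, ∀ w, α (τ w) = (τ ^ i) (α w)) :
    orderOf (p : ZMod q) = q - 1 := by
  letI : CommGroup V := { (inferInstance : Group V) with mul_comm := hcomm }
  exact comm_primitive hpq hVp τ hτq hfix h1 h2

theorem char_map_mem {G : Type*} [Group G] (V : Subgroup G) (hV : V.Characteristic)
    (ψ : MulAut G) (g : G) (hg : g ∈ V) : ψ g ∈ V := by
  have h1 := hV.fixed ψ
  have h2 : g ∈ V.comap ψ.toMonoidHom := by rw [h1]; exact hg
  exact Subgroup.mem_comap.mp h2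

theorem restrict_aut {G : Type*} [Group G] (V : Subgroup G) (hV : V.Characteristic)
    (φ : MulAut G) : ∃ α : MulAut ↥V, ∀ w : ↥V, ((α w : ↥V) : G) = φ w := by
  refine ⟨{ toFun := fun w => ⟨φ w, char_map_mem V hV φ w w.2⟩
            invFun := fun w => ⟨φ.symm w, char_map_mem V hV φ.symm w w.2⟩
            left_inv := fun w => Subtype.ext (φ.symm_apply_apply w)
            right_inv := fun w => Subtype.ext (φ.apply_symm_apply w)
            map_mul' := fun a b => Subtype.ext (map_mul φ (a : G) (b : G)) }, fun w => rfl⟩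

theorem card_two_primes {n p q : ℕ} (hn : n ≠ 0) (hpq : p ≠ q)
    (h : ∀ r : ℕ, r.Prime → r ∣ n → r = p ∨ r = q) :
    n = p ^ n.factorization p * q ^ n.factorization q := by
  have h1 := Nat.prod_factorization_pow_eq_self hn
  have hsupp : n.factorization.support ⊆ {p, q} := by
    intro r hr
    rw [Nat.support_factorization, Nat.mem_primeFactors] at hr
    rcases h r hr.1 hr.2.1 with h2 | h2
    · rw [h2]; exact Finset.mem_insert_self _ _
    · rw [h2]; exact Finset.mem_insert_of_mem (Finset.mem_singleton_self _)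
  rw [Finsupp.prod_of_support_subset _ hsupp _ (fun i _ => pow_zero i),
    Finset.prod_pair hpq] at h1
  exact h1.symm

theorem prim_pow {p q : ℕ} [Fact p.Prime] [Fact q.Prime]
    (hprim : orderOf (p : ZMod q) = q - 1) (i : ℕ) (hi : ¬ q ∣ i) :
    ∃ k : ℕ, p ^ k ≡ i [MOD q] := by
  have hq : q.Prime := Fact.out
  have hq2 : 2 ≤ q := hq.two_le
  have hpow : (p : ZMod q) ^ (q - 1) = 1 := by rw [← hprim]; exact pow_orderOf_eq_one _
  have hp0 : (p : ZMod q) ≠ 0 := by
    intro h0
    rw [h0, zero_pow (by omega)] at hpow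
    exact zero_ne_one hpow
  have hi0 : (i : ZMod q) ≠ 0 := by
    intro h0
    exact hi ((ZMod.natCast_eq_zero_iff i q).mp h0)
  obtain ⟨up, hup0⟩ : ∃ up : (ZMod q)ˣ, (up : ZMod q) = (p : ZMod q) := ⟨Units.mk0 _ hp0, rfl⟩
  obtain ⟨ui, hui0⟩ : ∃ ui : (ZMod q)ˣ, (ui : ZMod q) = (i : ZMod q) := ⟨Units.mk0 _ hi0, rfl⟩
  have hup : orderOf up = q - 1 := by
    rw [← hprim, ← hup0, orderOf_units]
  have htop : Subgroup.zpowers up = ⊤ := by
    apply Subgroup.eq_top_of_card_eq
    rw [Nat.card_zpowers, hup, Nat.card_eq_fintype_card, ZMod.card_units]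
  have hmem : ui ∈ Subgroup.zpowers up := by rw [htop]; exact Subgroup.mem_top _
  have hmem2 : ui ∈ Submonoid.powers up := mem_powers_iff_mem_zpowers.mpr hmem
  obtain ⟨k, hk⟩ := (Submonoid.mem_powers_iff _ _).mp hmem2
  refine ⟨k, ?_⟩
  rw [← ZMod.natCast_eq_natCast_iff]
  have h3 := congrArg Units.val hk
  rw [Units.val_pow_eq_pow_val, hup0, hui0] at h3
  push_cast
  exact h3

/-- Backward core: transitivity of `Aut G` on `P ∖ 1` and the Frobenius twist on `x`. -/
theorem aut_trans {G : Type*} [Group G] [Finite G] {p q : ℕ} [Fact p.Prime] [Fact q.Prime]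
    (hpq : p ≠ q) (P : Subgroup G) [P.Normal] (hP1 : P ≠ ⊥)
    (hPab : ∀ a ∈ P, ∀ b ∈ P, a * b = b * a) (hPp : ∀ a ∈ P, a ^ p = 1)
    (hcard : Nat.card G = Nat.card P * q)
    (hprim : orderOf (p : ZMod q) = q - 1)
    (hfpf : ∀ g : G, orderOf g = q → ∀ y ∈ P, y ≠ 1 → g * y * g⁻¹ ≠ y)
    (x : G) (hx : orderOf x = q) :
    (∀ u ∈ P, ∀ v ∈ P, u ≠ 1 → v ≠ 1 → ∃ φ : MulAut G, φ u = v) ∧
    (∃ φ : MulAut G, φ x = x ^ p) := by
  classical
  have hp : p.Prime := Fact.out
  have hq : q.Prime := Fact.out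
  haveI : Nontrivial ↥P := (Subgroup.nontrivial_iff_ne_bot P).mpr hP1
  have hVp : ∀ v : ↥P, v ^ p = 1 := fun v => Subtype.ext (by
    rw [Subgroup.coe_pow]; exact hPp v v.2)
  have hτq : (MulAut.conjNormal x : MulAut ↥P) ^ q = 1 := by
    rw [← map_pow, ← hx, pow_orderOf_eq_one, map_one]
  have hfixP : ∀ v : ↥P, (MulAut.conjNormal x : MulAut ↥P) v = v → v = 1 := by
    intro v hv
    by_contra hv1
    have h1 : x * (v : G) * x⁻¹ = v := by
      have h0 := congrArg Subtype.val hv
      rw [MulAut.conjNormal_apply] at h0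
      exact h0
    exact hfpf x hx v v.2 (fun h => hv1 (Subtype.ext h)) h1
  have hcardK : Nat.card (Subgroup.zpowers x) = q := by rw [Nat.card_zpowers, hx]
  have hPpg : IsPGroup p ↥P := fun g => ⟨1, by rw [pow_one]; exact hVp g⟩
  have hcop : (Nat.card ↥P).Coprime (Nat.card (Subgroup.zpowers x)) := by
    rw [hcardK]
    obtain ⟨n, hn⟩ := IsPGroup.iff_card.mp hPpg
    rw [hn]
    exact Nat.Coprime.pow_left n ((Nat.coprime_primes hp hq).mpr hpq)
  have hc : P.IsComplement' (Subgroup.zpowers x) :=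
    Subgroup.isComplement'_of_coprime (by rw [hcardK]; exact hcard.symm) hcop
  obtain ⟨hA1, hA2⟩ := comm_exists' (fun a b : ↥P => Subtype.ext (hPab a a.2 b b.2)) hVp
    (MulAut.conjNormal x) hτq hfixP hprim
  constructor
  · intro u hu v hv hu1 hv1
    obtain ⟨α, hαu, hατ⟩ := hA1 ⟨u, hu⟩ ⟨v, hv⟩ (fun h => hu1 (congrArg Subtype.val h))
      (fun h => hv1 (congrArg Subtype.val h))
    obtain ⟨φ, hφ1, _⟩ := ext_aut P x q hx hc α 1
      (fun h => hq.one_lt.ne' (Nat.dvd_one.mp h)) (by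
        intro w; rw [pow_one]; exact hατ w)
    refine ⟨φ, ?_⟩
    have h3 := hφ1 ⟨u, hu⟩
    rw [hαu] at h3
    exact h3
  · obtain ⟨α, hατ⟩ := hA2
    obtain ⟨φ, _, hφ2⟩ := ext_aut P x q hx hc α p
      (fun h => hpq ((Nat.prime_dvd_prime_iff_eq hq hp).mp h).symm) (by
        intro w; rw [map_pow]; exact hατ w)
    exact ⟨φ, hφ2⟩

/-- Forward core. -/
theorem forward_core {G : Type*} [Group G] [Finite G] {p q : ℕ} [Fact p.Prime] [Fact q.Prime]
    (hpq : p ≠ q)
    (hord : ∀ g : G, orderOf g = 1 ∨ orderOf g = p ∨ orderOf g = q)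
    (hp1 : ∀ g h : G, orderOf g = p → orderOf h = p → ∃ φ : MulAut G, φ g = h)
    (hq1 : ∀ g h : G, orderOf g = q → orderOf h = q → ∃ φ : MulAut G, φ g = h)
    (V : Subgroup G) (hVc : V.Characteristic) (hV1 : V ≠ ⊥)
    (hVab : ∀ a ∈ V, ∀ b ∈ V, a * b = b * a) (hVp : ∀ a ∈ V, a ^ p = 1)
    (x : G) (hx : orderOf x = q) :
    ∃ n : ℕ, 1 ≤ n ∧ Nat.card G = p ^ n * q ∧
      (∀ P : Sylow p G, (P : Subgroup G).Normal ∧ Cfsg.IsElementaryAbelian p (P : Subgroup G)) ∧
      orderOf (p : ZMod q) = q - 1 ∧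
      ∀ x y : G, orderOf x = q → orderOf y = p → x * y * x⁻¹ ≠ y := by
  classical
  have hp : p.Prime := Fact.out
  have hq : q.Prime := Fact.out
  have hp2 : 2 ≤ p := hp.two_le
  have hq2 : 2 ≤ q := hq.two_le
  haveI hVn : V.Normal := @Subgroup.normal_of_characteristic _ _ V hVc
  haveI : Nontrivial ↥V := (Subgroup.nontrivial_iff_ne_bot V).mpr hV1
  -- an element of order p in V
  obtain ⟨v₀, hv₀⟩ := Subgroup.ne_bot_iff_exists_ne_one.mp hV1
  have hv₀p : orderOf (v₀ : G) = p :=
    orderOf_eq_prime (hVp v₀ v₀.2) (fun h => hv₀ (Subtype.ext h))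
  -- elements of order p lie in V
  have hpV : ∀ g : G, orderOf g = p → g ∈ V := by
    intro g hg
    obtain ⟨φ, hφ⟩ := hp1 v₀ g hv₀p hg
    rw [← hφ]
    exact char_map_mem V hVc φ v₀ v₀.2
  -- fixed point freeness
  have hfpf : ∀ g y : G, orderOf g = q → orderOf y = p → g * y * g⁻¹ ≠ y := by
    intro g y hg hy hgy
    have hcomm : Commute g y := by
      show g * y = y * g
      calc g * y = g * y * g⁻¹ * g := by group
        _ = y * g := by rw [hgy]
    have h1 := hcomm.orderOf_mul_eq_mul_orderOf_of_coprime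
      (by rw [hg, hy]; exact (Nat.coprime_primes hq hp).mpr hpq.symm)
    rw [hg, hy] at h1
    have e1 : 2 * 2 ≤ q * p := Nat.mul_le_mul hq2 hp2
    have e2 : 2 * p ≤ q * p := Nat.mul_le_mul_right p hq2
    have e3 : q * 2 ≤ q * p := Nat.mul_le_mul_left q hp2
    rcases hord (g * y) with h2 | h2 | h2
    · rw [h2] at h1; omega
    · rw [h2] at h1; omega
    · rw [h2] at h1; omega
  have hVpg : IsPGroup p ↥V := fun g => ⟨1, by
    rw [pow_one]; exact Subtype.ext (by rw [Subgroup.coe_pow]; exact hVp g g.2)⟩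
  -- every Sylow p-subgroup is V
  have hSyl : ∀ S : Sylow p G, (S : Subgroup G) = V := by
    intro S
    have hle : (S : Subgroup G) ≤ V := by
      intro g hg
      obtain ⟨k, hk⟩ := S.isPGroup' ⟨g, hg⟩
      have hk' : g ^ p ^ k = 1 := by
        have h0 := congrArg Subtype.val hk
        rw [Subgroup.coe_pow] at h0
        exact h0
      have hdvd : orderOf g ∣ p ^ k := orderOf_dvd_of_pow_eq_one hk'
      rcases hord g with h | h | h
      · rw [orderOf_eq_one_iff.mp h]; exact V.one_mem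
      · exact hpV g h
      · exfalso
        rw [h] at hdvd
        exact hpq.symm ((Nat.prime_dvd_prime_iff_eq hq hp).mp (hq.dvd_of_dvd_pow hdvd))
    exact (S.is_maximal' hVpg hle).symm
  have hfix : ∀ g : G, g ≠ 1 → g ^ q = 1 → ∀ v ∈ V, g * v * g⁻¹ = v → v = 1 := by
    intro g hg1 hgq v hv hgv
    by_contra hv1
    exact hfpf g v (orderOf_eq_prime hgq hg1) (orderOf_eq_prime (hVp v hv) hv1) hgv
  have hQelt : ∀ (Q : Sylow q G) (g : G), g ∈ (Q : Subgroup G) → g ^ q = 1 := by
    intro Q g hg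
    obtain ⟨k, hk⟩ := Q.isPGroup' ⟨g, hg⟩
    have hk' : g ^ q ^ k = 1 := by
      have h0 := congrArg Subtype.val hk
      rw [Subgroup.coe_pow] at h0
      exact h0
    have hdvd : orderOf g ∣ q ^ k := orderOf_dvd_of_pow_eq_one hk'
    rcases hord g with h | h | h
    · rw [orderOf_eq_one_iff.mp h, one_pow]
    · exfalso
      rw [h] at hdvd
      exact hpq ((Nat.prime_dvd_prime_iff_eq hp hq).mp (hp.dvd_of_dvd_pow hdvd))
    · rw [← h]; exact pow_orderOf_eq_one g
  have hqdvdG : q ∣ Nat.card G := hx ▸ orderOf_dvd_natCard x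
  have hpdvdG : p ∣ Nat.card G := hv₀p ▸ orderOf_dvd_natCard (v₀ : G)
  have hQcard : ∀ Q : Sylow q G, Nat.card (Q : Subgroup G) = q := by
    intro Q
    have hqdvd : q ∣ Nat.card (Q : Subgroup G) := Q.dvd_card_of_dvd_card hqdvdG
    have hqle : q ≤ Nat.card (Q : Subgroup G) := Nat.le_of_dvd Nat.card_pos hqdvd
    haveI : Nontrivial ↥(Q : Subgroup G) := by
      rw [← Finite.one_lt_card_iff_nontrivial]
      omega
    haveI := Q.isPGroup'.center_nontrivial
    obtain ⟨z, hz1⟩ := exists_ne (1 : ↥(Subgroup.center ↥(Q : Subgroup G)))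
    have hzc : ∀ g : ↥(Q : Subgroup G), g * z.1 = z.1 * g := Subgroup.mem_center_iff.mp z.2
    have hzG1 : (z.1 : G) ≠ 1 := fun h => hz1 (Subtype.ext (Subtype.ext h))
    have hzq : (z.1 : G) ^ q = 1 := hQelt Q _ z.1.2
    have hle : (Q : Subgroup G) ≤ Subgroup.zpowers (z.1 : G) := by
      intro y hy
      have hcomm : (z.1 : G) * y = y * (z.1 : G) := by
        have h1 := hzc ⟨y, hy⟩
        have h2 := congrArg Subtype.val h1
        exact h2.symm
      exact SolvPG.rank_two V hV1 hVab p hp hVp q hq hpq hfix _ y hcomm hzq (hQelt Q y hy) hzG1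
    have hcard_le : Nat.card (Q : Subgroup G) ≤ Nat.card (Subgroup.zpowers (z.1 : G)) :=
      Subgroup.card_le_of_le hle
    rw [Nat.card_zpowers, orderOf_eq_prime hzq hzG1] at hcard_le
    exact le_antisymm hcard_le hqle
  -- the order of G
  obtain ⟨n, hn⟩ : ∃ n : ℕ, n = (Nat.card G).factorization p := ⟨_, rfl⟩
  have hG0 : Nat.card G ≠ 0 := Nat.card_pos.ne'
  have hn1 : 1 ≤ n := by
    rw [hn]
    exact Nat.Prime.factorization_pos_of_dvd hp hG0 hpdvdG
  obtain ⟨Q⟩ := (inferInstance : Nonempty (Sylow q G))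
  obtain ⟨S⟩ := (inferInstance : Nonempty (Sylow p G))
  have hcardG : Nat.card G = p ^ n * q := by
    have h1 : ∀ r : ℕ, r.Prime → r ∣ Nat.card G → r = p ∨ r = q := by
      intro r hr hrd
      haveI : Fact r.Prime := ⟨hr⟩
      obtain ⟨g, hg⟩ := exists_prime_orderOf_dvd_card' r hrd
      rcases hord g with h | h | h
      · exfalso
        rw [hg] at h
        exact hr.one_lt.ne' h
      · left; rw [← hg, h]
      · right; rw [← hg, h]
    have h2 := card_two_primes hG0 hpq h1
    have h3 := Q.card_eq_multiplicity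
    rw [hQcard Q] at h3
    rw [← h3, ← hn] at h2
    exact h2
  have hcardV : Nat.card ↥V = p ^ n := by
    have h3 := S.card_eq_multiplicity
    rw [hSyl S, ← hn] at h3
    exact h3
  have hcardK : Nat.card (Subgroup.zpowers x) = q := by rw [Nat.card_zpowers, hx]
  have hc : V.IsComplement' (Subgroup.zpowers x) := by
    apply Subgroup.isComplement'_of_coprime
    · rw [hcardK, hcardV, hcardG]
    · rw [hcardK, hcardV]
      exact Nat.Coprime.pow_left n ((Nat.coprime_primes hp hq).mpr hpq)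
  have hdecomp : ∀ g : G, ∃ (a : G) (m : ℕ), a ∈ V ∧ g = a * x ^ m := by
    intro g
    have hsurj : Function.Surjective
        (fun y : ↥V × ↥(Subgroup.zpowers x) => (y.1 : G) * (y.2 : G)) := hc.2
    obtain ⟨⟨a, b⟩, hab⟩ := hsurj g
    have h1 : (b : G) ∈ Submonoid.powers x := mem_powers_iff_mem_zpowers.mpr b.2
    obtain ⟨m, hm⟩ := (Submonoid.mem_powers_iff _ _).mp h1
    refine ⟨a, m, a.2, ?_⟩
    rw [hm]
    exact hab.symm
  -- the primitive root
  have hVp' : ∀ v : ↥V, v ^ p = 1 := fun v => Subtype.ext (by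
    rw [Subgroup.coe_pow]; exact hVp v v.2)
  have hτq : (MulAut.conjNormal x : MulAut ↥V) ^ q = 1 := by
    rw [← map_pow, ← hx, pow_orderOf_eq_one, map_one]
  have hfixV : ∀ v : ↥V, (MulAut.conjNormal x : MulAut ↥V) v = v → v = 1 := by
    intro v hv
    have h1 : x * (v : G) * x⁻¹ = v := by
      have h0 := congrArg Subtype.val hv
      rw [MulAut.conjNormal_apply] at h0
      exact h0
    have h2 := hfix x (fun h => by rw [h, orderOf_one] at hx; omega)
      (by rw [← hx]; exact pow_orderOf_eq_one x) v v.2 h1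
    exact Subtype.ext h2
  have hprim : orderOf (p : ZMod q) = q - 1 := by
    refine comm_primitive' (fun a b : ↥V => Subtype.ext (hVab a a.2 b b.2)) hpq hVp'
      (MulAut.conjNormal x) hτq hfixV ?_ ?_
    · intro u v hu hv
      have hu' : orderOf (u : G) = p :=
        orderOf_eq_prime (hVp u u.2) (fun h => hu (Subtype.ext h))
      have hv' : orderOf (v : G) = p :=
        orderOf_eq_prime (hVp v v.2) (fun h => hv (Subtype.ext h))
      obtain ⟨φ, hφ⟩ := hp1 u v hu' hv'
      obtain ⟨α, hα⟩ := restrict_aut V hVc φ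
      obtain ⟨a, m, ha, hm⟩ := hdecomp (φ x)
      refine ⟨α, m, ?_, ?_⟩
      · apply Subtype.ext
        rw [hα]; exact hφ
      · intro w
        apply Subtype.ext
        have hpow : (MulAut.conjNormal x : MulAut ↥V) ^ m = MulAut.conjNormal (x ^ m) :=
          (map_pow (MulAut.conjNormal (H := V)) x m).symm
        rw [hα, hpow, MulAut.conjNormal_apply, MulAut.conjNormal_apply, hα, map_mul, map_mul,
          map_inv, hm]
        have hφw : φ (w : G) ∈ V := char_map_mem V hVc φ w w.2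
        generalize x ^ m = X
        have hX : X * φ (w : G) * X⁻¹ ∈ V := hVn.conj_mem _ hφw X
        have h3 : a * X * φ (w : G) * (a * X)⁻¹ = a * (X * φ (w : G) * X⁻¹) * a⁻¹ := by group
        rw [h3, hVab a ha _ hX, mul_inv_cancel_right]
    · intro i hi
      have hxi : orderOf (x ^ i) = q := by
        rw [Nat.Coprime.orderOf_pow (by rw [hx]; exact (Nat.Prime.coprime_iff_not_dvd hq).mpr hi),
          hx]
      obtain ⟨φ, hφ⟩ := hq1 x (x ^ i) hx hxi
      obtain ⟨α, hα⟩ := restrict_aut V hVc φ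
      refine ⟨α, ?_⟩
      intro w
      apply Subtype.ext
      have hpow : (MulAut.conjNormal x : MulAut ↥V) ^ i = MulAut.conjNormal (x ^ i) :=
        (map_pow (MulAut.conjNormal (H := V)) x i).symm
      rw [hα, hpow, MulAut.conjNormal_apply, MulAut.conjNormal_apply, hα, map_mul, map_mul,
        map_inv, hφ]
  refine ⟨n, hn1, hcardG, ?_, hprim, hfpf⟩
  intro S'
  have hS := hSyl S'
  constructor
  · rw [hS]; exact hVn
  · rw [hS]
    exact ⟨isMulCommutative_iff.mpr (fun a b : ↥V => Subtype.ext (hVab a a.2 b b.2)), hVp⟩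

/-- The `Aut G`-orbit class of an element. -/
def cls {G : Type*} [Group G] (g : G) : MulAction.orbitRel.Quotient (MulAut G) G :=
  Quotient.mk'' g

theorem cls_eq {G : Type*} [Group G] (g h : G) :
    cls g = cls h ↔ ∃ φ : MulAut G, φ h = g :=
  Quotient.eq''.trans (MulAction.orbitRel_apply.trans MulAction.mem_orbit_iff)

theorem cls_surj {G : Type*} [Group G] (c : MulAction.orbitRel.Quotient (MulAut G) G) :
    ∃ g : G, cls g = c :=
  Quotient.inductionOn' c (fun g => ⟨g, rfl⟩)

theorem cls_order {G : Type*} [Group G] {g h : G} (hgh : cls g = cls h) :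
    orderOf g = orderOf h := by
  obtain ⟨φ, hφ⟩ := (cls_eq g h).mp hgh
  rw [← hφ, MulEquiv.orderOf_eq]

theorem iter_pow {G : Type*} [Group G] (φ : MulAut G) (x : G) (p : ℕ) (h : φ x = x ^ p)
    (k : ℕ) : (φ ^ k) x = x ^ (p ^ k) := by
  induction k with
  | zero =>
    rw [pow_zero, pow_zero, pow_one]
    rfl
  | succ k ih =>
    rw [pow_succ', MulAut.mul_apply, ih, map_pow, h, ← pow_mul, ← pow_succ']

end Cfsg.Agent.Helper20.ThreeOrb
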